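import Cfsg.Agent.R2.PX.W.Delta
import Cfsg.Agent.R2.PX.Kap
import Cfsg.Agent.R2.PX.Conf

/-! # Part B of pattern X: application to the module `V F` of `E₇` (helper26). -/

set_option autoImplicit false
set_option maxRecDepth 100000

namespace Cfsg.Agent.R2.PX.W

open Cfsg Cfsg.Lie Matrix
open Cfsg.Agent.R2.T1
open Cfsg.Agent.R2.PX
open Cfsg.Agent.H943.E7V.Block (D1 rho)

universe u
variable {F : Type u} [Field F]

/-- `N` acts as a derivation -/
def IsD (N : Matrix D1 D1 F) : Prop :=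
  ∀ x y, N * DD F x y - DD F x y * N = DD F (N *ᵥ x) y + DD F x (N *ᵥ y)

theorem IsD.zero : IsD (0 : Matrix D1 D1 F) := fun x y => by
  rw [Matrix.zero_mul, Matrix.mul_zero, Matrix.zero_mulVec, Matrix.zero_mulVec, DD_zero_left,
    DD_zero_right]
  simp

theorem IsD.add {A B : Matrix D1 D1 F} (hA : IsD A) (hB : IsD B) : IsD (A + B) := fun x y => by
  rw [Matrix.add_mul, Matrix.mul_add, Matrix.add_mulVec, Matrix.add_mulVec, DD_add_left,
    DD_add_right]
  have h1 := hA x y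
  have h2 := hB x y
  calc A * DD F x y + B * DD F x y - (DD F x y * A + DD F x y * B)
      = (A * DD F x y - DD F x y * A) + (B * DD F x y - DD F x y * B) := by abel
    _ = _ := by rw [h1, h2]; abel

theorem IsD.smul {A : Matrix D1 D1 F} (c : F) (hA : IsD A) : IsD (c • A) := fun x y => by
  rw [Matrix.smul_mul, Matrix.mul_smul, Matrix.smul_mulVec, Matrix.smul_mulVec, DD_smul_left,
    DD_smul_right, ← smul_sub, hA x y, smul_add]

theorem IsD.sum {ι : Type*} (s : Finset ι) {A : ι → Matrix D1 D1 F} (hA : ∀ i, IsD (A i)) :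
    IsD (∑ i ∈ s, A i) := by
  classical
  induction s using Finset.induction_on with
  | empty => rw [Finset.sum_empty]; exact IsD.zero
  | insert a s ha ih => rw [Finset.sum_insert ha]; exact (hA a).add ih

theorem IsD.comm {A B : Matrix D1 D1 F} (hA : IsD A) (hB : IsD B) : IsD (A * B - B * A) := by
  intro x y
  have a1 := hA x y
  have b1 := hB x y
  have a2 := hA (B *ᵥ x) y
  have a3 := hA x (B *ᵥ y)
  have b2 := hB (A *ᵥ x) y
  have b3 := hB x (A *ᵥ y)
  rw [Matrix.sub_mulVec, Matrix.sub_mulVec, ← Matrix.mulVec_mulVec, ← Matrix.mulVec_mulVec,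
    ← Matrix.mulVec_mulVec, ← Matrix.mulVec_mulVec]
  have e1 : DD F (A *ᵥ B *ᵥ x - B *ᵥ A *ᵥ x) y = DD F (A *ᵥ B *ᵥ x) y - DD F (B *ᵥ A *ᵥ x) y := by
    rw [sub_eq_add_neg, DD_add_left, DD_neg_left, ← sub_eq_add_neg]
  have e2 : DD F x (A *ᵥ B *ᵥ y - B *ᵥ A *ᵥ y) = DD F x (A *ᵥ B *ᵥ y) - DD F x (B *ᵥ A *ᵥ y) := by
    rw [sub_eq_add_neg, DD_add_right, DD_neg_right, ← sub_eq_add_neg]
  rw [e1, e2]
  have c1 := congrArg (fun M => A * M - M * A) b1
  have c2 := congrArg (fun M => B * M - M * B) a1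
  simp only [Matrix.mul_add, Matrix.add_mul] at c1 c2
  have d1 : A * (B * DD F x y - DD F x y * B) - (B * DD F x y - DD F x y * B) * A
      = (DD F (A *ᵥ B *ᵥ x) y + DD F (B *ᵥ x) (A *ᵥ y))
        + (DD F (A *ᵥ x) (B *ᵥ y) + DD F x (A *ᵥ B *ᵥ y)) := by
    rw [c1, ← a2, ← a3]; abel
  have d2 : B * (A * DD F x y - DD F x y * A) - (A * DD F x y - DD F x y * A) * B
      = (DD F (B *ᵥ A *ᵥ x) y + DD F (A *ᵥ x) (B *ᵥ y))
        + (DD F (B *ᵥ x) (A *ᵥ y) + DD F x (B *ᵥ A *ᵥ y)) := by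
    rw [c2, ← b2, ← b3]; abel
  calc (A * B - B * A) * DD F x y - DD F x y * (A * B - B * A)
      = (A * (B * DD F x y - DD F x y * B) - (B * DD F x y - DD F x y * B) * A)
        - (B * (A * DD F x y - DD F x y * A) - (A * DD F x y - DD F x y * A) * B) := by
        noncomm_ring
    _ = _ := by rw [d1, d2]; abel

section five
variable [CharP F 5]

theorem isD_NM {r : ℕ} (hr : r < 126) : IsD (NM F r) := by
  intro x y
  set N := NM F r
  set A := DD F (N *ᵥ x) y + DD F x (N *ᵥ y) + DD F x y * N - N * DD F x y with hA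
  set B := DD F (N *ᵥ x) (N *ᵥ y) + (DD F (N *ᵥ x) y + DD F x (N *ᵥ y)) * N with hB
  set C := DD F (N *ᵥ x) (N *ᵥ y) * N with hC
  have key : ∀ t : F, t • A + t ^ 2 • B + t ^ 3 • C = 0 := by
    intro t
    have h := DD_equi (xs F r t) x y
    have e : rho F (xs F r t) = 1 + t • N := rho_xs' hr t
    rw [V_xs hr, V_xs hr, e] at h
    change DD F (x + t • (N *ᵥ x)) (y + t • (N *ᵥ y)) * (1 + t • N) = (1 + t • N) * DD F x y at h
    rw [DD_add_left, DD_add_right, DD_add_right, DD_smul_left, DD_smul_left, DD_smul_right,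
      DD_smul_right] at h
    have h' := sub_eq_zero.2 h
    rw [← h', hA, hB, hC]
    simp only [Matrix.mul_add, Matrix.add_mul, Matrix.mul_one, Matrix.one_mul, Matrix.smul_mul,
      Matrix.mul_smul, smul_add, smul_sub, smul_smul]
    module
  have k1 := key 1
  have k2 := key (-1)
  have k3 := key 2
  have h5 : ∀ M : Matrix D1 D1 F, (5 : F) • M = 0 := fun M => by rw [five_zero, zero_smul]
  have hA0 : A = 0 := by
    -- 2A + 8C = 0, A + C = 0 (from k1 - k2)
    have l1 : (2 : F) • (A + C) = 0 := by linear_combination (norm := module) k1 - k2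
    have l2 : A + C = 0 := (smul_eq_zero.1 l1).resolve_left two_ne
    have l3 : (2 : F) • B = 0 := by linear_combination (norm := module) k1 + k2
    linear_combination (norm := module) (-1 : F) • k3 + (2 : F) • l3 + (8 : F) • l2 - h5 A
  have : N * DD F x y - DD F x y * N - (DD F (N *ᵥ x) y + DD F x (N *ᵥ y)) = -A := by
    rw [hA]; abel
  rw [hA0, neg_zero] at this
  exact sub_eq_zero.1 this

theorem isD_Hd {r : ℕ} (hr : r < 126) : IsD (Hd F r) := by
  rw [← NM_comm_neg hr]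
  exact (isD_NM hr).comm (isD_NM (by omega))

theorem simple_coroot : ∀ i : Fin chevE7.rank, ∀ j : Fin chevE7.rank,
    (chevE7.coroot.getD (([93, 78, 73, 69, 66, 64, 63] : List ℕ).getD i 0) #[]).getD j 0
      = if i = j then (1 : ℤ) else 0 := by
  decide +kernel

theorem simple_lt : ∀ i : Fin chevE7.rank, ([93, 78, 73, 69, 66, 64, 63] : List ℕ).getD i 0 < 126 := by
  decide

theorem isD_Hi (i : Fin chevE7.rank) : IsD (Hi F i) := by
  have h : Hd F (([93, 78, 73, 69, 66, 64, 63] : List ℕ).getD i 0) = Hi F i := by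
    rw [Hd_eq, Finset.sum_eq_single i]
    · rw [simple_coroot i i, if_pos rfl, Int.cast_one, one_smul]
    · intro j _ hj
      rw [simple_coroot i j, if_neg (fun h => hj h.symm), Int.cast_zero, zero_smul]
    · intro h; exact absurd (Finset.mem_univ _) h
  rw [← h]
  exact isD_Hd (simple_lt i)

theorem isD_del (z : chevE7.Idx → F) : IsD (del F z) := by
  rw [del_apply]
  exact (IsD.sum _ fun i => (isD_Hi i).smul _).add
    (IsD.sum _ fun s => (isD_NM s.2).smul _)

/-- `DD x y` is a derivation -/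
theorem DD_der (x y z w u : D1 → F) : DD F x y *ᵥ (DD F z w *ᵥ u) =
    DD F (DD F x y *ᵥ z) w *ᵥ u + DD F z (DD F x y *ᵥ w) *ᵥ u + DD F z w *ᵥ (DD F x y *ᵥ u) := by
  have h := isD_del (dd x y) z w
  rw [del_dd] at h
  have h' := congrArg (fun M => M *ᵥ u) h
  simp only [Matrix.sub_mulVec, Matrix.add_mulVec, ← Matrix.mulVec_mulVec] at h'
  rw [← h']; abel

/-- the triple system of the module -/
noncomputable def Sy (F : Type u) [Field F] [CharP F 5] : Fts F (D1 → F) where
  om := sf F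
  D := LinearMap.mk₂ F (fun x y => Matrix.mulVecLin (DD F x y))
    (fun x x' y => by rw [DD_add_left, Matrix.mulVecLin_add])
    (fun c x y => by rw [DD_smul_left]; ext1 z; simp)
    (fun x y y' => by rw [DD_add_right, Matrix.mulVecLin_add])
    (fun c x y => by rw [DD_smul_right]; ext1 z; simp)
  om_self := sf_self
  D_comm x y := by
    rw [LinearMap.mk₂_apply, LinearMap.mk₂_apply, DD_comm]
  om_D x y z w := sf_DD x y z w
  D_D x y z w u := DD_der x y z w u
  D_swap x y z := ident x y z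

theorem Sy_om (x y : D1 → F) : (Sy F).om x y = sf F x y := rfl

theorem Sy_D (x y z : D1 → F) : (Sy F).D x y z = DD F x y *ᵥ z := rfl

/-- configurations in existential form -/
structure Cfg (F : Type u) [Field F] (v : Fin 8 → D1 → F) : Prop where
  act : ∀ π : Equiv.Perm (Fin 8), Equiv.Perm.sign π = 1 → ∃ g : Gh F, ∀ i, V F g (v i) = v (π i)
  sum : ∑ i, v i = 0
  pure : ∀ i, Pure F (v i)
  ne : sf F (v 0) (DD F (v 1) (v 2) *ᵥ v 3) ≠ 0

theorem Cfg.isCfg {v : Fin 8 → D1 → F} (h : Cfg F v) : IsCfg (Sy F) v := by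
  refine ⟨five_zero, h.sum, fun i => ?_, fun π hπ => ?_⟩
  · refine LinearMap.ext fun z => ?_
    change DD F (v i) (v i) *ᵥ z = 0
    rw [h.pure i, Matrix.zero_mulVec]
  · obtain ⟨g, hg⟩ := h.act π hπ
    exact ⟨V F g, fun x y => sf_V g x y, fun x y z => DD_V g x y z, hg⟩

omit [CharP F 5] in
theorem _root_.Cfsg.Agent.R2.PX.Config.cfg {ψ : ↥(alternatingGroup (Fin 8)) →* Gh F}
    {v : Fin 8 → D1 → F} (h : Config F ψ v) : Cfg F v :=
  ⟨fun π hπ => ⟨ψ ⟨π, Equiv.Perm.mem_alternatingGroup.2 hπ⟩, fun i => h.act _ i⟩, h.sum, h.pure,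
    h.ne⟩

/-- **Part B**: two configurations are related by a similitude. -/
theorem exists_isSim {u v : Fin 8 → D1 → F} (hu : Cfg F u) (hv : Cfg F v) :
    ∃ (Θ : (D1 → F) ≃ₗ[F] (D1 → F)) (b : F), IsSim F Θ b ∧ ∀ i, Θ (u i) = v i := by
  obtain ⟨Θ, b, h0, h1, h2, h3⟩ := exists_sim hu.isCfg hv.isCfg hu.ne hv.ne finrank_V finrank_V
    (fun x hx => sf_nondeg' hx) (fun x hx => sf_nondeg' hx)
  exact ⟨Θ, b, ⟨h0, h1, h2⟩, h3⟩

end five

end Cfsg.Agent.R2.PX.W
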