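import Cfsg.Agent.R2.PX.W.Words

/-! # Part B of pattern X: the algebra of the words `v`, `t`, `y`. -/

namespace Cfsg.Agent.R2.PX.W

open Equiv

set_option linter.unusedSimpArgs false

variable {k V : Type*} [Field k] [AddCommGroup V] [Module k V]

/-- the constant `a = om(v_0, t_123)` -/
def aa (S : Fts k V) (v : Fin 8 → V) : k := S.om (v 0) (T S v 1 2 3)

variable {S : Fts k V} {v : Fin 8 → V}

theorem IsCfg.vec (h : IsCfg S v) {i j l m n o p q : Fin 8}
    (nd : [i, j, l, m, n, o, p, q].Nodup) :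
    IsCfg S ![v i, v j, v l, v m, v n, v o, v p, v q] := by
  obtain ⟨s, hs⟩ := exists_perm nd
  rw [← hs v]
  exact h.comp s

theorem ext7 {i j l m n o p : Fin 8} (nd : [i, j, l, m, n, o, p].Nodup) :
    ∃ q, [i, j, l, m, n, o, p, q].Nodup := exists_next _ nd (by simp)

theorem ext6 {i j l m n o : Fin 8} (nd : [i, j, l, m, n, o].Nodup) :
    ∃ p q, [i, j, l, m, n, o, p, q].Nodup := by
  obtain ⟨p, hp⟩ := exists_next _ nd (by simp)
  exact ⟨p, ext7 hp⟩

theorem ext5 {i j l m n : Fin 8} (nd : [i, j, l, m, n].Nodup) :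
    ∃ o p q, [i, j, l, m, n, o, p, q].Nodup := by
  obtain ⟨o, ho⟩ := exists_next _ nd (by simp)
  exact ⟨o, ext6 ho⟩

theorem ext4 {i j l m : Fin 8} (nd : [i, j, l, m].Nodup) :
    ∃ n o p q, [i, j, l, m, n, o, p, q].Nodup := by
  obtain ⟨n, hn⟩ := exists_next _ nd (by simp)
  exact ⟨n, ext5 hn⟩

theorem ext2 {i j : Fin 8} (nd : i ≠ j) :
    ∃ l m n o p q, [i, j, l, m, n, o, p, q].Nodup := by
  obtain ⟨l, hl⟩ := exists_next [i, j] (by simpa using nd) (by simp)
  obtain ⟨m, hm⟩ := exists_next _ hl (by simp)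
  exact ⟨l, m, ext4 hm⟩

namespace IsCfg

theorem orth (h : IsCfg S v) (i j : Fin 8) : S.om (v i) (v j) = 0 := by
  have key : ∀ w, IsCfg S w → S.om (w 0) (w 1) = 0 := by
    intro w hw
    obtain ⟨g, g1, g2, g3⟩ := hw.eqv (swap 0 1 * swap 2 3) (by decide)
    have e := g1 (w 0) (w 1)
    rw [g3, g3] at e
    have e1 : (swap 0 1 * swap 2 3 : Perm (Fin 8)) 0 = 1 := by decide
    have e2 : (swap 0 1 * swap 2 3 : Perm (Fin 8)) 1 = 0 := by decide
    rw [e1, e2, S.om_anti] at e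
    have : 2 * S.om (w 0) (w 1) = 0 := by linear_combination (-1 : k) * e
    simpa [hw.two] using this
  by_cases hij : i = j
  · subst hij; exact S.om_self _
  · obtain ⟨l, m, n, o, p, q, nd⟩ := ext2 hij
    exact key _ (h.vec nd)

/-- `a` does not depend on the numbering -/
theorem aa_comp (h : IsCfg S v) (s : Perm (Fin 8)) : aa S (v ∘ s) = aa S v := by
  have even : ∀ s : Perm (Fin 8), Perm.sign s = 1 → aa S (v ∘ s) = aa S v := by
    intro s hs
    obtain ⟨g, g1, g2, g3⟩ := h.eqv s hs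
    simp only [aa, T, Function.comp_apply, ← g3, g1, g2]
  rcases Int.units_eq_one_or (Perm.sign s) with hs | hs
  · exact even s hs
  · have := even (s * swap 6 7) (by rw [Perm.sign_mul, hs]; decide)
    rw [← this]
    simp only [aa, T, Function.comp_apply, Perm.mul_apply]
    have e0 : (swap 6 7 : Perm (Fin 8)) 0 = 0 := by decide
    have e1 : (swap 6 7 : Perm (Fin 8)) 1 = 1 := by decide
    have e2 : (swap 6 7 : Perm (Fin 8)) 2 = 2 := by decide
    have e3 : (swap 6 7 : Perm (Fin 8)) 3 = 3 := by decide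
    rw [e0, e1, e2, e3]

theorem aa_vec (h : IsCfg S v) {i j l m n o p q : Fin 8}
    (nd : [i, j, l, m, n, o, p, q].Nodup) :
    aa S ![v i, v j, v l, v m, v n, v o, v p, v q] = aa S v := by
  obtain ⟨s, hs⟩ := exists_perm nd
  rw [← hs v]
  exact h.aa_comp s

theorem om_vT (h : IsCfg S v) {i j l m : Fin 8} (nd : [i, j, l, m].Nodup) :
    S.om (v i) (T S v j l m) = aa S v := by
  obtain ⟨n, o, p, q, nd'⟩ := ext4 nd
  exact h.aa_vec nd'

theorem T12 (i j l : Fin 8) : T S v i j l = T S v j i l := by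
  rw [T, T, S.D_comm]

theorem T23 (h : IsCfg S v) (i j l : Fin 8) : T S v i j l = T S v i l j := by
  have := S.D_swap (v i) (v j) (v l)
  rw [h.orth, h.orth, h.orth] at this
  rw [T, T]
  linear_combination (norm := module) this

theorem T13 (h : IsCfg S v) (i j l : Fin 8) : T S v i j l = T S v l j i := by
  rw [h.T23, T12, h.T23]

theorem Trot (h : IsCfg S v) (i j l : Fin 8) : T S v i j l = T S v j l i := by
  rw [T12, h.T23]

theorem T112 (h : IsCfg S v) (i j : Fin 8) : T S v i i j = 0 := by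
  rw [T, h.pure]; rfl

theorem T121 (h : IsCfg S v) (i j : Fin 8) : T S v i j i = 0 := by
  rw [h.T23, h.T112]

theorem T122 (h : IsCfg S v) (i j : Fin 8) : T S v i j j = 0 := by
  rw [T12, h.T121]

theorem om_vT1 (h : IsCfg S v) (i j l : Fin 8) : S.om (v i) (T S v i j l) = 0 := by
  rw [h.Trot]
  exact Fts.om_der h.two h.three (S.isDer_D _ _) (h.pure i)

theorem om_vT2 (h : IsCfg S v) (i j l : Fin 8) : S.om (v i) (T S v j i l) = 0 := by
  rw [T12, h.om_vT1]

theorem om_vT3 (h : IsCfg S v) (i j l : Fin 8) : S.om (v i) (T S v j l i) = 0 := by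
  rw [h.T23, h.om_vT2]

theorem Y12 (i j l m n : Fin 8) : Y S v i j l m n = Y S v j i l m n := by
  rw [Y, Y, S.D_comm]

theorem Y_eq (i j l m n : Fin 8) : Y S v i j l m n = S.D (v i) (v j) (T S v l m n) := rfl

theorem Y34 (i j l m n : Fin 8) : Y S v i j l m n = Y S v i j m l n := by
  rw [Y_eq, Y_eq, T12]

theorem Y45 (h : IsCfg S v) (i j l m n : Fin 8) : Y S v i j l m n = Y S v i j l n m := by
  rw [Y_eq, Y_eq, h.T23]

theorem Y11 (h : IsCfg S v) (i l m n : Fin 8) : Y S v i i l m n = 0 := by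
  rw [Y, h.pure]; rfl

theorem Y_334 (h : IsCfg S v) (i j l m : Fin 8) : Y S v i j l l m = 0 := by
  rw [Y_eq, h.T112, map_zero]

theorem Y_343 (h : IsCfg S v) (i j l m : Fin 8) : Y S v i j l m l = 0 := by
  rw [Y_eq, h.T121, map_zero]

theorem Y_344 (h : IsCfg S v) (i j l m : Fin 8) : Y S v i j l m m = 0 := by
  rw [Y_eq, h.T122, map_zero]

/-- `r_ij t_ilm = 2 om(v_j, t_ilm) v_i` -/
theorem Y_1 (h : IsCfg S v) (i j l m : Fin 8) :
    Y S v i j i l m = (2 * S.om (v j) (T S v i l m)) • v i := by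
  rw [Y_eq, h.Trot i l m]
  exact Fts.D_v_w_der h.two h.three (S.isDer_D _ _) (h.pure i) (h.orth _ _)

theorem Y_1' (h : IsCfg S v) {i j l m : Fin 8} (nd : [i, j, l, m].Nodup) :
    Y S v i j i l m = (2 * aa S v) • v i := by
  rw [h.Y_1, h.om_vT]
  simp only [List.nodup_cons, List.mem_cons, not_or] at nd ⊢
  tauto

/-- `r_ij r_ij = 0` -/
theorem rr (h : IsCfg S v) (i j : Fin 8) (x : V) :
    S.D (v i) (v j) (S.D (v i) (v j) x) = 0 :=
  Fts.D_vw_sq h.two h.three (h.pure i) (h.pure j) (h.orth _ _) x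

/-- `r_ij r_il = r_il r_ij` -/
theorem rc (h : IsCfg S v) (i j l : Fin 8) (x : V) :
    S.D (v i) (v j) (S.D (v i) (v l) x) = S.D (v i) (v l) (S.D (v i) (v j) x) :=
  Fts.D_D_comm h.two (h.pure i) (h.orth _ _) (h.orth _ _) x

/-- `r_ij y_ij.. = 0` -/
theorem rY_ij (h : IsCfg S v) (i j l m n : Fin 8) : S.D (v i) (v j) (Y S v i j l m n) = 0 :=
  h.rr _ _ _

/-- `r_il y_ij|lmn = 2 om(v_i, t_lmn) t_ijl` -/
theorem rY_il (h : IsCfg S v) (i j l m n : Fin 8) :
    S.D (v i) (v l) (Y S v i j l m n) = (2 * S.om (v i) (T S v l m n)) • T S v i j l := by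
  rw [Y_eq, h.rc, S.D_comm (v i) (v l), ← Y_eq, h.Y_1, map_smul]
  rfl

/-- sum relation -/
theorem T_sum (h : IsCfg S v) (i j : Fin 8) :
    T S v i j 0 + T S v i j 1 + T S v i j 2 + T S v i j 3 + T S v i j 4 + T S v i j 5 +
      T S v i j 6 + T S v i j 7 = 0 := by
  have := congrArg (S.D (v i) (v j)) h.sum
  rw [map_sum, map_zero, Fin.sum_univ_eight] at this
  exact this

/-- sum relation -/
theorem r_sum (h : IsCfg S v) (i : Fin 8) (x : V) :
    S.D (v i) (v 0) x + S.D (v i) (v 1) x + S.D (v i) (v 2) x + S.D (v i) (v 3) x +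
      S.D (v i) (v 4) x + S.D (v i) (v 5) x + S.D (v i) (v 6) x + S.D (v i) (v 7) x = 0 := by
  have := congrArg (fun z => S.D (v i) z x) h.sum
  simp only [map_sum, map_zero, LinearMap.sum_apply, LinearMap.zero_apply] at this
  rwa [Fin.sum_univ_eight] at this

/-- overlap -/
theorem om_TT1 (h : IsCfg S v) (i j l m n : Fin 8) :
    S.om (T S v i j l) (T S v i m n) = 0 := by
  rw [T, S.om_D, ← Y_eq, h.Y_1, map_smul, h.orth]
  simp

theorem om_TT_disj (h : IsCfg S v) :
    S.om (T S v 0 1 2) (T S v 3 4 5) = 0 := by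
  have h5 := h.five
  have key : ∀ i j : Fin 8, S.om (T S v 0 1 2) (T S v i j 3) + S.om (T S v 0 1 2) (T S v i j 4)
      + S.om (T S v 0 1 2) (T S v i j 5) + S.om (T S v 0 1 2) (T S v i j 6)
      + S.om (T S v 0 1 2) (T S v i j 7) = 0 := by
    intro i j
    have e := congrArg (S.om (T S v 0 1 2)) (h.T_sum i j)
    simp only [map_add, map_zero] at e
    have e0 : S.om (T S v 0 1 2) (T S v i j 0) = 0 := by
      rw [h.T13 i j 0]; exact h.om_TT1 _ _ _ _ _
    have e1 : S.om (T S v 0 1 2) (T S v i j 1) = 0 := by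
      rw [h.T13 i j 1, T12 0 1 2]; exact h.om_TT1 _ _ _ _ _
    have e2 : S.om (T S v 0 1 2) (T S v i j 2) = 0 := by
      rw [h.T13 i j 2, h.T13 0 1 2]; exact h.om_TT1 _ _ _ _ _
    rw [e0, e1, e2] at e
    linear_combination e
  have k34 := key 3 4
  have k35 := key 3 5
  have k36 := key 3 6
  have k37 := key 3 7
  have k45 := key 4 5
  have k46 := key 4 6
  have k47 := key 4 7
  have k56 := key 5 6
  have k57 := key 5 7
  have k67 := key 6 7
  simp only [h.T121, h.T122, map_zero, T12, h.T23] at k34 k35 k36 k37 k45 k46 k47 k56 k57 k67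
  linear_combination 2 * (k34 + k35 + k45) - (k36 + k37 + k46 + k47 + k56 + k57) + 2 * k67
    - S.om (T S v 0 1 2) (T S v 3 4 5) * h5

theorem om_TT (h : IsCfg S v) (i j l m n o : Fin 8) :
    S.om (T S v i j l) (T S v m n o) = 0 := by
  have ov : ∀ i j l m n : Fin 8, S.om (T S v i j l) (T S v i m n) = 0 := h.om_TT1
  have z : ∀ x, S.om (0 : V) x = 0 := fun x => by simp
  by_cases e1 : i = j
  · subst e1; rw [h.T112, z]
  by_cases e2 : i = l
  · subst e2; rw [h.T121, z]
  by_cases e3 : j = l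
  · subst e3; rw [h.T122, z]
  by_cases e4 : m = n
  · subst e4; rw [h.T112, map_zero]
  by_cases e5 : m = o
  · subst e5; rw [h.T121, map_zero]
  by_cases e6 : n = o
  · subst e6; rw [h.T122, map_zero]
  by_cases f1 : i = m
  · subst f1; exact ov _ _ _ _ _
  by_cases f2 : i = n
  · subst f2; rw [T12 m]; exact ov _ _ _ _ _
  by_cases f3 : i = o
  · subst f3; rw [h.T13 m]; exact ov _ _ _ _ _
  rw [T12 i]
  by_cases f1 : j = m
  · subst f1; exact ov _ _ _ _ _
  by_cases f2 : j = n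
  · subst f2; rw [T12 m]; exact ov _ _ _ _ _
  by_cases f3 : j = o
  · subst f3; rw [h.T13 m]; exact ov _ _ _ _ _
  rw [h.T13 j]
  by_cases f1 : l = m
  · subst f1; exact ov _ _ _ _ _
  by_cases f2 : l = n
  · subst f2; rw [T12 m]; exact ov _ _ _ _ _
  by_cases f3 : l = o
  · subst f3; rw [h.T13 m]; exact ov _ _ _ _ _
  obtain ⟨p, q, nd⟩ := ext6 (i := l) (j := i) (l := j) (m := m) (n := n) (o := o) (by
    simp only [List.nodup_cons, List.mem_cons, not_or]
    simp only [List.not_mem_nil, not_false_eq_true, List.nodup_nil, and_true]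
    exact ⟨⟨fun e => e2 e.symm, fun e => e3 e.symm, f1, f2, f3⟩, ⟨e1, by assumption, by assumption, by assumption⟩,
      ⟨by assumption, by assumption, by assumption⟩, ⟨e4, e5⟩, e6⟩)
  exact (h.vec nd).om_TT_disj

/-- `om(v, y) = 0` -/
theorem om_vY (h : IsCfg S v) (i j l m n o : Fin 8) :
    S.om (v i) (Y S v j l m n o) = 0 := by
  have := S.om_D (v j) (v l) (v i) (T S v m n o)
  rw [Y_eq]
  have e := h.om_TT j l i m n o
  rw [T] at e
  rw [e] at this
  linear_combination this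

theorem om_Yv (h : IsCfg S v) (i j l m n o : Fin 8) :
    S.om (Y S v j l m n o) (v i) = 0 := by
  rw [S.om_anti, h.om_vY, neg_zero]

/-- `r_lm y_{ij|lmn} = 2 om(v_l, t_ijm) t_lmn` -/
theorem rY_lm (h : IsCfg S v) (i j l m n : Fin 8) :
    S.D (v l) (v m) (Y S v i j l m n) = (2 * S.om (v l) (T S v i j m)) • T S v l m n := by
  -- t_lmn = r_ln v_m
  have e1 : T S v l m n = S.D (v l) (v n) (v m) := by rw [h.T23]; rfl
  -- the derivation  [r_ij, r_ln]
  have hn : S.IsDer (S.D (v i) (v j) ∘ₗ S.D (v l) (v n) - S.D (v l) (v n) ∘ₗ S.D (v i) (v j)) :=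
    (S.isDer_D _ _).comm (S.isDer_D _ _)
  have e2 := Fts.D_v_w_der h.two h.three hn (h.pure m) (h.orth m l)
  simp only [LinearMap.sub_apply, LinearMap.comp_apply, map_sub] at e2
  have e3 : S.om (v l) (S.D (v i) (v j) (S.D (v l) (v n) (v m))) = 0 := by
    rw [← e1, ← Y_eq, h.om_vY]
  have e4 : S.om (v l) (S.D (v l) (v n) (S.D (v i) (v j) (v m))) = 0 := by
    have := S.om_D (v l) (v n) (v l) (T S v i j m)
    have h0 : S.D (v l) (v n) (v l) = 0 := h.T121 l n
    rw [h0] at this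
    simp only [map_zero, LinearMap.zero_apply] at this
    change S.om (v l) (S.D (v l) (v n) (T S v i j m)) = 0
    linear_combination this
  rw [e3, e4] at e2
  have e5 : S.D (v l) (v m) (S.D (v l) (v n) (T S v i j m))
      = (2 * S.om (v l) (T S v i j m)) • S.D (v l) (v n) (v m) := by
    have e6 : S.D (v l) (v m) (T S v i j m) = (2 * S.om (v l) (T S v i j m)) • v m := by
      rw [S.D_comm, h.T13 i j m, ← Y_eq, h.Y_1]
    rw [h.rc, e6, map_smul]
  rw [S.D_comm (v m)] at e2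
  change S.D (v l) (v m) (S.D (v i) (v j) (S.D (v l) (v n) (v m))) -
    S.D (v l) (v m) (S.D (v l) (v n) (T S v i j m)) = _ at e2
  rw [e5] at e2
  rw [Y_eq, e1]
  linear_combination (norm := module) e2

end IsCfg

end Cfsg.Agent.R2.PX.W
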