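import Cfsg.Agent.R2.PX.W.Alg

/-! # Part B of pattern X: pairings `(y,t)` and the complement relation. -/

namespace Cfsg.Agent.R2.PX.W

open Equiv

set_option linter.unusedSimpArgs false

variable {k V : Type*} [Field k] [AddCommGroup V] [Module k V]
variable {S : Fts k V} {v : Fin 8 → V}

namespace IsCfg

theorem five_smul (h : IsCfg S v) (x : V) : (5 : k) • x = 0 := by rw [h.five, zero_smul]

theorem Y_sum (h : IsCfg S v) (i j l m : Fin 8) :
    Y S v i j l m 0 + Y S v i j l m 1 + Y S v i j l m 2 + Y S v i j l m 3 + Y S v i j l m 4 +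
      Y S v i j l m 5 + Y S v i j l m 6 + Y S v i j l m 7 = 0 := by
  have := congrArg (S.D (v i) (v j)) (h.T_sum l m)
  simp only [map_add, map_zero, ← Y_eq] at this
  exact this

theorem Y_0 (h : IsCfg S v) {l m : Fin 8} (nd : [0, 1, l, m].Nodup) :
    Y S v 0 1 l m 0 = (2 * aa S v) • v 0 := by
  rw [h.Y45, Y34]
  exact h.Y_1' nd

theorem Y_1b (h : IsCfg S v) {l m : Fin 8} (nd : [1, 0, l, m].Nodup) :
    Y S v 0 1 l m 1 = (2 * aa S v) • v 1 := by
  rw [h.Y45, Y34, Y12]
  exact h.Y_1' nd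

/-- complement relation, in numerals -/
theorem compl0 (h : IsCfg S v) :
    Y S v 0 1 2 3 4 + Y S v 0 1 5 6 7 = - (aa S v • (v 0 + v 1)) := by
  have key : ∀ {l m : Fin 8}, [0, 1, l, m].Nodup → [1, 0, l, m].Nodup →
      (2 * aa S v) • v 0 + (2 * aa S v) • v 1 + Y S v 0 1 l m 2 + Y S v 0 1 l m 3 +
        Y S v 0 1 l m 4 + Y S v 0 1 l m 5 + Y S v 0 1 l m 6 + Y S v 0 1 l m 7 = 0 := by
    intro l m n1 n2
    have := h.Y_sum 0 1 l m
    rwa [h.Y_0 n1, h.Y_1b n2] at this
  have k23 := key (l := 2) (m := 3) (by decide) (by decide)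
  have k24 := key (l := 2) (m := 4) (by decide) (by decide)
  have k34 := key (l := 3) (m := 4) (by decide) (by decide)
  have k56 := key (l := 5) (m := 6) (by decide) (by decide)
  have k57 := key (l := 5) (m := 7) (by decide) (by decide)
  have k67 := key (l := 6) (m := 7) (by decide) (by decide)
  have k25 := key (l := 2) (m := 5) (by decide) (by decide)
  have k26 := key (l := 2) (m := 6) (by decide) (by decide)
  have k27 := key (l := 2) (m := 7) (by decide) (by decide)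
  have k35 := key (l := 3) (m := 5) (by decide) (by decide)
  have k36 := key (l := 3) (m := 6) (by decide) (by decide)
  have k37 := key (l := 3) (m := 7) (by decide) (by decide)
  have k45 := key (l := 4) (m := 5) (by decide) (by decide)
  have k46 := key (l := 4) (m := 6) (by decide) (by decide)
  have k47 := key (l := 4) (m := 7) (by decide) (by decide)
  simp only [h.Y_343, h.Y_344, Y34, h.Y45] at k23 k24 k34 k56 k57 k67 k25 k26
  simp only [h.Y_343, h.Y_344, Y34, h.Y45] at k27 k35 k36 k37 k45 k46 k47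
  linear_combination (norm := module)
    (2 : k) • (k23 + k24 + k34 + k56 + k57 + k67)
      - (k25 + k26 + k27 + k35 + k36 + k37 + k45 + k46 + k47)
      - h.five_smul (Y S v 0 1 2 3 4 + Y S v 0 1 5 6 7 + aa S v • (v 0 + v 1))

/-- complement relation -/
theorem compl (h : IsCfg S v) {i j l m n o p q : Fin 8}
    (nd : [i, j, l, m, n, o, p, q].Nodup) :
    Y S v i j l m n + Y S v i j o p q = - (aa S v • (v i + v j)) := by
  have := (h.vec nd).compl0
  rw [h.aa_vec nd] at this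
  exact this

/-- `om(y_{ij|lmn}, t_{ixz})` -/
theorem om_YT_i (h : IsCfg S v) (i j l m n x z : Fin 8) :
    S.om (Y S v i j l m n) (T S v i x z)
      = 2 * S.om (v j) (T S v i x z) * S.om (v i) (T S v l m n) := by
  have h1 := S.om_D (v i) (v j) (T S v l m n) (T S v i x z)
  rw [← Y_eq, ← Y_eq, h.Y_1, map_smul, S.om_anti (T S v l m n)] at h1
  rw [h1, smul_eq_mul]
  ring

/-- `om(y_{ij|lmn}, t_{lmx})` -/
theorem om_YT_lm (h : IsCfg S v) (i j l m n x : Fin 8) :
    S.om (Y S v i j l m n) (T S v l m x)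
      = 2 * S.om (v l) (T S v i j m) * S.om (v x) (T S v l m n) := by
  have h1 := S.om_D (v l) (v m) (Y S v i j l m n) (v x)
  rw [h.rY_lm, map_smul, LinearMap.smul_apply, smul_eq_mul, S.om_anti _ (v x)] at h1
  change _ = - S.om _ (T S v l m x) at h1
  linear_combination h1

theorem om_YT_one0 (h : IsCfg S v) :
    S.om (Y S v 0 1 2 3 4) (T S v 2 5 6) = aa S v ^ 2 := by
  have key : ∀ {l m : Fin 8}, S.om (Y S v 0 1 2 3 4) (T S v l m 0) +
      S.om (Y S v 0 1 2 3 4) (T S v l m 1) + S.om (Y S v 0 1 2 3 4) (T S v l m 2) +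
      S.om (Y S v 0 1 2 3 4) (T S v l m 3) + S.om (Y S v 0 1 2 3 4) (T S v l m 4) +
      S.om (Y S v 0 1 2 3 4) (T S v l m 5) + S.om (Y S v 0 1 2 3 4) (T S v l m 6) +
      S.om (Y S v 0 1 2 3 4) (T S v l m 7) = 0 := by
    intro l m
    have := congrArg (S.om (Y S v 0 1 2 3 4)) (h.T_sum l m)
    simpa only [map_add, map_zero] using this
  have A := h.om_vT (i := 0) (j := 2) (l := 3) (m := 4) (by decide)
  have hi : ∀ {x z : Fin 8}, [1, 0, x, z].Nodup →
      S.om (Y S v 0 1 2 3 4) (T S v 0 x z) = 2 * aa S v ^ 2 := by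
    intro x z nd
    rw [h.om_YT_i, h.om_vT nd, A]; ring
  have hj : ∀ {x z : Fin 8}, [0, 1, x, z].Nodup →
      S.om (Y S v 0 1 2 3 4) (T S v 1 x z) = 2 * aa S v ^ 2 := by
    intro x z nd
    rw [Y12, h.om_YT_i, h.om_vT nd, h.om_vT (by decide)]; ring
  have h23 : ∀ {x : Fin 8}, [x, 2, 3, 4].Nodup →
      S.om (Y S v 0 1 2 3 4) (T S v 2 3 x) = 2 * aa S v ^ 2 := by
    intro x nd
    rw [h.om_YT_lm, h.om_vT nd, h.om_vT (by decide)]; ring
  have h24 : ∀ {x : Fin 8}, [x, 2, 4, 3].Nodup →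
      S.om (Y S v 0 1 2 3 4) (T S v 2 4 x) = 2 * aa S v ^ 2 := by
    intro x nd
    rw [h.Y45, h.om_YT_lm, h.om_vT nd, h.om_vT (by decide)]; ring
  have k25 := key (l := 2) (m := 5)
  have k26 := key (l := 2) (m := 6)
  have k27 := key (l := 2) (m := 7)
  simp only [h.T121, h.T122, map_zero, T12, h.T23] at k25 k26 k27
  rw [hi (by decide), hj (by decide), h23 (by decide), h24 (by decide)] at k25 k26 k27
  have e : 2 * (S.om (Y S v 0 1 2 3 4) (T S v 2 5 6)) = 2 * (aa S v ^ 2) := by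
    linear_combination k25 + k26 - k27 - 2 * aa S v ^ 2 * h.five
  exact mul_left_cancel₀ h.two e

theorem om_YT_one (h : IsCfg S v) {i j l m n o p q : Fin 8}
    (nd : [i, j, l, m, n, o, p, q].Nodup) :
    S.om (Y S v i j l m n) (T S v l o p) = aa S v ^ 2 := by
  have := (h.vec nd).om_YT_one0
  rw [h.aa_vec nd] at this
  exact this

theorem om_YT_zero0 (h : IsCfg S v) :
    S.om (Y S v 0 1 2 3 4) (T S v 5 6 7) = 3 * aa S v ^ 2 := by
  have k := congrArg (S.om (Y S v 0 1 2 3 4)) (h.T_sum 5 6)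
  simp only [map_add, map_zero] at k
  have A := h.om_vT (i := 0) (j := 2) (l := 3) (m := 4) (by decide)
  have hi : ∀ {x z : Fin 8}, [1, 0, x, z].Nodup →
      S.om (Y S v 0 1 2 3 4) (T S v 0 x z) = 2 * aa S v ^ 2 := by
    intro x z nd
    rw [h.om_YT_i, h.om_vT nd, A]; ring
  have hj : ∀ {x z : Fin 8}, [0, 1, x, z].Nodup →
      S.om (Y S v 0 1 2 3 4) (T S v 1 x z) = 2 * aa S v ^ 2 := by
    intro x z nd
    rw [Y12, h.om_YT_i, h.om_vT nd, h.om_vT (by decide)]; ring
  have h2 : S.om (Y S v 0 1 2 3 4) (T S v 2 5 6) = aa S v ^ 2 := h.om_YT_one0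
  have h3 : S.om (Y S v 0 1 2 3 4) (T S v 3 5 6) = aa S v ^ 2 := by
    rw [Y34]; exact h.om_YT_one (q := 7) (by decide)
  have h4 : S.om (Y S v 0 1 2 3 4) (T S v 4 5 6) = aa S v ^ 2 := by
    rw [h.Y45, Y34]; exact h.om_YT_one (q := 7) (by decide)
  simp only [h.T121, h.T122, map_zero, T12, h.T23] at k
  rw [hi (by decide), hj (by decide), h2, h3, h4] at k
  linear_combination k - 2 * aa S v ^ 2 * h.five

theorem om_YT_zero (h : IsCfg S v) {i j l m n o p q : Fin 8}
    (nd : [i, j, l, m, n, o, p, q].Nodup) :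
    S.om (Y S v i j l m n) (T S v o p q) = 3 * aa S v ^ 2 := by
  have := (h.vec nd).om_YT_zero0
  rw [h.aa_vec nd] at this
  exact this

theorem om_YT_two (h : IsCfg S v) {i j l m n x : Fin 8}
    (n1 : [l, i, j, m].Nodup) (n2 : [x, l, m, n].Nodup) :
    S.om (Y S v i j l m n) (T S v l m x) = 2 * aa S v ^ 2 := by
  rw [h.om_YT_lm, h.om_vT n1, h.om_vT n2]; ring

theorem om_YT_three (h : IsCfg S v) (i j l m n : Fin 8) :
    S.om (Y S v i j l m n) (T S v l m n) = 0 := by
  rw [h.om_YT_lm, h.om_vT3]; ring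

theorem om_YT_ione (h : IsCfg S v) {i j l m n x z : Fin 8}
    (n1 : [j, i, x, z].Nodup) (n2 : [i, l, m, n].Nodup) :
    S.om (Y S v i j l m n) (T S v i x z) = 2 * aa S v ^ 2 := by
  rw [h.om_YT_i, h.om_vT n1, h.om_vT n2]; ring

theorem om_YT_itwo (h : IsCfg S v) (i j l m n x : Fin 8) :
    S.om (Y S v i j l m n) (T S v i j x) = 0 := by
  rw [h.om_YT_i, h.om_vT2]; ring

end IsCfg

end Cfsg.Agent.R2.PX.W
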