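import Cfsg.Agent.R2.PX.W.HH

/-! # Part B of pattern X: the graph `GG` of the correspondence between the words of two
configurations with the same `a` and `F` is stable under the `r_ij`. -/

namespace Cfsg.Agent.R2.PX.W

open Equiv

set_option linter.unusedSimpArgs false
set_option maxHeartbeats 1000000

variable {k V V' : Type*} [Field k] [AddCommGroup V] [Module k V] [AddCommGroup V'] [Module k V']

/-- words -/
inductive Wd
  | v (i : Fin 8)
  | t (i j l : Fin 8)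
  | y (i j l m n : Fin 8)

/-- value of a word -/
def Wd.ev (S : Fts k V) (v : Fin 8 → V) : Wd → V
  | .v i => v i
  | .t i j l => T S v i j l
  | .y i j l m n => Y S v i j l m n

/-- the graph -/
def GG (S : Fts k V) (v : Fin 8 → V) (S' : Fts k V') (v' : Fin 8 → V') : Submodule k (V × V') :=
  Submodule.span k (Set.range fun w : Wd => (w.ev S v, w.ev S' v'))

/-- two configurations with the same parameters -/
structure Same (S : Fts k V) (v : Fin 8 → V) (S' : Fts k V') (v' : Fin 8 → V') : Prop where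
  h : IsCfg S v
  h' : IsCfg S' v'
  ha : aa S v ≠ 0
  haa : aa S' v' = aa S v
  hff : FF S' v' = FF S v
  hd : Module.finrank k V = 56
  hd' : Module.finrank k V' = 56
  hn : ∀ x, (∀ y, S.om x y = 0) → x = 0
  hn' : ∀ x, (∀ y, S'.om x y = 0) → x = 0

variable {S : Fts k V} {v : Fin 8 → V} {S' : Fts k V'} {v' : Fin 8 → V'}

theorem mem_v (i : Fin 8) : (v i, v' i) ∈ GG S v S' v' :=
  Submodule.subset_span ⟨.v i, rfl⟩

theorem mem_t (i j l : Fin 8) : (T S v i j l, T S' v' i j l) ∈ GG S v S' v' :=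
  Submodule.subset_span ⟨.t i j l, rfl⟩

theorem mem_y (i j l m n : Fin 8) : (Y S v i j l m n, Y S' v' i j l m n) ∈ GG S v S' v' :=
  Submodule.subset_span ⟨.y i j l m n, rfl⟩

theorem GG_comp (s : Perm (Fin 8)) : GG S (v ∘ s) S' (v' ∘ s) ≤ GG S v S' v' := by
  rw [GG, Submodule.span_le]
  rintro _ ⟨w, rfl⟩
  cases w with
  | v i => exact mem_v (s i)
  | t i j l => exact mem_t (s i) (s j) (s l)
  | y i j l m n => exact mem_y (s i) (s j) (s l) (s m) (s n)

/-- the closure statement -/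
def Cl (S : Fts k V) (v : Fin 8 → V) (S' : Fts k V') (v' : Fin 8 → V') (i j l m n o p : Fin 8) :
    Prop :=
  (S.D (v i) (v j) (Y S v l m n o p), S'.D (v' i) (v' j) (Y S' v' l m n o p)) ∈ GG S v S' v'

theorem exists_perm8 {i j l m n o p q : Fin 8} (h : [i, j, l, m, n, o, p, q].Nodup) :
    ∃ s : Perm (Fin 8), s 0 = i ∧ s 1 = j ∧ s 2 = l ∧ s 3 = m ∧ s 4 = n ∧ s 5 = o ∧ s 6 = p ∧
      s 7 = q := by
  obtain ⟨s, hs⟩ := exists_perm h
  have hs' : ∀ a, s a = ![i, j, l, m, n, o, p, q] a := fun a => by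
    have := congrFun (hs (fun x => x)) a
    rw [Function.comp_apply] at this
    rw [this]
  exact ⟨s, hs' 0, hs' 1, hs' 2, hs' 3, hs' 4, hs' 5, hs' 6, hs' 7⟩

namespace Same

theorem symm (c : Same S v S' v') : Same S' v' S v :=
  ⟨c.h', c.h, by rw [c.haa]; exact c.ha, c.haa.symm, c.hff.symm, c.hd', c.hd, c.hn', c.hn⟩

theorem comp (c : Same S v S' v') (s : Perm (Fin 8)) : Same S (v ∘ s) S' (v' ∘ s) :=
  ⟨c.h.comp s, c.h'.comp s, by rw [c.h.aa_comp]; exact c.ha,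
    by rw [c.h.aa_comp, c.h'.aa_comp, c.haa], by rw [c.h.FF_comp, c.h'.FF_comp, c.hff],
    c.hd, c.hd', c.hn, c.hn'⟩

theorem om_vT_eq (c : Same S v S' v') (i j l m : Fin 8) :
    S.om (v i) (T S v j l m) = S'.om (v' i) (T S' v' j l m) := by
  by_cases nd : [j, l, m].Nodup
  · rw [c.h.om_vT_val nd, c.h'.om_vT_val nd, c.haa]
  · have : j = l ∨ j = m ∨ l = m := by
      by_contra hc
      push Not at hc
      apply nd
      simp only [List.nodup_cons, List.mem_cons, not_or, List.not_mem_nil, not_false_eq_true,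
        List.nodup_nil, and_true]
      exact ⟨⟨hc.1, hc.2.1⟩, hc.2.2⟩
    rcases this with rfl | rfl | rfl
    · rw [c.h.T112, c.h'.T112, map_zero, map_zero]
    · rw [c.h.T121, c.h'.T121, map_zero, map_zero]
    · rw [c.h.T122, c.h'.T122, map_zero, map_zero]

theorem cl_ii (c : Same S v S' v') (i l m n o p : Fin 8) : Cl S v S' v' i i l m n o p := by
  unfold Cl
  rw [c.h.pure, c.h'.pure]
  exact zero_mem _

theorem cl_ij (c : Same S v S' v') (i j l m n : Fin 8) : Cl S v S' v' i j i j l m n := by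
  unfold Cl
  rw [c.h.rY_ij, c.h'.rY_ij]
  exact zero_mem _

theorem cl_il (c : Same S v S' v') (i j l m n : Fin 8) : Cl S v S' v' i l i j l m n := by
  unfold Cl
  rw [c.h.rY_il, c.h'.rY_il, c.om_vT_eq]
  exact Submodule.smul_mem _ _ (mem_t i j l)

theorem cl_lm (c : Same S v S' v') (i j l m n : Fin 8) : Cl S v S' v' l m i j l m n := by
  unfold Cl
  rw [c.h.rY_lm, c.h'.rY_lm, c.om_vT_eq]
  exact Submodule.smul_mem _ _ (mem_t l m n)

/-- passing to the complement -/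
theorem cl_compl (c : Same S v S' v') {a b i j l m n o p q : Fin 8}
    (nd : [i, j, l, m, n, o, p, q].Nodup) (hc : Cl S v S' v' a b i j o p q) :
    Cl S v S' v' a b i j l m n := by
  unfold Cl at *
  have e : Y S v i j l m n = - (Y S v i j o p q) - aa S v • (v i + v j) := by
    linear_combination (norm := module) c.h.compl nd
  have e' : Y S' v' i j l m n = - (Y S' v' i j o p q) - aa S v • (v' i + v' j) := by
    have := c.h'.compl nd
    rw [c.haa] at this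
    linear_combination (norm := module) this
  have m1 := mem_t (S := S) (v := v) (S' := S') (v' := v') a b i
  have m2 := mem_t (S := S) (v := v) (S' := S') (v' := v') a b j
  rw [e, e']
  have := Submodule.sub_mem _ (Submodule.neg_mem _ hc)
    (Submodule.smul_mem _ (aa S v) (Submodule.add_mem _ m1 m2))
  convert this using 1
  simp only [map_sub, map_neg, map_smul, map_add, Prod.smul_mk, Prod.mk_add_mk, Prod.neg_mk,
    Prod.mk_sub_mk, T]

theorem mem_rhh (i j : Fin 8) :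
    (S.D (v i) (v j) (hh S v), S'.D (v' i) (v' j) (hh S' v')) ∈ GG S v S' v' := by
  have m := fun a b d => mem_y (S := S) (v := v) (S' := S') (v' := v') i j a b d
  have := Submodule.sub_mem _ (Submodule.add_mem _ (Submodule.add_mem _ (Submodule.sub_mem _
    (Submodule.add_mem _ (Submodule.sub_mem _ (Submodule.sub_mem _ (m 2 4 6) (m 2 4 7))
      (m 2 5 6)) (m 2 5 7)) (m 3 4 6)) (m 3 4 7)) (m 3 5 6)) (m 3 5 7)
  convert this using 1
  simp only [hh, map_sub, map_add, Prod.mk_add_mk, Prod.mk_sub_mk, IsCfg.Y_eq]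

/-- (H), in numerals -/
theorem cl_H0 (c : Same S v S' v') : Cl S v S' v' 0 1 2 3 0 4 5 := by
  unfold Cl
  have h1 := c.h.H c.ha c.hd c.hn
  have h2 := c.h'.H (by rw [c.haa]; exact c.ha) c.hd' c.hn'
  rw [c.haa, c.hff] at h2
  have m6 := mem_t (S := S) (v := v) (S' := S') (v' := v') 0 1 6
  have m7 := mem_t (S := S) (v := v) (S' := S') (v' := v') 0 1 7
  have mh := mem_rhh (S := S) (v := v) (S' := S') (v' := v') 0 1
  have := Submodule.smul_mem _ (aa S v ^ 2)⁻¹ (Submodule.add_mem _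
    (Submodule.smul_mem _ (aa S v ^ 3) (Submodule.add_mem _ m6 m7))
    (Submodule.smul_mem _ (FF S v) mh))
  have ha2 : aa S v ^ 2 ≠ 0 := pow_ne_zero 2 c.ha
  convert this using 1
  simp only [Prod.smul_mk, Prod.mk_add_mk]
  rw [← h1, ← h2, smul_smul, smul_smul, inv_mul_cancel₀ ha2, one_smul, one_smul]

/-- (H) -/
theorem cl_H (c : Same S v S' v') {p z a b d e f g : Fin 8}
    (nd : [p, z, a, b, d, e, f, g].Nodup) : Cl S v S' v' p z a b p d e := by
  obtain ⟨s, e0, e1, e2, e3, e4, e5, e6, e7⟩ := exists_perm8 nd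
  have := GG_comp s (c.comp s).cl_H0
  simp only [Y, Function.comp_apply, e0, e1, e2, e3, e4, e5] at this
  exact this

theorem cl_symm (c : Same S v S' v') {i j l m n o p : Fin 8} (h : Cl S v S' v' i j l m n o p) :
    Cl S v S' v' j i l m n o p := by
  unfold Cl at *
  rwa [S.D_comm, S'.D_comm] at h

theorem cl_y12 (c : Same S v S' v') {i j l m n o p : Fin 8} (h : Cl S v S' v' i j l m n o p) :
    Cl S v S' v' i j m l n o p := by
  unfold Cl at *
  rwa [IsCfg.Y12, IsCfg.Y12 (S := S')] at h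

theorem cl_y34 (c : Same S v S' v') {i j l m n o p : Fin 8} (h : Cl S v S' v' i j l m n o p) :
    Cl S v S' v' i j l m o n p := by
  unfold Cl at *
  rwa [IsCfg.Y34, IsCfg.Y34 (S := S')] at h

theorem cl_y45 (c : Same S v S' v') {i j l m n o p : Fin 8} (h : Cl S v S' v' i j l m n o p) :
    Cl S v S' v' i j l m n p o := by
  unfold Cl at *
  rwa [c.h.Y45, c.h'.Y45] at h


theorem cl_all0 (c : Same S v S' v') (x z : Fin 8) : Cl S v S' v' x z 0 1 2 3 4 := by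
  fin_cases x <;> fin_cases z
  · exact (c.cl_ii 0 0 1 2 3 4)
  · exact (c.cl_ij 0 1 2 3 4)
  · exact (c.cl_il 0 1 2 3 4)
  · exact (c.cl_y34 (c.cl_il 0 1 3 2 4))
  · exact (c.cl_y45 (c.cl_y34 (c.cl_il 0 1 4 2 3)))
  · exact (c.cl_compl (o := 5) (p := 6) (q := 7) (by decide) (c.cl_il 0 1 5 6 7))
  · exact (c.cl_compl (o := 5) (p := 6) (q := 7) (by decide) (c.cl_y34 (c.cl_il 0 1 6 5 7)))
  · exact (c.cl_compl (o := 5) (p := 6) (q := 7) (by decide) (c.cl_y45 (c.cl_y34 (c.cl_il 0 1 7 5 6))))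
  · exact (c.cl_symm (c.cl_ij 0 1 2 3 4))
  · exact (c.cl_ii 1 0 1 2 3 4)
  · exact (c.cl_y12 (c.cl_il 1 0 2 3 4))
  · exact (c.cl_y34 (c.cl_y12 (c.cl_il 1 0 3 2 4)))
  · exact (c.cl_y45 (c.cl_y34 (c.cl_y12 (c.cl_il 1 0 4 2 3))))
  · exact (c.cl_compl (o := 5) (p := 6) (q := 7) (by decide) (c.cl_y12 (c.cl_il 1 0 5 6 7)))
  · exact (c.cl_compl (o := 5) (p := 6) (q := 7) (by decide) (c.cl_y34 (c.cl_y12 (c.cl_il 1 0 6 5 7))))
  · exact (c.cl_compl (o := 5) (p := 6) (q := 7) (by decide) (c.cl_y45 (c.cl_y34 (c.cl_y12 (c.cl_il 1 0 7 5 6)))))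
  · exact (c.cl_symm (c.cl_il 0 1 2 3 4))
  · exact (c.cl_y12 (c.cl_symm (c.cl_il 1 0 2 3 4)))
  · exact (c.cl_ii 2 0 1 2 3 4)
  · exact (c.cl_lm 0 1 2 3 4)
  · exact (c.cl_y45 (c.cl_lm 0 1 2 4 3))
  · exact (c.cl_H (p := 2) (z := 5) (a := 0) (b := 1) (d := 3) (e := 4) (f := 6) (g := 7) (by decide))
  · exact (c.cl_H (p := 2) (z := 6) (a := 0) (b := 1) (d := 3) (e := 4) (f := 5) (g := 7) (by decide))
  · exact (c.cl_H (p := 2) (z := 7) (a := 0) (b := 1) (d := 3) (e := 4) (f := 5) (g := 6) (by decide))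
  · exact (c.cl_y34 (c.cl_symm (c.cl_il 0 1 3 2 4)))
  · exact (c.cl_y34 (c.cl_y12 (c.cl_symm (c.cl_il 1 0 3 2 4))))
  · exact (c.cl_symm (c.cl_lm 0 1 2 3 4))
  · exact (c.cl_ii 3 0 1 2 3 4)
  · exact (c.cl_y34 (c.cl_y45 (c.cl_lm 0 1 3 4 2)))
  · exact (c.cl_y34 (c.cl_H (p := 3) (z := 5) (a := 0) (b := 1) (d := 2) (e := 4) (f := 6) (g := 7) (by decide)))
  · exact (c.cl_y34 (c.cl_H (p := 3) (z := 6) (a := 0) (b := 1) (d := 2) (e := 4) (f := 5) (g := 7) (by decide)))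
  · exact (c.cl_y34 (c.cl_H (p := 3) (z := 7) (a := 0) (b := 1) (d := 2) (e := 4) (f := 5) (g := 6) (by decide)))
  · exact (c.cl_y45 (c.cl_y34 (c.cl_symm (c.cl_il 0 1 4 2 3))))
  · exact (c.cl_y45 (c.cl_y34 (c.cl_y12 (c.cl_symm (c.cl_il 1 0 4 2 3)))))
  · exact (c.cl_y45 (c.cl_symm (c.cl_lm 0 1 2 4 3)))
  · exact (c.cl_y34 (c.cl_y45 (c.cl_symm (c.cl_lm 0 1 3 4 2))))
  · exact (c.cl_ii 4 0 1 2 3 4)
  · exact (c.cl_y45 (c.cl_y34 (c.cl_H (p := 4) (z := 5) (a := 0) (b := 1) (d := 2) (e := 3) (f := 6) (g := 7) (by decide))))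
  · exact (c.cl_y45 (c.cl_y34 (c.cl_H (p := 4) (z := 6) (a := 0) (b := 1) (d := 2) (e := 3) (f := 5) (g := 7) (by decide))))
  · exact (c.cl_y45 (c.cl_y34 (c.cl_H (p := 4) (z := 7) (a := 0) (b := 1) (d := 2) (e := 3) (f := 5) (g := 6) (by decide))))
  · exact (c.cl_compl (o := 5) (p := 6) (q := 7) (by decide) (c.cl_symm (c.cl_il 0 1 5 6 7)))
  · exact (c.cl_compl (o := 5) (p := 6) (q := 7) (by decide) (c.cl_y12 (c.cl_symm (c.cl_il 1 0 5 6 7))))
  · exact (c.cl_symm (c.cl_H (p := 2) (z := 5) (a := 0) (b := 1) (d := 3) (e := 4) (f := 6) (g := 7) (by decide)))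
  · exact (c.cl_y34 (c.cl_symm (c.cl_H (p := 3) (z := 5) (a := 0) (b := 1) (d := 2) (e := 4) (f := 6) (g := 7) (by decide))))
  · exact (c.cl_y45 (c.cl_y34 (c.cl_symm (c.cl_H (p := 4) (z := 5) (a := 0) (b := 1) (d := 2) (e := 3) (f := 6) (g := 7) (by decide)))))
  · exact (c.cl_ii 5 0 1 2 3 4)
  · exact (c.cl_compl (o := 5) (p := 6) (q := 7) (by decide) (c.cl_lm 0 1 5 6 7))
  · exact (c.cl_compl (o := 5) (p := 6) (q := 7) (by decide) (c.cl_y45 (c.cl_lm 0 1 5 7 6)))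
  · exact (c.cl_compl (o := 5) (p := 6) (q := 7) (by decide) (c.cl_y34 (c.cl_symm (c.cl_il 0 1 6 5 7))))
  · exact (c.cl_compl (o := 5) (p := 6) (q := 7) (by decide) (c.cl_y34 (c.cl_y12 (c.cl_symm (c.cl_il 1 0 6 5 7)))))
  · exact (c.cl_symm (c.cl_H (p := 2) (z := 6) (a := 0) (b := 1) (d := 3) (e := 4) (f := 5) (g := 7) (by decide)))
  · exact (c.cl_y34 (c.cl_symm (c.cl_H (p := 3) (z := 6) (a := 0) (b := 1) (d := 2) (e := 4) (f := 5) (g := 7) (by decide))))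
  · exact (c.cl_y45 (c.cl_y34 (c.cl_symm (c.cl_H (p := 4) (z := 6) (a := 0) (b := 1) (d := 2) (e := 3) (f := 5) (g := 7) (by decide)))))
  · exact (c.cl_compl (o := 5) (p := 6) (q := 7) (by decide) (c.cl_symm (c.cl_lm 0 1 5 6 7)))
  · exact (c.cl_ii 6 0 1 2 3 4)
  · exact (c.cl_compl (o := 5) (p := 6) (q := 7) (by decide) (c.cl_y34 (c.cl_y45 (c.cl_lm 0 1 6 7 5))))
  · exact (c.cl_compl (o := 5) (p := 6) (q := 7) (by decide) (c.cl_y45 (c.cl_y34 (c.cl_symm (c.cl_il 0 1 7 5 6)))))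
  · exact (c.cl_compl (o := 5) (p := 6) (q := 7) (by decide) (c.cl_y45 (c.cl_y34 (c.cl_y12 (c.cl_symm (c.cl_il 1 0 7 5 6))))))
  · exact (c.cl_symm (c.cl_H (p := 2) (z := 7) (a := 0) (b := 1) (d := 3) (e := 4) (f := 5) (g := 6) (by decide)))
  · exact (c.cl_y34 (c.cl_symm (c.cl_H (p := 3) (z := 7) (a := 0) (b := 1) (d := 2) (e := 4) (f := 5) (g := 6) (by decide))))
  · exact (c.cl_y45 (c.cl_y34 (c.cl_symm (c.cl_H (p := 4) (z := 7) (a := 0) (b := 1) (d := 2) (e := 3) (f := 5) (g := 6) (by decide)))))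
  · exact (c.cl_compl (o := 5) (p := 6) (q := 7) (by decide) (c.cl_y45 (c.cl_symm (c.cl_lm 0 1 5 7 6))))
  · exact (c.cl_compl (o := 5) (p := 6) (q := 7) (by decide) (c.cl_y34 (c.cl_y45 (c.cl_symm (c.cl_lm 0 1 6 7 5)))))
  · exact (c.cl_ii 7 0 1 2 3 4)
end Same

end Cfsg.Agent.R2.PX.W
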