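import Cfsg.Agent.R2.PX.W.Theta

/-! # Part B of pattern X: `Θ` respects `D`; final theorem `exists_sim`. -/

namespace Cfsg.Agent.R2.PX.W

open Equiv

set_option linter.unusedSimpArgs false
set_option maxHeartbeats 1000000

variable {k V V' : Type*} [Field k] [AddCommGroup V] [Module k V] [AddCommGroup V'] [Module k V']
variable {S : Fts k V} {v : Fin 8 → V} {S' : Fts k V'} {v' : Fin 8 → V'}

/-- a form on pairs of words vanishing on overlapping `t` vanishes on all pairs of `t` -/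
theorem TT_of_overlap0 (h : IsCfg S v) (β : V → V → k) (hadd : ∀ x y z, β x (y + z) = β x y + β x z)
    (h0 : ∀ x, β x 0 = 0)
    (ov : ∀ i j l m n, β (T S v i j l) (T S v i m n) = 0) :
    β (T S v 0 1 2) (T S v 3 4 5) = 0 := by
  have h5 := h.five
  have key : ∀ i j : Fin 8, β (T S v 0 1 2) (T S v i j 3) + β (T S v 0 1 2) (T S v i j 4)
      + β (T S v 0 1 2) (T S v i j 5) + β (T S v 0 1 2) (T S v i j 6)
      + β (T S v 0 1 2) (T S v i j 7) = 0 := by
    intro i j
    have e := congrArg (β (T S v 0 1 2)) (h.T_sum i j)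
    simp only [hadd, h0] at e
    have e0 : β (T S v 0 1 2) (T S v i j 0) = 0 := by
      rw [h.T13 i j 0]; exact ov _ _ _ _ _
    have e1 : β (T S v 0 1 2) (T S v i j 1) = 0 := by
      rw [h.T13 i j 1, IsCfg.T12 0 1 2]; exact ov _ _ _ _ _
    have e2 : β (T S v 0 1 2) (T S v i j 2) = 0 := by
      rw [h.T13 i j 2, h.T13 0 1 2]; exact ov _ _ _ _ _
    rw [e0, e1, e2] at e
    linear_combination e
  have k34 := key 3 4
  have k35 := key 3 5
  have k36 := key 3 6
  have k37 := key 3 7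
  have k45 := key 4 5
  have k46 := key 4 6
  have k47 := key 4 7
  have k56 := key 5 6
  have k57 := key 5 7
  have k67 := key 6 7
  simp only [h.T121, h.T122, h0, IsCfg.T12, h.T23] at k34 k35 k36 k37 k45 k46 k47 k56 k57 k67
  linear_combination 2 * (k34 + k35 + k45) - (k36 + k37 + k46 + k47 + k56 + k57) + 2 * k67
    - β (T S v 0 1 2) (T S v 3 4 5) * h5

theorem TT_of_overlap (h : IsCfg S v) (β : V → V → k) (hadd : ∀ x y z, β x (y + z) = β x y + β x z)
    (h0 : ∀ x, β x 0 = 0) (h0' : ∀ x, β 0 x = 0)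
    (ov : ∀ i j l m n, β (T S v i j l) (T S v i m n) = 0) (i j l m n o : Fin 8) :
    β (T S v i j l) (T S v m n o) = 0 := by
  by_cases e1 : i = j
  · subst e1; rw [h.T112, h0']
  by_cases e2 : i = l
  · subst e2; rw [h.T121, h0']
  by_cases e3 : j = l
  · subst e3; rw [h.T122, h0']
  by_cases e4 : m = n
  · subst e4; rw [h.T112, h0]
  by_cases e5 : m = o
  · subst e5; rw [h.T121, h0]
  by_cases e6 : n = o
  · subst e6; rw [h.T122, h0]
  by_cases f1 : i = m
  · subst f1; exact ov _ _ _ _ _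
  by_cases f2 : i = n
  · subst f2; rw [IsCfg.T12 m]; exact ov _ _ _ _ _
  by_cases f3 : i = o
  · subst f3; rw [h.T13 m]; exact ov _ _ _ _ _
  rw [IsCfg.T12 i]
  by_cases f1 : j = m
  · subst f1; exact ov _ _ _ _ _
  by_cases f2 : j = n
  · subst f2; rw [IsCfg.T12 m]; exact ov _ _ _ _ _
  by_cases f3 : j = o
  · subst f3; rw [h.T13 m]; exact ov _ _ _ _ _
  rw [h.T13 j]
  by_cases f1 : l = m
  · subst f1; exact ov _ _ _ _ _
  by_cases f2 : l = n
  · subst f2; rw [IsCfg.T12 m]; exact ov _ _ _ _ _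
  by_cases f3 : l = o
  · subst f3; rw [h.T13 m]; exact ov _ _ _ _ _
  obtain ⟨p, q, nd⟩ := ext6 (i := l) (j := i) (l := j) (m := m) (n := n) (o := o) (by
    simp only [List.nodup_cons, List.mem_cons, not_or]
    simp only [List.not_mem_nil, not_false_eq_true, List.nodup_nil, and_true]
    exact ⟨⟨fun e => e2 e.symm, fun e => e3 e.symm, f1, f2, f3⟩, ⟨e1, by assumption, by assumption,
      by assumption⟩, ⟨by assumption, by assumption, by assumption⟩, ⟨e4, e5⟩, e6⟩)
  obtain ⟨s, e0, e1, e2, e3, e4, e5, -⟩ := exists_perm8 nd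
  have := TT_of_overlap0 (h.comp s) β hadd h0 fun i j l m n => ov _ _ _ _ _
  simp only [T, Function.comp_apply, e0, e1, e2, e3, e4, e5] at this
  exact this

/-- the defect -/
def dl (S : Fts k V) (S' : Fts k V') (Θ : V ≃ₗ[k] V') (x y z w : V) : k :=
  S'.om (Θ x) (S'.D (Θ y) (Θ z) (Θ w)) - S.om x (S.D y z w)

namespace Same

variable {Θ : V ≃ₗ[k] V'}

theorem th_v (c : Same S v S' v') (hΘ : ∀ z, (z, Θ z) ∈ GG S v S' v') (i : Fin 8) :
    Θ (v i) = v' i := by
  have h1 := Submodule.sub_mem _ (hΘ (v i)) (mem_v (S := S) (v := v) (S' := S') (v' := v') i)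
  rw [Prod.mk_sub_mk, sub_self] at h1
  have := c.fst_inj h1 rfl
  simpa [sub_eq_zero] using this

theorem th_om (c : Same S v S' v') (hΘ : ∀ z, (z, Θ z) ∈ GG S v S' v') (x y : V) :
    S'.om (Θ x) (Θ y) = S.om x y := (c.iso (hΘ x) (hΘ y)).symm

theorem th_r (c : Same S v S' v') (hΘ : ∀ z, (z, Θ z) ∈ GG S v S' v') (i j : Fin 8) (x : V) :
    Θ (S.D (v i) (v j) x) = S'.D (v' i) (v' j) (Θ x) := by
  have h1 := Submodule.sub_mem _ (hΘ (S.D (v i) (v j) x)) (c.stab i j (hΘ x))
  rw [Prod.mk_sub_mk, sub_self] at h1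
  have := c.fst_inj h1 rfl
  simpa [sub_eq_zero] using this

theorem dl_yz (x y z w : V) : dl S S' Θ x y z w = dl S S' Θ x z y w := by
  rw [dl, dl, S.D_comm, S'.D_comm]

theorem dl_zw (c : Same S v S' v') (hΘ : ∀ z, (z, Θ z) ∈ GG S v S' v') (x y z w : V) :
    dl S S' Θ x y z w = dl S S' Θ x y w z := by
  have h1 := congrArg (S.om x) (S.D_swap y z w)
  have h2 := congrArg (S'.om (Θ x)) (S'.D_swap (Θ y) (Θ z) (Θ w))
  simp only [map_sub, map_add, map_smul, smul_eq_mul, c.th_om hΘ] at h1 h2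
  rw [dl, dl]
  linear_combination h2 - h1

theorem dl_xw (x y z w : V) : dl S S' Θ x y z w = dl S S' Θ w y z x := by
  rw [dl, dl]
  have h1 := S.om_D y z x w
  have h2 := S'.om_D (Θ y) (Θ z) (Θ x) (Θ w)
  rw [S.om_anti] at h1
  rw [S'.om_anti] at h2
  linear_combination h2 - h1

theorem dl_xy (c : Same S v S' v') (hΘ : ∀ z, (z, Θ z) ∈ GG S v S' v') (x y z w : V) :
    dl S S' Θ x y z w = dl S S' Θ y x z w := by
  calc dl S S' Θ x y z w = dl S S' Θ w y z x := dl_xw _ _ _ _
    _ = dl S S' Θ w z y x := dl_yz _ _ _ _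
    _ = dl S S' Θ w z x y := c.dl_zw hΘ _ _ _ _
    _ = dl S S' Θ w x z y := dl_yz _ _ _ _
    _ = dl S S' Θ y x z w := dl_xw _ _ _ _

theorem dl_add (x y z w w' : V) :
    dl S S' Θ x y z (w + w') = dl S S' Θ x y z w + dl S S' Θ x y z w' := by
  simp only [dl, map_add]; ring

/-- invariance -/
theorem dl_inv (c : Same S v S' v') (hΘ : ∀ z, (z, Θ z) ∈ GG S v S' v') (i j : Fin 8)
    (x y z w : V) :
    dl S S' Θ (S.D (v i) (v j) x) y z w + dl S S' Θ x (S.D (v i) (v j) y) z w
      + dl S S' Θ x y (S.D (v i) (v j) z) w + dl S S' Θ x y z (S.D (v i) (v j) w) = 0 := by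
  simp only [dl, c.th_r hΘ]
  rw [S.om_D, S'.om_D, S.D_D, S'.D_D]
  simp only [map_add]
  ring

/-- `Δ(v_i, v_j, ., .) = 0` -/
theorem dl_vv (c : Same S v S' v') (hΘ : ∀ z, (z, Θ z) ∈ GG S v S' v') (i j : Fin 8) (z w : V) :
    dl S S' Θ (v i) (v j) z w = 0 := by
  -- move v_i, v_j to the middle
  have e : dl S S' Θ (v i) (v j) z w = dl S S' Θ z (v i) (v j) w := by
    rw [dl_yz, c.dl_xy hΘ]
  rw [e, dl, c.th_v hΘ, c.th_v hΘ, ← c.th_r hΘ, c.th_om hΘ, sub_self]

/-- `Δ(v_i, t, ., .) = 0` -/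
theorem dl_vt (c : Same S v S' v') (hΘ : ∀ z, (z, Θ z) ∈ GG S v S' v') (i j l m : Fin 8)
    (z w : V) : dl S S' Θ (v i) (T S v j l m) z w = 0 := by
  have z2 : ∀ x z w : V, dl S S' Θ x 0 z w = 0 := fun x z w => by simp [dl]
  have key : ∀ (i j l m : Fin 8) (z w : V), dl S S' Θ (v i) (T S v j l m) z w
      = - dl S S' Θ (v m) (T S v j l i) z w := by
    intro i j l m z w
    have := c.dl_inv hΘ j l (v i) (v m) z w
    rw [c.dl_vv hΘ, c.dl_vv hΘ, c.dl_xy hΘ (S.D (v j) (v l) (v i))] at this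
    change dl S S' Θ (v m) (T S v j l i) z w + dl S S' Θ (v i) (T S v j l m) z w + 0 + 0 = 0 at this
    linear_combination this
  have k1 := key i j l m z w
  have k2 := key m j i l z w
  have k3 := key i m l j z w
  -- A(i|jlm) = -A(m|jli);  A(m|jli)=A(m|jil) = -A(l|jim);  A(i|mlj) = -A(j|mli)
  have k4 := key i j m l z w
  rw [c.h.T23 j l i] at k1
  rw [c.h.T23 j m l, c.h.T23 j m i] at k4
  -- k1 : A(i|jlm) = -A(m|jil); k2 : A(m|jil) = -A(l|jim); k4 : A(i|jlm) = -A(l|jim)
  have : 2 * dl S S' Θ (v i) (T S v j l m) z w = 0 := by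
    linear_combination k1 - k2 + k4
  simpa [c.h.two] using this

/-- `Δ(t, t', ., .) = 0` -/
theorem dl_tt (c : Same S v S' v') (hΘ : ∀ z, (z, Θ z) ∈ GG S v S' v') (z w : V)
    (i j l m n o : Fin 8) : dl S S' Θ (T S v i j l) (T S v m n o) z w = 0 := by
  refine TT_of_overlap c.h (fun x y => dl S S' Θ x y z w) ?_ ?_ ?_ ?_ i j l m n o
  · intro x y y'; simp only [dl, map_add, LinearMap.add_apply]; ring
  · intro x; simp [dl]
  · intro x; simp [dl]
  · intro i j l m n
    have := c.dl_inv hΘ i j (v l) (T S v i m n) z w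
    rw [c.dl_vt hΘ, c.dl_vt hΘ] at this
    have e : S.D (v i) (v j) (T S v i m n) = (2 * S.om (v j) (T S v i m n)) • v i := by
      rw [← IsCfg.Y_eq, c.h.Y_1]
    have e2 : dl S S' Θ (v l) (S.D (v i) (v j) (T S v i m n)) z w = 0 := by
      rw [e]
      have : ∀ (r : k) (x y : V), dl S S' Θ x (r • y) z w = r * dl S S' Θ x y z w := by
        intro r x y; simp only [dl, map_smul, LinearMap.smul_apply, smul_eq_mul]; ring
      rw [this, c.dl_vv hΘ, mul_zero]
    rw [e2] at this
    change dl S S' Θ (T S v i j l) (T S v i m n) z w + 0 + 0 + 0 = 0 at this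
    linear_combination this

theorem dl_v (c : Same S v S' v') (hΘ : ∀ z, (z, Θ z) ∈ GG S v S' v') (i : Fin 8) (y z w : V) :
    dl S S' Θ (v i) y z w = 0 := by
  let R : Submodule k V :=
    { carrier := {y | ∀ z w, dl S S' Θ (v i) y z w = 0}
      add_mem' := fun {a b} ha hb z w => by
        have h1 := ha z w
        have h2 := hb z w
        simp only [dl, map_add, LinearMap.add_apply] at h1 h2 ⊢
        linear_combination h1 + h2
      zero_mem' := fun z w => by simp [dl]
      smul_mem' := fun r a ha z w => by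
        have h1 := ha z w
        simp only [dl, map_smul, LinearMap.smul_apply, smul_eq_mul] at h1 ⊢
        linear_combination r * h1 }
  have hR : R = ⊤ := by
    refine c.h.top_of_words c.ha c.hd R ?_ ?_
    · intro j l m _ z w
      exact c.dl_vt hΘ i j l m z w
    · intro j l m n o _ z w
      have := c.dl_inv hΘ j l (v i) (T S v m n o) z w
      rw [c.dl_vt hΘ, c.dl_vt hΘ] at this
      have e : dl S S' Θ (S.D (v j) (v l) (v i)) (T S v m n o) z w = 0 :=
        c.dl_tt hΘ z w j l i m n o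
      rw [e] at this
      change 0 + dl S S' Θ (v i) (Y S v j l m n o) z w + 0 + 0 = 0 at this
      linear_combination this
  have : y ∈ R := by rw [hR]; trivial
  exact this z w

theorem dl_zero (c : Same S v S' v') (hΘ : ∀ z, (z, Θ z) ∈ GG S v S' v') (x y z w : V) :
    dl S S' Θ x y z w = 0 := by
  let R : Submodule k V :=
    { carrier := {x | ∀ y z w, dl S S' Θ x y z w = 0}
      add_mem' := fun {a b} ha hb y z w => by
        have h1 := ha y z w
        have h2 := hb y z w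
        simp only [dl, map_add, LinearMap.add_apply] at h1 h2 ⊢
        linear_combination h1 + h2
      zero_mem' := fun y z w => by simp [dl]
      smul_mem' := fun r a ha y z w => by
        have h1 := ha y z w
        simp only [dl, map_smul, LinearMap.smul_apply, smul_eq_mul] at h1 ⊢
        linear_combination r * h1 }
  have hr : ∀ (i j : Fin 8) (x : V), x ∈ R → S.D (v i) (v j) x ∈ R := by
    intro i j x hx y z w
    have := c.dl_inv hΘ i j x y z w
    rw [hx, hx, hx] at this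
    linear_combination this
  have hv : ∀ i, v i ∈ R := fun i y z w => c.dl_v hΘ i y z w
  have hR : R = ⊤ :=
    c.h.top_of_words c.ha c.hd R (fun _ => hr _ _ _ (hv _)) fun _ => hr _ _ _ (hr _ _ _ (hv _))
  have : x ∈ R := by rw [hR]; trivial
  exact this y z w

theorem th_D (c : Same S v S' v') (hΘ : ∀ z, (z, Θ z) ∈ GG S v S' v') (x y z : V) :
    S'.D (Θ x) (Θ y) (Θ z) = Θ (S.D x y z) := by
  rw [← sub_eq_zero]
  refine c.hn' _ fun w => ?_
  obtain ⟨w, rfl⟩ := Θ.surjective w
  have := c.dl_zero hΘ w x y z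
  rw [dl] at this
  rw [S'.om_anti, map_sub, c.th_om hΘ]
  linear_combination -this

end Same

/-- rescaling -/
def Fts.scale (S : Fts k V) (b : k) : Fts k V where
  om := b • S.om
  D := b • S.D
  om_self x := by simp [S.om_self]
  D_comm x y := by simp [S.D_comm x y]
  om_D x y z w := by
    change b * S.om (b • S.D x y z) w = - (b * S.om z (b • S.D x y w))
    rw [map_smul, map_smul, LinearMap.smul_apply, S.om_D]
    simp only [smul_eq_mul]
    ring
  D_D x y z w u := by
    change b • S.D x y (b • S.D z w u) = b • S.D (b • S.D x y z) w u +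
      b • S.D z (b • S.D x y w) u + b • S.D z w (b • S.D x y u)
    have e1 : S.D (b • S.D x y z) w u = b • S.D (S.D x y z) w u := by rw [map_smul]; rfl
    have e2 : S.D z (b • S.D x y w) u = b • S.D z (S.D x y w) u := by rw [map_smul]; rfl
    rw [e1, e2, map_smul, map_smul, S.D_D]
    module
  D_swap x y z := by
    simp only [LinearMap.smul_apply, smul_eq_mul]
    have := S.D_swap x y z
    linear_combination (norm := module) b • this

theorem IsCfg.scale (h : IsCfg S v) (b : k) : IsCfg (S.scale b) v := by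
  refine ⟨h.five, h.sum, fun i => ?_, fun π hπ => ?_⟩
  · simp [Fts.scale, h.pure i]
  · obtain ⟨g, g1, g2, g3⟩ := h.eqv π hπ
    refine ⟨g, fun x y => ?_, fun x y z => ?_, g3⟩
    · simp [Fts.scale, g1]
    · simp [Fts.scale, g2]

theorem aa_scale (b : k) : aa (S.scale b) v = b ^ 2 * aa S v := by
  simp only [aa, T, Fts.scale, LinearMap.smul_apply, map_smul, smul_eq_mul]
  ring

theorem FF_scale (b : k) : FF (S.scale b) v = b ^ 5 * FF S v := by
  simp only [FF, Y, Fts.scale, LinearMap.smul_apply, map_smul, smul_eq_mul]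
  ring

/-- **Part B**: two configurations are related by a similitude. -/
theorem exists_sim (h : IsCfg S v) (h' : IsCfg S' v') (ha : aa S v ≠ 0) (ha' : aa S' v' ≠ 0)
    (hd : Module.finrank k V = 56) (hd' : Module.finrank k V' = 56)
    (hn : ∀ x, (∀ y, S.om x y = 0) → x = 0) (hn' : ∀ x, (∀ y, S'.om x y = 0) → x = 0) :
    ∃ (Θ : V ≃ₗ[k] V') (b : k), b ≠ 0 ∧ (∀ x y, S'.om (Θ x) (Θ y) = b * S.om x y) ∧
      (∀ x y z, S'.D (Θ x) (Θ y) (Θ z) = b • Θ (S.D x y z)) ∧ ∀ i, Θ (v i) = v' i := by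
  have hF := h.FF_sq ha hd hn
  have hF' := h'.FF_sq ha' hd' hn'
  have hF0 : FF S v ≠ 0 := fun e => by
    rw [e] at hF; exact pow_ne_zero 5 ha (by rw [← hF]; ring)
  have hF0' : FF S' v' ≠ 0 := fun e => by
    rw [e] at hF'; exact pow_ne_zero 5 ha' (by rw [← hF']; ring)
  -- scaling factors c = a^2 / F
  have e1 : (aa S v ^ 2 / FF S v) ^ 2 * aa S v = 1 := by
    rw [div_pow, hF]; field_simp
  have e2 : (aa S v ^ 2 / FF S v) ^ 5 * FF S v = 1 := by
    have : (aa S v ^ 2 / FF S v) ^ 5 * FF S v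
        = (aa S v ^ 5) ^ 2 / (FF S v ^ 2) ^ 2 := by field_simp
    rw [this, hF]; field_simp
  have e1' : (aa S' v' ^ 2 / FF S' v') ^ 2 * aa S' v' = 1 := by
    rw [div_pow, hF']; field_simp
  have e2' : (aa S' v' ^ 2 / FF S' v') ^ 5 * FF S' v' = 1 := by
    have : (aa S' v' ^ 2 / FF S' v') ^ 5 * FF S' v'
        = (aa S' v' ^ 5) ^ 2 / (FF S' v' ^ 2) ^ 2 := by field_simp
    rw [this, hF']; field_simp
  set b := aa S v ^ 2 / FF S v with hb
  set b' := aa S' v' ^ 2 / FF S' v' with hb'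
  have b0 : b ≠ 0 := div_ne_zero (pow_ne_zero 2 ha) hF0
  have b0' : b' ≠ 0 := div_ne_zero (pow_ne_zero 2 ha') hF0'
  have c : Same (S.scale b) v (S'.scale b') v' := by
    refine ⟨h.scale b, h'.scale b', ?_, ?_, ?_, hd, hd', ?_, ?_⟩
    · rw [aa_scale, e1]; exact one_ne_zero
    · rw [aa_scale, aa_scale, e1, e1']
    · rw [FF_scale, FF_scale, e2, e2']
    · intro x hx
      refine hn x fun y => ?_
      have := hx y
      simpa [Fts.scale, b0] using this
    · intro x hx
      refine hn' x fun y => ?_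
      have := hx y
      simpa [Fts.scale, b0'] using this
  obtain ⟨Θ, hΘ⟩ := c.exists_iso
  refine ⟨Θ, b / b', div_ne_zero b0 b0', fun x y => ?_, fun x y z => ?_, c.th_v hΘ⟩
  · have := c.th_om hΘ x y
    simp only [Fts.scale, LinearMap.smul_apply, smul_eq_mul] at this
    field_simp
    linear_combination this
  · have := c.th_D hΘ x y z
    simp only [Fts.scale, LinearMap.smul_apply, map_smul] at this
    have e : S'.D (Θ x) (Θ y) (Θ z) = b'⁻¹ • (b' • S'.D (Θ x) (Θ y) (Θ z)) := by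
      rw [smul_smul, inv_mul_cancel₀ b0', one_smul]
    rw [e, this, smul_smul, div_eq_inv_mul]

end Cfsg.Agent.R2.PX.W
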