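import Mathlib.LinearAlgebra.BilinearMap
import Mathlib.LinearAlgebra.Span.Basic
import Mathlib.Tactic.LinearCombination
import Mathlib.Tactic.Module
import Mathlib.Tactic.Abel
import Mathlib.Algebra.Field.Basic

/-! # Part B of pattern X (box PX): abstract Freudenthal triple systems and pure vectors.
`Fts k V`: alternating form `om`, symmetric `D : V → V → End V`, a derivation system, with
`D x y z - D x z y = 2 om(y,z) x + om(x,z) y - om(x,y) z`. -/

namespace Cfsg.Agent.R2.PX.W

/-- Freudenthal triple system (normalised with `c = 1`). -/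
structure Fts (k V : Type*) [Field k] [AddCommGroup V] [Module k V] where
  om : V →ₗ[k] V →ₗ[k] k
  D : V →ₗ[k] V →ₗ[k] V →ₗ[k] V
  om_self : ∀ x, om x x = 0
  D_comm : ∀ x y, D x y = D y x
  om_D : ∀ x y z w, om (D x y z) w = - om z (D x y w)
  D_D : ∀ x y z w u,
    D x y (D z w u) = D (D x y z) w u + D z (D x y w) u + D z w (D x y u)
  D_swap : ∀ x y z, D x y z - D x z y = (2 * om y z) • x + om x z • y - om x y • z

namespace Fts

variable {k V : Type*} [Field k] [AddCommGroup V] [Module k V] (S : Fts k V)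

theorem om_anti (x y : V) : S.om x y = - S.om y x := by
  have h := S.om_self (x + y)
  simp only [map_add, LinearMap.add_apply, S.om_self, zero_add, add_zero] at h
  linear_combination h

/-- A derivation of the triple system. -/
structure IsDer (n : V →ₗ[k] V) : Prop where
  om : ∀ z w, S.om (n z) w = - S.om z (n w)
  D : ∀ z w u, n (S.D z w u) = S.D (n z) w u + S.D z (n w) u + S.D z w (n u)

theorem isDer_D (x y : V) : S.IsDer (S.D x y) := ⟨S.om_D x y, S.D_D x y⟩

variable {S}

theorem IsDer.comm {n m : V →ₗ[k] V} (hn : S.IsDer n) (hm : S.IsDer m) :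
    S.IsDer (n ∘ₗ m - m ∘ₗ n) := by
  refine ⟨fun z w => ?_, fun z w u => ?_⟩
  · simp only [LinearMap.sub_apply, LinearMap.comp_apply, map_sub, hn.om, hm.om, neg_neg]
    ring
  · simp only [LinearMap.sub_apply, LinearMap.comp_apply, map_sub, map_add, hn.D, hm.D]
    module

/-- (tan) -/
theorem tan (h2 : (2 : k) ≠ 0) {n : V →ₗ[k] V} (hn : S.IsDer n) {v : V}
    (hv : S.D v v = 0) : S.D (n v) v = 0 := by
  ext u
  have h := hn.D v v u
  rw [hv, S.D_comm v (n v)] at h
  simp only [LinearMap.zero_apply, map_zero, add_zero] at h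
  have h' : (2 : k) • S.D (n v) v u = 0 := by rw [two_smul]; exact h.symm
  simpa [h2] using h'

theorem D_v_w_v {v : V} (hv : S.D v v = 0) (w : V) : S.D v w v = (-3 * S.om v w) • v := by
  have h := S.D_swap v v w
  rw [hv, S.om_self] at h
  simp only [LinearMap.zero_apply, zero_sub, zero_smul, sub_zero] at h
  linear_combination (norm := module) (-1 : k) • h

theorem om_der (h2 : (2 : k) ≠ 0) (h3 : (3 : k) ≠ 0) {n : V →ₗ[k] V} (hn : S.IsDer n) {v : V}
    (hv : S.D v v = 0) : S.om v (n v) = 0 := by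
  have h := D_v_w_v hv (n v)
  rw [S.D_comm v (n v), tan h2 hn hv] at h
  simp only [LinearMap.zero_apply] at h
  rcases smul_eq_zero.1 h.symm with h | h
  · simpa [h3] using h
  · rw [h]; simp

/-- `D v w (n v) = 2 om(w, n v) v`. -/
theorem D_v_w_der (h2 : (2 : k) ≠ 0) (h3 : (3 : k) ≠ 0) {n : V →ₗ[k] V} (hn : S.IsDer n)
    {v w : V} (hv : S.D v v = 0) (hvw : S.om v w = 0) :
    S.D v w (n v) = (2 * S.om w (n v)) • v := by
  have h := S.D_swap v w (n v)
  rw [S.D_comm v (n v), tan h2 hn hv, om_der h2 h3 hn hv, hvw] at h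
  simpa using h

theorem D_vw_v {v w : V} (hv : S.D v v = 0) (hvw : S.om v w = 0) : S.D v w v = 0 := by
  rw [D_v_w_v hv, hvw]; simp

/-- `(D v w)^2 = 0`. -/
theorem D_vw_sq (h2 : (2 : k) ≠ 0) (h3 : (3 : k) ≠ 0) {v w : V} (hv : S.D v v = 0)
    (hw : S.D w w = 0) (hvw : S.om v w = 0) (u : V) : S.D v w (S.D v w u) = 0 := by
  have hwv : S.om w v = 0 := by rw [S.om_anti, hvw, neg_zero]
  have h := S.D_swap v w u
  have e : S.D v w u = S.D v u w + (2 * S.om w u) • v + S.om v u • w := by
    rw [hvw] at h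
    linear_combination (norm := module) h
  have h1 : S.D v w v = 0 := D_vw_v hv hvw
  have h1' : S.D v w w = 0 := by rw [S.D_comm]; exact D_vw_v hw hwv
  have h3' : S.D v w (S.D v u w) = 0 := by
    rw [S.D_comm v w, D_v_w_der h2 h3 (S.isDer_D v u) hw hwv]
    have : S.om v (S.D v u w) = 0 := by
      have := S.om_D v u v w
      rw [D_v_w_v hv] at this
      simp only [map_smul, LinearMap.smul_apply, hvw, smul_zero] at this
      linear_combination this
    rw [this]; simp
  rw [e, map_add, map_add, map_smul, map_smul, h1, h1', h3']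
  simp

/-- `D v (D v w u) = 0`. -/
theorem D_v_D_v (h2 : (2 : k) ≠ 0) {v w u : V} (hv : S.D v v = 0) (hvw : S.om v w = 0)
    (hvu : S.om v u = 0) : S.D v (S.D v w u) = 0 := by
  have h := S.D_swap w v u
  have hwv : S.om w v = 0 := by rw [S.om_anti, hvw, neg_zero]
  rw [hvu, hwv] at h
  have e : S.D v w u = S.D w u v + S.om w u • v := by
    rw [S.D_comm v w]
    linear_combination (norm := module) h
  rw [e, map_add, map_smul, hv, S.D_comm, tan h2 (S.isDer_D w u) hv]
  simp

/-- `[D v w, D v u] = 0`. -/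
theorem D_D_comm (h2 : (2 : k) ≠ 0) {v w u : V} (hv : S.D v v = 0) (hvw : S.om v w = 0)
    (hvu : S.om v u = 0) (x : V) : S.D v w (S.D v u x) = S.D v u (S.D v w x) := by
  have h := S.D_D v w v u x
  rw [D_vw_v hv hvw, D_v_D_v h2 hv hvw hvu] at h
  simpa using h

end Fts

end Cfsg.Agent.R2.PX.W
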