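import Cfsg.Agent.R2.PX.W.Alg2

/-! # Part B of pattern X: pairings `(y,y')`. -/

namespace Cfsg.Agent.R2.PX.W

open Equiv

set_option linter.unusedSimpArgs false

variable {k V : Type*} [Field k] [AddCommGroup V] [Module k V]

/-- the regular value `f_0` -/
def FF (S : Fts k V) (v : Fin 8 → V) : k := S.om (Y S v 0 1 2 4 5) (Y S v 2 3 0 4 6)

variable {S : Fts k V} {v : Fin 8 → V}

namespace IsCfg

theorem om_YY_even (h : IsCfg S v) {π : Perm (Fin 8)} (hπ : Perm.sign π = 1)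
    (i j l m n i' j' l' m' n' : Fin 8) :
    S.om (Y S v (π i) (π j) (π l) (π m) (π n)) (Y S v (π i') (π j') (π l') (π m') (π n'))
      = S.om (Y S v i j l m n) (Y S v i' j' l' m' n') := by
  obtain ⟨g, g1, g2, g3⟩ := h.eqv π hπ
  simp only [Y, ← g3, g1, g2]

/-- pairing a `y` is antisymmetric under complement -/
theorem om_compl_left (h : IsCfg S v) {i j l m n o p q : Fin 8}
    (nd : [i, j, l, m, n, o, p, q].Nodup) (i' j' l' m' n' : Fin 8) :
    S.om (Y S v i j l m n) (Y S v i' j' l' m' n')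
      = - S.om (Y S v i j o p q) (Y S v i' j' l' m' n') := by
  have := congrArg (fun x => S.om x (Y S v i' j' l' m' n')) (h.compl nd)
  simp only [map_add, map_neg, map_smul, LinearMap.add_apply, LinearMap.neg_apply,
    LinearMap.smul_apply, h.om_vY, add_zero, smul_zero, neg_zero] at this
  linear_combination this

theorem om_compl_right (h : IsCfg S v) {i j l m n o p q : Fin 8}
    (nd : [i, j, l, m, n, o, p, q].Nodup) (i' j' l' m' n' : Fin 8) :
    S.om (Y S v i' j' l' m' n') (Y S v i j l m n)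
      = - S.om (Y S v i' j' l' m' n') (Y S v i j o p q) := by
  rw [S.om_anti, h.om_compl_left nd, S.om_anti (Y S v i j o p q), neg_neg]

/-- R2 -/
theorem yy2 (h : IsCfg S v) (i j l m n l' m' n' : Fin 8) :
    S.om (Y S v i j l m n) (Y S v i j l' m' n') = 0 := by
  have h1 := S.om_D (v i) (v j) (T S v l m n) (Y S v i j l' m' n')
  rw [h.rY_ij, map_zero, neg_zero] at h1
  exact h1

/-- R1 -/
theorem yy1 (h : IsCfg S v) (i j l m n l' m' n' : Fin 8) :
    S.om (Y S v i j l m n) (Y S v i l l' m' n') = 0 := by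
  have h1 := S.om_D (v i) (v l) (Y S v i j l m n) (T S v l' m' n')
  rw [h.rY_il, map_smul, LinearMap.smul_apply, h.om_TT, smul_zero] at h1
  change 0 = - S.om _ (Y S v i l l' m' n') at h1
  linear_combination h1

/-- R1, other side -/
theorem yy1c (h : IsCfg S v) {i j l m n o p q : Fin 8}
    (nd : [i, j, l, m, n, o, p, q].Nodup) (l' m' n' : Fin 8) :
    S.om (Y S v i j l m n) (Y S v i o l' m' n') = 0 := by
  rw [h.om_compl_left nd, h.yy1, neg_zero]

theorem of_anti (h : IsCfg S v) {x y : V} (e : S.om y x = S.om x y) : S.om x y = 0 := by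
  rw [S.om_anti] at e
  have : 2 * S.om x y = 0 := by linear_combination (-1 : k) * e
  simpa [h.two] using this

theorem yyA0 (h : IsCfg S v) : S.om (Y S v 0 1 2 3 4) (Y S v 2 3 0 1 4) = 0 :=
  h.of_anti (h.om_YY_even (π := swap 0 2 * swap 1 3) (by decide) 0 1 2 3 4 2 3 0 1 4)

theorem yyA1 (h : IsCfg S v) : S.om (Y S v 0 1 2 3 4) (Y S v 2 3 0 1 5) = 0 :=
  h.of_anti (h.om_YY_even (π := swap 0 2 * swap 1 3 * (swap 4 5 * swap 6 7)) (by decide)
    0 1 2 3 4 2 3 0 1 5)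

/-- RA, same third -/
theorem yyA (h : IsCfg S v) {i j m n x : Fin 8} (nd : [i, j, m, n, x].Nodup) :
    S.om (Y S v i j m n x) (Y S v m n i j x) = 0 := by
  obtain ⟨o, p, q, nd⟩ := ext5 nd
  exact (h.vec nd).yyA0

/-- RA, different third -/
theorem yyA' (h : IsCfg S v) {i j m n x u : Fin 8} (nd : [i, j, m, n, x, u].Nodup) :
    S.om (Y S v i j m n x) (Y S v m n i j u) = 0 := by
  obtain ⟨p, q, nd⟩ := ext6 nd
  exact (h.vec nd).yyA1

theorem yyC0 (h : IsCfg S v) : S.om (Y S v 0 1 2 4 5) (Y S v 2 3 0 4 5) = 0 :=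
  h.of_anti (h.om_YY_even (π := swap 0 2 * swap 1 3) (by decide) 0 1 2 4 5 2 3 0 4 5)

/-- RC, parallel: `i j m n x z` -/
theorem yyC (h : IsCfg S v) {i j m n x z : Fin 8} (nd : [i, j, m, n, x, z].Nodup) :
    S.om (Y S v i j m x z) (Y S v m n i x z) = 0 := by
  obtain ⟨p, q, nd⟩ := ext6 nd
  exact (h.vec nd).yyC0

/-- RC, antiparallel -/
theorem yyC' (h : IsCfg S v) {i j m n x z u w : Fin 8} (nd : [i, j, m, n, x, z, u, w].Nodup)
    (nd1 : [m, n, i, u, w, j, x, z].Nodup) (nd2 : [j, i, m, n, x, z].Nodup) :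
    S.om (Y S v i j m x z) (Y S v m n i u w) = 0 := by
  rw [h.om_compl_right nd1, Y12, h.yyC nd2, neg_zero]

theorem yyB0 (h : IsCfg S v) : S.om (Y S v 0 1 2 3 4) (Y S v 2 3 0 4 5) = 0 := by
  have e := congrArg (fun x => S.om x (Y S v 2 3 0 4 5)) (h.r_sum 0 (T S v 2 3 4))
  simp only [← Y_eq, map_add, map_zero, LinearMap.add_apply, LinearMap.zero_apply] at e
  have e0 : Y S v 0 0 2 3 4 = 0 := h.Y11 _ _ _ _
  have e2 : S.om (Y S v 0 2 2 3 4) (Y S v 2 3 0 4 5) = 0 := by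
    rw [Y12, h.Y_1, map_smul, LinearMap.smul_apply, h.om_vY, smul_zero]
  have e3 : S.om (Y S v 0 3 2 3 4) (Y S v 2 3 0 4 5) = 0 := by
    rw [Y12, Y34, h.Y_1, map_smul, LinearMap.smul_apply, h.om_vY, smul_zero]
  have e4 : S.om (Y S v 0 4 2 3 4) (Y S v 2 3 0 4 5) = 0 := by
    rw [Y12, h.Y45, Y34, h.Y_1, map_smul, LinearMap.smul_apply, h.om_vY, smul_zero]
  have e5 : S.om (Y S v 0 5 2 3 4) (Y S v 2 3 0 4 5) = 0 := by
    rw [h.Y45 2 3 0 4 5]
    exact h.yyA (by decide)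
  have e6 : S.om (Y S v 0 6 2 3 4) (Y S v 2 3 0 4 5)
      = S.om (Y S v 0 1 2 3 4) (Y S v 2 3 0 4 5) := by
    have := h.om_YY_even (π := swap 1 6 * swap 2 3) (by decide) 0 1 2 3 4 2 3 0 4 5
    rw [Y34 0 6 2 3 4, Y12 2 3 0 4 5]
    exact this.trans (by rw [Y12 3 2 0 4 5])
  have e7 : S.om (Y S v 0 7 2 3 4) (Y S v 2 3 0 4 5)
      = S.om (Y S v 0 1 2 3 4) (Y S v 2 3 0 4 5) := by
    have := h.om_YY_even (π := swap 1 7 * swap 2 3) (by decide) 0 1 2 3 4 2 3 0 4 5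
    rw [Y34 0 7 2 3 4, Y12 2 3 0 4 5]
    exact this.trans (by rw [Y12 3 2 0 4 5])
  rw [e0, e2, e3, e4, e5, e6, e7] at e
  have : 3 * S.om (Y S v 0 1 2 3 4) (Y S v 2 3 0 4 5) = 0 := by
    simp only [map_zero, LinearMap.zero_apply] at e
    linear_combination e
  simpa [h.three] using this

/-- RB: `x ∈ Q2` -/
theorem yyB (h : IsCfg S v) {i j m n x u : Fin 8} (nd : [i, j, m, n, x, u].Nodup) :
    S.om (Y S v i j m n x) (Y S v m n i x u) = 0 := by
  obtain ⟨p, q, nd⟩ := ext6 nd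
  exact (h.vec nd).yyB0

/-- RB: `x ∉ Q2` (the eighth index is `z`) -/
theorem yyB' (h : IsCfg S v) {i j m n x u w z : Fin 8} (nd1 : [m, n, i, u, w, j, x, z].Nodup)
    (nd2 : [j, i, m, n, x, z].Nodup) :
    S.om (Y S v i j m n x) (Y S v m n i u w) = 0 := by
  rw [h.om_compl_right nd1, Y12, h.yyB nd2, neg_zero]

theorem FF_flip (h : IsCfg S v) :
    S.om (Y S v 0 1 2 4 5) (Y S v 2 3 0 5 6) = - FF S v := by
  have e := congrArg (S.om (Y S v 0 1 2 4 5)) (h.Y_sum 2 3 0 6)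
  simp only [map_add, map_zero] at e
  have e0 : Y S v 2 3 0 6 0 = 0 := h.Y_343 _ _ _ _
  have e6 : Y S v 2 3 0 6 6 = 0 := h.Y_344 _ _ _ _
  have e1 : S.om (Y S v 0 1 2 4 5) (Y S v 2 3 0 6 1) = 0 := by
    rw [S.om_anti, h.Y45 2 3 0 6 1, h.yyB' (z := 7) (by decide) (by decide), neg_zero]
  have e2 : S.om (Y S v 0 1 2 4 5) (Y S v 2 3 0 6 2) = 0 := by
    rw [h.Y45 2 3, Y34 2 3, h.Y_1, map_smul, h.om_Yv, smul_zero]
  have e3 : S.om (Y S v 0 1 2 4 5) (Y S v 2 3 0 6 3) = 0 := by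
    rw [Y12 2 3, h.Y45 3 2, Y34 3 2, h.Y_1, map_smul, h.om_Yv, smul_zero]
  have e7 : S.om (Y S v 0 1 2 4 5) (Y S v 2 3 0 6 7) = 0 :=
    h.yyC' (by decide) (by decide) (by decide)
  rw [e0, e1, e2, e3, e6, e7, h.Y45 2 3 0 6 4, h.Y45 2 3 0 6 5] at e
  simp only [map_zero] at e
  rw [FF]
  linear_combination e

theorem FF_comp (h : IsCfg S v) (s : Perm (Fin 8)) :
    FF S (v ∘ s) = ((Perm.sign s : ℤ) : k) * FF S v := by
  have even : ∀ s : Perm (Fin 8), Perm.sign s = 1 → FF S (v ∘ s) = FF S v := by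
    intro s hs
    exact h.om_YY_even hs 0 1 2 4 5 2 3 0 4 6
  have flip : ∀ w : Fin 8 → V, IsCfg S w → FF S (w ∘ (swap 4 5 : Perm (Fin 8))) = - FF S w := by
    intro w hw
    rw [← hw.FF_flip, ← hw.Y45 0 1 2 5 4]
    rfl
  rcases Int.units_eq_one_or (Perm.sign s) with hs | hs
  · rw [even s hs, hs]; simp
  · have h1 := even (s * swap 4 5) (by rw [Perm.sign_mul, hs]; decide)
    have h2 := flip _ (h.comp (s * swap 4 5))
    have e : (v ∘ (s * swap 4 5 : Perm (Fin 8))) ∘ (swap 4 5 : Perm (Fin 8)) = v ∘ s := by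
      funext i
      simp [Perm.mul_apply]
    rw [e, h1] at h2
    rw [h2, hs]; simp

end IsCfg

end Cfsg.Agent.R2.PX.W
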