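import Cfsg.Agent.R2.PX.W.Star

/-! # Part B of pattern X: `(H)` and `F^2 = a^5`. -/

namespace Cfsg.Agent.R2.PX.W

open Equiv

set_option linter.unusedSimpArgs false
set_option maxHeartbeats 1000000

variable {k V : Type*} [Field k] [AddCommGroup V] [Module k V]
variable {S : Fts k V} {v : Fin 8 → V}

namespace IsCfg

/-- `r_pz y_{ab|pcd} = r_pz y_{cd|pab}` -/
theorem swapAB (h : IsCfg S v) (p z a b c d : Fin 8) :
    S.D (v p) (v z) (Y S v a b p c d) = S.D (v p) (v z) (Y S v c d p a b) := by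
  have hn : S.IsDer (S.D (v a) (v b) ∘ₗ S.D (v c) (v d) - S.D (v c) (v d) ∘ₗ S.D (v a) (v b)) :=
    (S.isDer_D _ _).comm (S.isDer_D _ _)
  have e2 := Fts.D_v_w_der h.two h.three hn (h.pure p) (h.orth p z)
  have t1 : Y S v a b p c d = S.D (v a) (v b) (S.D (v c) (v d) (v p)) := by
    rw [Y_eq, h.Trot]; rfl
  have t2 : Y S v c d p a b = S.D (v c) (v d) (S.D (v a) (v b) (v p)) := by
    rw [Y_eq, h.Trot]; rfl
  simp only [LinearMap.sub_apply, LinearMap.comp_apply, map_sub] at e2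
  rw [← t1, ← t2, h.om_vY, h.om_vY] at e2
  simpa [sub_eq_zero] using e2

/-- `(H)` -/
theorem H (h : IsCfg S v) (ha : aa S v ≠ 0) (hd : Module.finrank k V = 56)
    (hn : ∀ x, (∀ y, S.om x y = 0) → x = 0) :
    aa S v ^ 2 • S.D (v 0) (v 1) (Y S v 2 3 0 4 5)
      = aa S v ^ 3 • (T S v 0 1 6 + T S v 0 1 7) + FF S v • S.D (v 0) (v 1) (hh S v) := by
  have hs := congrArg (S.D (v 0) (v 1)) (h.star ha hd hn)
  have r1 : S.D (v 0) (v 1) (v 1) = 0 := h.T122 0 1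
  -- the six values
  have c1 : ∀ {a b c d e f : Fin 8}, [a, b, 0, c, d, 1, e, f].Nodup →
      S.D (v 0) (v 1) (Y S v a b 0 c d) + S.D (v 1) (v 0) (Y S v a b 1 e f)
        + aa S v • (T S v 0 1 a + T S v 0 1 b) = 0 := by
    intro a b c d e f nd
    have := congrArg (S.D (v 0) (v 1)) (h.compl nd)
    rw [map_add, map_neg, map_smul, map_add] at this
    rw [S.D_comm (v 1) (v 0)]
    change _ = -(aa S v • (T S v 0 1 a + T S v 0 1 b)) at this
    rw [this]; module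
  have a1 := c1 (a := 2) (b := 3) (c := 4) (d := 5) (e := 6) (f := 7) (by decide)
  have a2 := c1 (a := 6) (b := 7) (c := 4) (d := 5) (e := 2) (f := 3) (by decide)
  have a3 := c1 (a := 4) (b := 5) (c := 2) (d := 3) (e := 6) (f := 7) (by decide)
  have a4 := c1 (a := 6) (b := 7) (c := 2) (d := 3) (e := 4) (f := 5) (by decide)
  have s1 := h.swapAB 0 1 2 3 4 5
  have s2 := h.swapAB 0 1 2 3 6 7
  have s3 := h.swapAB 0 1 4 5 6 7
  have s4 := h.swapAB 1 0 2 3 6 7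
  have s5 := h.swapAB 1 0 4 5 6 7
  have ts := h.T_sum 0 1
  rw [h.T121, h.T122] at ts
  simp only [ysum, map_smul, map_sub, map_add, r1] at hs
  rw [← s1, ← s2, ← s3] at hs
  rw [← s3] at a2
  rw [← s1, s5] at a3
  rw [← s2] at a4
  rw [s4] at a1
  -- U1 = r y_{23|045}, U2 = r y_{23|067}, U3 = r y_{45|067}
  have b1 : S.D (v 0) (v 1) (Y S v 4 5 0 6 7) = S.D (v 0) (v 1) (Y S v 2 3 0 4 5)
      + aa S v • (T S v 0 1 2 + T S v 0 1 3) - aa S v • (T S v 0 1 6 + T S v 0 1 7) := by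
    linear_combination (norm := module) a2 - a1
  have b2 : S.D (v 0) (v 1) (Y S v 2 3 0 6 7) = S.D (v 0) (v 1) (Y S v 2 3 0 4 5)
      + aa S v • (T S v 0 1 4 + T S v 0 1 5) - aa S v • (T S v 0 1 6 + T S v 0 1 7) := by
    linear_combination (norm := module) a4 - a3
  rw [b1, b2] at hs
  have f5 := h.five_smul (aa S v ^ 2 • S.D (v 0) (v 1) (Y S v 2 3 0 4 5)
    - aa S v ^ 3 • (T S v 0 1 6 + T S v 0 1 7))
  linear_combination (norm := module) hs - f5 - (2 * aa S v ^ 3) • ts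


theorem FF_sq (h : IsCfg S v) (ha : aa S v ≠ 0) (hd : Module.finrank k V = 56)
    (hn : ∀ x, (∀ y, S.om x y = 0) → x = 0) : FF S v ^ 2 = aa S v ^ 5 := by
  have h1 := h.H ha hd hn
  have h6 := (h.vec (i := 0) (j := 6) (l := 2) (m := 3) (n := 4) (o := 5) (p := 1) (q := 7)
    (by decide)).H (by rwa [h.aa_vec (by decide)]) hd hn
  have h7 := (h.vec (i := 0) (j := 7) (l := 2) (m := 3) (n := 4) (o := 5) (p := 6) (q := 1)
    (by decide)).H (by rwa [h.aa_vec (by decide)]) hd hn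
  rw [h.aa_vec (by decide)] at h6 h7
  have f6 : FF S ![v 0, v 6, v 2, v 3, v 4, v 5, v 1, v 7] = - FF S v := by
    have e := h.FF_comp (swap 1 6)
    rw [show Perm.sign (swap 1 6 : Perm (Fin 8)) = -1 from by decide] at e
    rw [show (![v 0, v 6, v 2, v 3, v 4, v 5, v 1, v 7]) = v ∘ (swap 1 6 : Perm (Fin 8)) from by
      funext i; fin_cases i <;> rfl]
    rw [e]; simp
  have f7 : FF S ![v 0, v 7, v 2, v 3, v 4, v 5, v 6, v 1] = - FF S v := by
    have e := h.FF_comp (swap 1 7)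
    rw [show Perm.sign (swap 1 7 : Perm (Fin 8)) = -1 from by decide] at e
    rw [show (![v 0, v 7, v 2, v 3, v 4, v 5, v 6, v 1]) = v ∘ (swap 1 7 : Perm (Fin 8)) from by
      funext i; fin_cases i <;> rfl]
    rw [e]; simp
  rw [f6] at h6
  rw [f7] at h7
  change aa S v ^ 2 • S.D (v 0) (v 6) (Y S v 2 3 0 4 5)
      = aa S v ^ 3 • (T S v 0 6 1 + T S v 0 6 7) + -FF S v • S.D (v 0) (v 6)
        (T S v 2 4 1 - T S v 2 4 7 - T S v 2 5 1 + T S v 2 5 7 - T S v 3 4 1 + T S v 3 4 7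
          + T S v 3 5 1 - T S v 3 5 7) at h6
  change aa S v ^ 2 • S.D (v 0) (v 7) (Y S v 2 3 0 4 5)
      = aa S v ^ 3 • (T S v 0 7 6 + T S v 0 7 1) + -FF S v • S.D (v 0) (v 7)
        (T S v 2 4 6 - T S v 2 4 1 - T S v 2 5 6 + T S v 2 5 1 - T S v 3 4 6 + T S v 3 4 1
          + T S v 3 5 6 - T S v 3 5 1) at h7
  rw [hh] at h1
  have hs := h.r_sum 0 (Y S v 2 3 0 4 5)
  have r0 : S.D (v 0) (v 0) = 0 := h.pure 0
  have r2 : S.D (v 0) (v 2) (Y S v 2 3 0 4 5) = (2 * aa S v) • T S v 0 2 3 := by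
    rw [S.D_comm, h.rY_il, h.om_vT (by decide), h.Trot 2 3 0, h.Trot 3 0 2]
  have r3 : S.D (v 0) (v 3) (Y S v 2 3 0 4 5) = (2 * aa S v) • T S v 0 2 3 := by
    rw [S.D_comm, Y12, h.rY_il, h.om_vT (by decide), h.T13 3 2 0]
  have r4 : S.D (v 0) (v 4) (Y S v 2 3 0 4 5) = (2 * aa S v) • T S v 0 4 5 := by
    rw [h.rY_lm, h.om_vT (by decide)]
  have r5 : S.D (v 0) (v 5) (Y S v 2 3 0 4 5) = (2 * aa S v) • T S v 0 4 5 := by
    rw [h.Y45, h.rY_lm, h.om_vT (by decide), h.T23]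
  rw [r0, r2, r3, r4, r5, LinearMap.zero_apply] at hs
  simp only [map_add, map_sub, ← Y_eq] at h1 h6 h7
  -- the relation in V
  have rel : (4 * aa S v ^ 3) • (T S v 0 2 3 + T S v 0 4 5)
      + (aa S v ^ 3) • ((T S v 0 1 6 + T S v 0 1 7) + (T S v 0 6 1 + T S v 0 6 7)
        + (T S v 0 7 6 + T S v 0 7 1))
      + FF S v • ((Y S v 0 1 2 4 6 - Y S v 0 1 2 4 7 - Y S v 0 1 2 5 6 + Y S v 0 1 2 5 7 - Y S v 0 1 3 4 6 + Y S v 0 1 3 4 7 + Y S v 0 1 3 5 6 - Y S v 0 1 3 5 7)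
        + (-Y S v 0 6 2 4 1 + Y S v 0 6 2 4 7 + Y S v 0 6 2 5 1 - Y S v 0 6 2 5 7 + Y S v 0 6 3 4 1 - Y S v 0 6 3 4 7 - Y S v 0 6 3 5 1 + Y S v 0 6 3 5 7)
        + (-Y S v 0 7 2 4 6 + Y S v 0 7 2 4 1 + Y S v 0 7 2 5 6 - Y S v 0 7 2 5 1 + Y S v 0 7 3 4 6 - Y S v 0 7 3 4 1 - Y S v 0 7 3 5 6 + Y S v 0 7 3 5 1)) = 0 := by
    linear_combination (norm := module) aa S v ^ 2 • hs - h1 - h6 - h7

  have E := congrArg (fun x => S.om x (Y S v 1 2 3 4 6)) rel
  simp only [map_add, map_sub, map_neg, map_smul, LinearMap.add_apply, LinearMap.sub_apply, LinearMap.neg_apply,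
    LinearMap.smul_apply, smul_eq_mul, map_zero, LinearMap.zero_apply] at E
  have t023 : S.om (T S v 0 2 3) (Y S v 1 2 3 4 6) = - (2 * aa S v ^ 2) := by
    rw [S.om_anti, h.om_YT_val (by decide) (by decide), show sv 1 2 3 4 6 0 2 3 = 2 from by decide]; norm_num
  have t045 : S.om (T S v 0 4 5) (Y S v 1 2 3 4 6) = - (1 * aa S v ^ 2) := by
    rw [S.om_anti, h.om_YT_val (by decide) (by decide), show sv 1 2 3 4 6 0 4 5 = 1 from by decide]; norm_num
  have t016 : S.om (T S v 0 1 6) (Y S v 1 2 3 4 6) = - (2 * aa S v ^ 2) := by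
    rw [S.om_anti, h.om_YT_val (by decide) (by decide), show sv 1 2 3 4 6 0 1 6 = 2 from by decide]; norm_num
  have t017 : S.om (T S v 0 1 7) (Y S v 1 2 3 4 6) = - (2 * aa S v ^ 2) := by
    rw [S.om_anti, h.om_YT_val (by decide) (by decide), show sv 1 2 3 4 6 0 1 7 = 2 from by decide]; norm_num
  have t061 : S.om (T S v 0 6 1) (Y S v 1 2 3 4 6) = - (2 * aa S v ^ 2) := by
    rw [S.om_anti, h.om_YT_val (by decide) (by decide), show sv 1 2 3 4 6 0 6 1 = 2 from by decide]; norm_num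
  have t067 : S.om (T S v 0 6 7) (Y S v 1 2 3 4 6) = - (1 * aa S v ^ 2) := by
    rw [S.om_anti, h.om_YT_val (by decide) (by decide), show sv 1 2 3 4 6 0 6 7 = 1 from by decide]; norm_num
  have t076 : S.om (T S v 0 7 6) (Y S v 1 2 3 4 6) = - (1 * aa S v ^ 2) := by
    rw [S.om_anti, h.om_YT_val (by decide) (by decide), show sv 1 2 3 4 6 0 7 6 = 1 from by decide]; norm_num
  have t071 : S.om (T S v 0 7 1) (Y S v 1 2 3 4 6) = - (2 * aa S v ^ 2) := by
    rw [S.om_anti, h.om_YT_val (by decide) (by decide), show sv 1 2 3 4 6 0 7 1 = 2 from by decide]; norm_num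
  have y01246 : S.om (Y S v 0 1 2 4 6) (Y S v 1 2 3 4 6) = 0 := by
    simpa only [Y12, Y34, h.Y45] using h.yy1 1 0 2 4 6 3 4 6
  have y01247 : S.om (Y S v 0 1 2 4 7) (Y S v 1 2 3 4 6) = 0 := by
    simpa only [Y12, Y34, h.Y45] using h.yy1 1 0 2 4 7 3 4 6
  have y01256 : S.om (Y S v 0 1 2 5 6) (Y S v 1 2 3 4 6) = 0 := by
    simpa only [Y12, Y34, h.Y45] using h.yy1 1 0 2 5 6 3 4 6
  have y01257 : S.om (Y S v 0 1 2 5 7) (Y S v 1 2 3 4 6) = 0 := by
    simpa only [Y12, Y34, h.Y45] using h.yy1 1 0 2 5 7 3 4 6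
  have y01346 : S.om (Y S v 0 1 3 4 6) (Y S v 1 2 3 4 6) = 0 := by
    simpa only [Y12, Y34, h.Y45] using h.yy1c (i := 1) (j := 0) (l := 3) (m := 4) (n := 6) (o := 2) (p := 5) (q := 7) (by decide) 3 4 6
  have y01347 : S.om (Y S v 0 1 3 4 7) (Y S v 1 2 3 4 6) = 0 := by
    simpa only [Y12, Y34, h.Y45] using h.yy1c (i := 1) (j := 0) (l := 3) (m := 4) (n := 7) (o := 2) (p := 5) (q := 6) (by decide) 3 4 6
  have y01356 : S.om (Y S v 0 1 3 5 6) (Y S v 1 2 3 4 6) = 0 := by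
    simpa only [Y12, Y34, h.Y45] using h.yy1c (i := 1) (j := 0) (l := 3) (m := 5) (n := 6) (o := 2) (p := 4) (q := 7) (by decide) 3 4 6
  have y01357 : S.om (Y S v 0 1 3 5 7) (Y S v 1 2 3 4 6) = 0 := by
    simpa only [Y12, Y34, h.Y45] using h.yy1c (i := 1) (j := 0) (l := 3) (m := 5) (n := 7) (o := 2) (p := 4) (q := 6) (by decide) 3 4 6
  have y06241 : S.om (Y S v 0 6 2 4 1) (Y S v 1 2 3 4 6) = 0 := by
    simpa only [Y12, Y34, h.Y45] using h.yyB (i := 6) (j := 0) (m := 1) (n := 2) (x := 4) (u := 3) (by decide)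
  have y06247 : S.om (Y S v 0 6 2 4 7) (Y S v 1 2 3 4 6) = FF S v := by
    have e := h.FF_comp (⟨![6, 0, 2, 1, 4, 7, 3, 5], ![1, 3, 2, 6, 4, 7, 0, 5], by decide, by decide⟩)
    rw [show Perm.sign (⟨![6, 0, 2, 1, 4, 7, 3, 5], ![1, 3, 2, 6, 4, 7, 0, 5], by decide, by decide⟩ : Perm (Fin 8)) = 1 from by decide] at e
    change S.om (Y S v 6 0 2 4 7) (Y S v 2 1 6 4 3) = _ at e
    simp only [Y12, Y34, h.Y45] at e ⊢
    rw [e]; simp
  have y06251 : S.om (Y S v 0 6 2 5 1) (Y S v 1 2 3 4 6) = 0 := by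
    rw [h.om_compl_right (i := 1) (j := 2) (l := 3) (m := 4) (n := 6) (o := 0) (p := 5) (q := 7) (by decide), neg_eq_zero]
    simpa only [Y12, Y34, h.Y45] using h.yyB (i := 0) (j := 6) (m := 1) (n := 2) (x := 5) (u := 7) (by decide)
  have y06257 : S.om (Y S v 0 6 2 5 7) (Y S v 1 2 3 4 6) = 0 := by
    rw [h.om_compl_right (i := 1) (j := 2) (l := 3) (m := 4) (n := 6) (o := 0) (p := 5) (q := 7) (by decide), neg_eq_zero]
    simpa only [Y12, Y34, h.Y45] using h.yyC (i := 0) (j := 6) (m := 2) (n := 1) (x := 5) (z := 7) (by decide)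
  have y06341 : S.om (Y S v 0 6 3 4 1) (Y S v 1 2 3 4 6) = 0 := by
    simpa only [Y12, Y34, h.Y45] using h.yyC (i := 6) (j := 0) (m := 1) (n := 2) (x := 3) (z := 4) (by decide)
  have y06347 : S.om (Y S v 0 6 3 4 7) (Y S v 1 2 3 4 6) = 0 := by
    rw [h.om_compl_left (i := 0) (j := 6) (l := 3) (m := 4) (n := 7) (o := 1) (p := 2) (q := 5) (by decide), neg_eq_zero]
    rw [h.om_compl_right (i := 1) (j := 2) (l := 3) (m := 4) (n := 6) (o := 0) (p := 5) (q := 7) (by decide), neg_eq_zero]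
    simpa only [Y12, Y34, h.Y45] using h.yyB (i := 0) (j := 6) (m := 1) (n := 2) (x := 5) (u := 7) (by decide)
  have y06351 : S.om (Y S v 0 6 3 5 1) (Y S v 1 2 3 4 6) = - FF S v := by
    have e := h.FF_comp (⟨![6, 0, 1, 2, 3, 5, 4, 7], ![1, 2, 3, 4, 6, 5, 0, 7], by decide, by decide⟩)
    rw [show Perm.sign (⟨![6, 0, 1, 2, 3, 5, 4, 7], ![1, 2, 3, 4, 6, 5, 0, 7], by decide, by decide⟩ : Perm (Fin 8)) = -1 from by decide] at e
    change S.om (Y S v 6 0 1 3 5) (Y S v 1 2 6 3 4) = _ at e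
    simp only [Y12, Y34, h.Y45] at e ⊢
    rw [e]; simp
  have y06357 : S.om (Y S v 0 6 3 5 7) (Y S v 1 2 3 4 6) = 0 := by
    rw [h.om_compl_left (i := 0) (j := 6) (l := 3) (m := 5) (n := 7) (o := 1) (p := 2) (q := 4) (by decide), neg_eq_zero]
    simpa only [Y12, Y34, h.Y45] using h.yyB (i := 6) (j := 0) (m := 1) (n := 2) (x := 4) (u := 3) (by decide)
  have y07246 : S.om (Y S v 0 7 2 4 6) (Y S v 1 2 3 4 6) = 0 := by
    rw [h.om_compl_left (i := 0) (j := 7) (l := 2) (m := 4) (n := 6) (o := 1) (p := 3) (q := 5) (by decide), neg_eq_zero]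
    rw [h.om_compl_right (i := 1) (j := 2) (l := 3) (m := 4) (n := 6) (o := 0) (p := 5) (q := 7) (by decide), neg_eq_zero]
    rw [S.om_anti, neg_eq_zero]
    simpa only [Y12, Y34, h.Y45] using h.yyB (i := 1) (j := 2) (m := 0) (n := 7) (x := 5) (u := 3) (by decide)
  have y07241 : S.om (Y S v 0 7 2 4 1) (Y S v 1 2 3 4 6) = 0 := by
    rw [h.om_compl_right (i := 1) (j := 2) (l := 3) (m := 4) (n := 6) (o := 0) (p := 5) (q := 7) (by decide), neg_eq_zero]
    simpa only [Y12, Y34, h.Y45] using h.yyA' (i := 0) (j := 7) (m := 1) (n := 2) (x := 4) (u := 5) (by decide)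
  have y07256 : S.om (Y S v 0 7 2 5 6) (Y S v 1 2 3 4 6) = 0 := by
    rw [h.om_compl_right (i := 1) (j := 2) (l := 3) (m := 4) (n := 6) (o := 0) (p := 5) (q := 7) (by decide), neg_eq_zero]
    rw [S.om_anti, neg_eq_zero]
    simpa only [Y12, Y34, h.Y45] using h.yyB (i := 2) (j := 1) (m := 0) (n := 7) (x := 5) (u := 6) (by decide)
  have y07251 : S.om (Y S v 0 7 2 5 1) (Y S v 1 2 3 4 6) = 0 := by
    rw [h.om_compl_right (i := 1) (j := 2) (l := 3) (m := 4) (n := 6) (o := 0) (p := 5) (q := 7) (by decide), neg_eq_zero]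
    simpa only [Y12, Y34, h.Y45] using h.yyA (i := 0) (j := 7) (m := 1) (n := 2) (x := 5) (by decide)
  have y07346 : S.om (Y S v 0 7 3 4 6) (Y S v 1 2 3 4 6) = 0 := by
    rw [h.om_compl_left (i := 0) (j := 7) (l := 3) (m := 4) (n := 6) (o := 1) (p := 2) (q := 5) (by decide), neg_eq_zero]
    rw [h.om_compl_right (i := 1) (j := 2) (l := 3) (m := 4) (n := 6) (o := 0) (p := 5) (q := 7) (by decide), neg_eq_zero]
    simpa only [Y12, Y34, h.Y45] using h.yyA (i := 0) (j := 7) (m := 1) (n := 2) (x := 5) (by decide)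
  have y07341 : S.om (Y S v 0 7 3 4 1) (Y S v 1 2 3 4 6) = 0 := by
    rw [show Y S v 0 7 3 4 1 = Y S v 0 7 1 3 4 from by simp only [Y12, Y34, h.Y45]]; rw [h.om_compl_left (i := 0) (j := 7) (l := 1) (m := 3) (n := 4) (o := 2) (p := 5) (q := 6) (by decide), neg_eq_zero]
    rw [h.om_compl_right (i := 1) (j := 2) (l := 3) (m := 4) (n := 6) (o := 0) (p := 5) (q := 7) (by decide), neg_eq_zero]
    rw [S.om_anti, neg_eq_zero]
    simpa only [Y12, Y34, h.Y45] using h.yyB (i := 2) (j := 1) (m := 0) (n := 7) (x := 5) (u := 6) (by decide)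
  have y07356 : S.om (Y S v 0 7 3 5 6) (Y S v 1 2 3 4 6) = 0 := by
    rw [h.om_compl_left (i := 0) (j := 7) (l := 3) (m := 5) (n := 6) (o := 1) (p := 2) (q := 4) (by decide), neg_eq_zero]
    rw [h.om_compl_right (i := 1) (j := 2) (l := 3) (m := 4) (n := 6) (o := 0) (p := 5) (q := 7) (by decide), neg_eq_zero]
    simpa only [Y12, Y34, h.Y45] using h.yyA' (i := 0) (j := 7) (m := 1) (n := 2) (x := 4) (u := 5) (by decide)
  have y07351 : S.om (Y S v 0 7 3 5 1) (Y S v 1 2 3 4 6) = 0 := by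
    rw [h.om_compl_right (i := 1) (j := 2) (l := 3) (m := 4) (n := 6) (o := 0) (p := 5) (q := 7) (by decide), neg_eq_zero]
    rw [S.om_anti, neg_eq_zero]
    simpa only [Y12, Y34, h.Y45] using h.yyB (i := 1) (j := 2) (m := 0) (n := 7) (x := 5) (u := 3) (by decide)
  rw [t023, t045, t016, t017, t061, t067, t076, t071, y01246, y01247, y01256, y01257, y01346, y01347, y01356, y01357, y06241, y06247, y06251, y06257, y06341, y06347, y06351, y06357, y07246, y07241, y07256, y07251, y07346, y07341, y07356, y07351] at E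
  have e2 : 2 * (FF S v ^ 2) = 2 * (aa S v ^ 5) := by
    linear_combination E + 4 * aa S v ^ 5 * h.five
  exact mul_left_cancel₀ h.two e2

end IsCfg

end Cfsg.Agent.R2.PX.W
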