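import Cfsg.Agent.R2.PX.W.Val
import Mathlib.LinearAlgebra.Matrix.NonsingularInverse
import Mathlib.LinearAlgebra.FiniteDimensional.Lemmas
import Mathlib.LinearAlgebra.LinearIndependent.Lemmas

/-! # Part B of pattern X: 28 words `t` and 28 words `y` form a basis (dim 56). -/

namespace Cfsg.Agent.R2.PX.W

open Equiv

set_option linter.unusedSimpArgs false

variable {k V : Type*} [Field k] [AddCommGroup V] [Module k V]
variable {S : Fts k V} {v : Fin 8 → V}

def q0 : Fin 28 → Fin 8 :=
  ![2, 2, 2, 2, 2, 2, 2, 2, 2, 2, 2, 2, 3, 3, 3, 3, 3, 3, 3, 3, 3, 4, 5, 5, 5, 5, 5, 5]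

def q1 : Fin 28 → Fin 8 :=
  ![4, 4, 5, 5, 5, 5, 6, 6, 6, 6, 7, 7, 4, 5, 5, 5, 6, 7, 7, 7, 7, 6, 6, 6, 7, 7, 7, 7]

def q2 : Fin 28 → Fin 8 :=
  ![0, 3, 0, 0, 1, 4, 0, 0, 1, 3, 0, 1, 0, 0, 1, 4, 0, 0, 0, 0, 0, 0, 0, 1, 0, 0, 2, 2]

def q3 : Fin 28 → Fin 8 :=
  ![1, 6, 1, 3, 6, 6, 1, 4, 3, 4, 4, 4, 6, 1, 6, 6, 4, 1, 1, 2, 4, 1, 2, 4, 1, 4, 3, 3]

def q4 : Fin 28 → Fin 8 :=
  ![5, 7, 4, 4, 7, 7, 3, 5, 7, 5, 5, 5, 7, 4, 7, 7, 5, 2, 6, 4, 5, 5, 3, 7, 4, 6, 4, 6]

def c0 : Fin 28 → Fin 8 :=
  ![0, 0, 0, 0, 0, 0, 0, 0, 0, 0, 0, 0, 0, 0, 1, 1, 1, 1, 1, 1, 1, 1, 1, 2, 2, 2, 2, 2]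

def c1 : Fin 28 → Fin 8 :=
  ![1, 1, 1, 1, 1, 2, 2, 2, 2, 3, 3, 3, 4, 4, 2, 2, 2, 2, 3, 3, 3, 4, 4, 3, 3, 3, 4, 4]

def c2 : Fin 28 → Fin 8 :=
  ![2, 3, 4, 5, 6, 3, 4, 5, 6, 4, 5, 6, 5, 6, 3, 4, 5, 6, 4, 5, 6, 5, 6, 4, 5, 6, 5, 6]

def MR : Fin 28 → ℕ :=
  ![85170099645588445405330, 85171108451912492586634, 4912609236266502052193298,
    4912535449290215535482002, 4912610371173058527962186, 4912609218252103408489562,
    615247662463882826949762, 615256723706264376910986, 615247662464019057943122,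
    615256885835988401201738, 5526445236339496238781578, 5526498432857898394129546,
    5525337402904179546595985, 3099221369846843314873362, 3099221372062909000918097,
    5517073009040917291930707, 5450957862638281579635857, 2806351928042153273009296,
    3410888624509653103215762, 5526435019642412600464018, 3108592608253468905903249,
    685944813624545505747090, 5526518014474436202734674, 5525927736709262197761161,
    3145853874169648117228562, 5488147631631114449757321, 5525262498753144051807305,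
    5450886363771677150876873]

def NR : Fin 28 → ℕ :=
  ![2460669311548462399005828, 1343616530030417854599762, 2505377016208310340728388,
    8615970623800506621900289, 11010300720464586305175556, 5754306334445550656558105,
    3065149643285341768028834, 1286357623023091052778060, 2873267332047177328731203,
    9832070123629133131170400, 5270322591674663626147539, 3075556761938259865904403,
    340305866545648183167242, 10670357152197720650364497, 1064481121535816308164836,
    1213649954042033833382538, 2736274039484287644612306, 7263037880067118679991457,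
    7374080692695460494706330, 3067440113024489663082564, 5536497762171625083549273,
    10972604459406502177870417, 3476423318004216768004130, 10961825661442662649612388,
    11032189795983405807093962, 125236693209603006304768, 11009350641052561034487049,
    7301113421353338307454016]

/-- table lookup -/
def dig (r l : ℕ) : ℕ := r / 8 ^ l % 8

def sumN : ℕ → (ℕ → ℕ) → ℕ
  | 0, _ => 0
  | n + 1, f => sumN n f + f n

theorem sumN_eq (n : ℕ) (f : ℕ → ℕ) : sumN n f = ∑ i : Fin n, f i := by
  rw [Fin.sum_univ_eq_sum_range (fun i => f i) n]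
  induction n with
  | zero => rfl
  | succ n ih => rw [Finset.sum_range_succ, sumN, ih]

def nodupQ (i : Fin 28) : Prop := [q0 i, q1 i, q2 i, q3 i, q4 i].Nodup

theorem nodup_q : ∀ i : Fin 28, [q0 i, q1 i, q2 i, q3 i, q4 i].Nodup := by decide +kernel

theorem nodup_c : ∀ i : Fin 28, [c0 i, c1 i, c2 i].Nodup := by decide +kernel

theorem check1 : ∀ i j : Fin 28,
    sv (q0 i) (q1 i) (q2 i) (q3 i) (q4 i) (c0 j) (c1 j) (c2 j) = dig (MR i) j := by
  decide +kernel

/-- transposed table of `M` -/
def MC (j : Fin 28) (l : ℕ) : ℕ := if h : l < 28 then dig (MR ⟨l, h⟩) j else 0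

theorem check2 : ∀ i j : Fin 28,
    sumN 28 (fun l => dig (NR i) l * MC j l) % 5 = if i = j then 1 else 0 := by
  decide +kernel

/-- the matrix of the pairing over `k` -/
def Mm (k : Type*) [Field k] : Matrix (Fin 28) (Fin 28) k := fun i j => (dig (MR i) j : k)

def Nm (k : Type*) [Field k] : Matrix (Fin 28) (Fin 28) k := fun i j => (dig (NR i) j : k)

theorem NM_one (h5 : (5 : k) = 0) : Nm k * Mm k = 1 := by
  ext i j
  rw [Matrix.mul_apply, Matrix.one_apply]
  have h := check2 i j
  have e : ∑ l : Fin 28, Nm k i l * Mm k l j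
      = ((sumN 28 (fun l => dig (NR i) l * MC j l) : ℕ) : k) := by
    rw [sumN_eq]
    push_cast
    refine Finset.sum_congr rfl fun l _ => ?_
    simp only [Nm, Mm, MC, l.2, dif_pos]
  rw [e, ← Nat.div_add_mod (sumN 28 fun l => dig (NR i) l * MC j l) 5, h]
  push_cast
  rw [h5, zero_mul, zero_add]

theorem MN_one (h5 : (5 : k) = 0) : Mm k * Nm k = 1 :=
  mul_eq_one_comm.1 (NM_one h5)

theorem nonsing_right (h5 : (5 : k) = 0) {x : Fin 28 → k}
    (hx : ∀ i, ∑ j, Mm k i j * x j = 0) : x = 0 := by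
  have e : (Mm k).mulVec x = 0 := by
    funext i; exact hx i
  have := congrArg (Nm k).mulVec e
  rwa [Matrix.mulVec_mulVec, NM_one h5, Matrix.one_mulVec, Matrix.mulVec_zero] at this

theorem nonsing_left (h5 : (5 : k) = 0) {x : Fin 28 → k}
    (hx : ∀ j, ∑ i, x i * Mm k i j = 0) : x = 0 := by
  have e : Matrix.vecMul x (Mm k) = 0 := by
    funext i; exact hx i
  have := congrArg (fun z => Matrix.vecMul z (Nm k)) e
  simpa only [Matrix.vecMul_vecMul, MN_one h5, Matrix.vecMul_one, Matrix.zero_vecMul] using this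

/-- the 28 words `t` -/
def tw (S : Fts k V) (v : Fin 8 → V) (j : Fin 28) : V := T S v (c0 j) (c1 j) (c2 j)

/-- the 28 words `y` -/
def yw (S : Fts k V) (v : Fin 8 → V) (i : Fin 28) : V := Y S v (q0 i) (q1 i) (q2 i) (q3 i) (q4 i)

namespace IsCfg

theorem om_yw_tw (h : IsCfg S v) (i j : Fin 28) :
    S.om (yw S v i) (tw S v j) = Mm k i j * aa S v ^ 2 := by
  rw [yw, tw, h.om_YT_val (nodup_q i) (nodup_c j), check1, Mm]

theorem linInd (h : IsCfg S v) (ha : aa S v ≠ 0) :
    LinearIndependent k (Sum.elim (tw S v) (yw S v)) := by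
  rw [Fintype.linearIndependent_iff]
  intro g hg
  rw [Fintype.sum_sum_type] at hg
  simp only [Sum.elim_inl, Sum.elim_inr] at hg
  have ha2 : aa S v ^ 2 ≠ 0 := pow_ne_zero 2 ha
  have hy : (fun i => g (Sum.inr i)) = 0 := by
    refine nonsing_left h.five fun j => ?_
    have e := congrArg (fun x => S.om x (tw S v j)) hg
    simp only [map_add, map_sum, map_smul, LinearMap.add_apply, LinearMap.sum_apply,
      LinearMap.smul_apply, map_zero, LinearMap.zero_apply, smul_eq_mul, h.om_yw_tw] at e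
    have e0 : ∀ i, S.om (tw S v i) (tw S v j) = 0 := fun i => h.om_TT _ _ _ _ _ _
    simp only [e0, mul_zero, Finset.sum_const_zero, zero_add, ← mul_assoc] at e
    rw [← Finset.sum_mul] at e
    exact (mul_eq_zero.1 e).resolve_right ha2
  have hy' : ∀ i, g (Sum.inr i) = 0 := fun i => congrFun hy i
  simp only [hy', zero_smul, Finset.sum_const_zero, add_zero] at hg
  have ht : (fun i => g (Sum.inl i)) = 0 := by
    refine nonsing_right h.five fun i => ?_
    have e := congrArg (fun x => S.om (yw S v i) x) hg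
    simp only [map_sum, map_smul, map_zero, smul_eq_mul, h.om_yw_tw] at e
    have e1 : ∀ x, g (Sum.inl x) * (Mm k i x * aa S v ^ 2)
        = (Mm k i x * g (Sum.inl x)) * aa S v ^ 2 := fun x => by ring
    simp only [e1] at e
    rw [← Finset.sum_mul] at e
    exact (mul_eq_zero.1 e).resolve_right ha2
  rintro (i | i)
  · exact congrFun ht i
  · exact hy' i

theorem span_words (h : IsCfg S v) (ha : aa S v ≠ 0) (hd : Module.finrank k V = 56) :
    Submodule.span k (Set.range (Sum.elim (tw S v) (yw S v))) = ⊤ := by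
  haveI : Module.Finite k V := Module.finite_of_finrank_pos (by rw [hd]; norm_num)
  refine (h.linInd ha).span_eq_top_of_card_eq_finrank' ?_
  rw [hd, Fintype.card_sum, Fintype.card_fin]

/-- a subspace containing all the words `t`, `y` is everything -/
theorem top_of_words (h : IsCfg S v) (ha : aa S v ≠ 0) (hd : Module.finrank k V = 56)
    (W : Submodule k V) (ht : ∀ {i j l}, [i, j, l].Nodup → T S v i j l ∈ W)
    (hy : ∀ {i j l m n}, [i, j, l, m, n].Nodup → Y S v i j l m n ∈ W) : W = ⊤ := by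
  rw [eq_top_iff, ← h.span_words ha hd, Submodule.span_le]
  rintro _ ⟨i | i, rfl⟩
  · exact ht (nodup_c i)
  · exact hy (nodup_q i)

theorem eq_zero_of (h : IsCfg S v) (ha : aa S v ≠ 0) (hd : Module.finrank k V = 56)
    (hn : ∀ x, (∀ y, S.om x y = 0) → x = 0) {x : V} (ht : ∀ j, S.om x (tw S v j) = 0)
    (hy : ∀ j, S.om x (yw S v j) = 0) : x = 0 := by
  refine hn x fun y => ?_
  have : y ∈ Submodule.span k (Set.range (Sum.elim (tw S v) (yw S v))) := by
    rw [h.span_words ha hd]; trivial
  induction this using Submodule.span_induction with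
  | mem y hy' =>
    obtain ⟨i | i, rfl⟩ := hy'
    · exact ht i
    · exact hy i
  | zero => simp
  | add a b _ _ ha hb => rw [map_add, ha, hb, add_zero]
  | smul c a _ ha => rw [map_smul, ha, smul_zero]

end IsCfg

end Cfsg.Agent.R2.PX.W
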