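import Cfsg.Agent.R2.PX.W.Cl
import Mathlib.LinearAlgebra.Basis.VectorSpace

/-! # Part B of pattern X: the isomorphism `Θ` between two configurations with the same `a`, `F`
(normalised). -/

namespace Cfsg.Agent.R2.PX.W

open Equiv

set_option linter.unusedSimpArgs false
set_option maxHeartbeats 1000000

variable {k V V' : Type*} [Field k] [AddCommGroup V] [Module k V] [AddCommGroup V'] [Module k V']
variable {S : Fts k V} {v : Fin 8 → V} {S' : Fts k V'} {v' : Fin 8 → V'}

namespace Same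

theorem cl_all (c : Same S v S' v') (i j l m n o p : Fin 8) : Cl S v S' v' i j l m n o p := by
  by_cases nd : [l, m, n, o, p].Nodup
  · obtain ⟨q, r, t, nd8⟩ := ext5 nd
    obtain ⟨s, e0, e1, e2, e3, e4, -⟩ := exists_perm8 nd8
    obtain ⟨x, rfl⟩ := s.surjective i
    obtain ⟨z, rfl⟩ := s.surjective j
    have := GG_comp s ((c.comp s).cl_all0 x z)
    simp only [Y, Function.comp_apply, e0, e1, e2, e3, e4] at this
    exact this
  · -- degenerate words
    unfold Cl
    have key : ∀ i j x x', (x = 0 ∧ x' = 0 ∨ ∃ (r : k) (a : Fin 8), x = r • v a ∧ x' = r • v' a) →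
        ((S.D (v i) (v j) x, S'.D (v' i) (v' j) x') : V × V') ∈ GG S v S' v' := by
      rintro i j x x' (⟨rfl, rfl⟩ | ⟨r, a, rfl, rfl⟩)
      · rw [map_zero, map_zero]; exact zero_mem _
      · rw [map_smul, map_smul]
        exact Submodule.smul_mem _ _ (mem_t i j a)
    apply key
    by_cases e1 : l = m
    · subst e1; left; exact ⟨c.h.Y11 _ _ _ _, c.h'.Y11 _ _ _ _⟩
    by_cases e2 : n = o
    · subst e2; left; exact ⟨c.h.Y_334 _ _ _ _, c.h'.Y_334 _ _ _ _⟩
    by_cases e3 : n = p
    · subst e3; left; exact ⟨c.h.Y_343 _ _ _ _, c.h'.Y_343 _ _ _ _⟩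
    by_cases e4 : o = p
    · subst e4; left; exact ⟨c.h.Y_344 _ _ _ _, c.h'.Y_344 _ _ _ _⟩
    right
    have k1 : ∀ l m o p : Fin 8, ∃ r : k, Y S v l m l o p = r • v l ∧ Y S' v' l m l o p = r • v' l :=
      fun l m o p => ⟨_, c.h.Y_1 l m o p, by rw [c.h'.Y_1, c.om_vT_eq]⟩
    have k2 : ∀ l m n p : Fin 8, ∃ r : k, Y S v l m n l p = r • v l ∧ Y S' v' l m n l p = r • v' l :=
      fun l m n p => by
        obtain ⟨r, h1, h2⟩ := k1 l m n p
        exact ⟨r, by rw [IsCfg.Y34, h1], by rw [IsCfg.Y34, h2]⟩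
    have k3 : ∀ l m n o : Fin 8, ∃ r : k, Y S v l m n o l = r • v l ∧ Y S' v' l m n o l = r • v' l :=
      fun l m n o => by
        obtain ⟨r, h1, h2⟩ := k2 l m n o
        exact ⟨r, by rw [c.h.Y45, h1], by rw [c.h'.Y45, h2]⟩
    have sw : ∀ {l m n o p a : Fin 8}, (∃ r : k, Y S v m l n o p = r • v a ∧
        Y S' v' m l n o p = r • v' a) → ∃ r : k, Y S v l m n o p = r • v a ∧
        Y S' v' l m n o p = r • v' a := by
      rintro l m n o p a ⟨r, h1, h2⟩
      exact ⟨r, by rw [IsCfg.Y12, h1], by rw [IsCfg.Y12, h2]⟩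
    have out : ∀ {x : V} {x' : V'} (a : Fin 8), (∃ r : k, x = r • v a ∧ x' = r • v' a) →
        ∃ (r : k) (a : Fin 8), x = r • v a ∧ x' = r • v' a := fun a ⟨r, h⟩ => ⟨r, a, h⟩
    by_cases f1 : l = n
    · subst f1; exact out _ (k1 _ _ _ _)
    by_cases f2 : l = o
    · subst f2; exact out _ (k2 _ _ _ _)
    by_cases f3 : l = p
    · subst f3; exact out _ (k3 _ _ _ _)
    by_cases f4 : m = n
    · subst f4; exact out _ (sw (k1 _ _ _ _))
    by_cases f5 : m = o
    · subst f5; exact out _ (sw (k2 _ _ _ _))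
    by_cases f6 : m = p
    · subst f6; exact out _ (sw (k3 _ _ _ _))
    exfalso
    apply nd
    simp only [List.nodup_cons, List.mem_cons, not_or, List.not_mem_nil, not_false_eq_true,
      List.nodup_nil, and_true]
    exact ⟨⟨e1, f1, f2, f3⟩, ⟨f4, f5, f6⟩, ⟨e2, e3⟩, e4⟩

/-- the graph is stable under the `r_ij` -/
theorem stab (c : Same S v S' v') (i j : Fin 8) {x : V × V'} (hx : x ∈ GG S v S' v') :
    ((S.D (v i) (v j) x.1, S'.D (v' i) (v' j) x.2) : V × V') ∈ GG S v S' v' := by
  unfold GG at hx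
  induction hx using Submodule.span_induction with
  | mem x hx =>
    obtain ⟨w, rfl⟩ := hx
    cases w with
    | v l => exact mem_t i j l
    | t l m n => exact mem_y i j l m n
    | y l m n o p => exact c.cl_all i j l m n o p
  | zero => simp only [Prod.fst_zero, Prod.snd_zero, map_zero]; exact zero_mem _
  | add a b _ _ ha hb =>
    simp only [Prod.fst_add, Prod.snd_add, map_add]
    exact Submodule.add_mem _ ha hb
  | smul r a _ ha =>
    simp only [Prod.smul_fst, Prod.smul_snd, map_smul]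
    exact Submodule.smul_mem _ r ha

theorem iso_v (c : Same S v S' v') (i : Fin 8) {x : V × V'} (hx : x ∈ GG S v S' v') :
    S.om (v i) x.1 = S'.om (v' i) x.2 := by
  unfold GG at hx
  induction hx using Submodule.span_induction with
  | mem x hx =>
    obtain ⟨w, rfl⟩ := hx
    cases w with
    | v l => exact (c.h.orth i l).trans (c.h'.orth i l).symm
    | t l m n => exact c.om_vT_eq i l m n
    | y l m n o p => exact (c.h.om_vY i l m n o p).trans (c.h'.om_vY i l m n o p).symm
  | zero => simp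
  | add a b _ _ ha hb => simp only [Prod.fst_add, Prod.snd_add, map_add, ha, hb]
  | smul r a _ ha => simp only [Prod.smul_fst, Prod.smul_snd, map_smul, ha]

/-- the graph is isotropic -/
theorem iso (c : Same S v S' v') {x y : V × V'} (hx : x ∈ GG S v S' v')
    (hy : y ∈ GG S v S' v') : S.om x.1 y.1 = S'.om x.2 y.2 := by
  have hT : ∀ (i j l : Fin 8) {y : V × V'}, y ∈ GG S v S' v' →
      S.om (T S v i j l) y.1 = S'.om (T S' v' i j l) y.2 := by
    intro i j l y hy
    rw [T, T, S.om_D, S'.om_D, c.iso_v l (c.stab i j hy)]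
  unfold GG at hx
  induction hx using Submodule.span_induction with
  | mem x hx =>
    obtain ⟨w, rfl⟩ := hx
    cases w with
    | v l => exact c.iso_v l hy
    | t l m n => exact hT l m n hy
    | y l m n o p =>
      change S.om (Y S v l m n o p) y.1 = S'.om (Y S' v' l m n o p) y.2
      rw [IsCfg.Y_eq, IsCfg.Y_eq, S.om_D, S'.om_D, hT n o p (c.stab l m hy)]
  | zero => simp
  | add a b _ _ ha hb =>
    simp only [Prod.fst_add, Prod.snd_add, map_add, LinearMap.add_apply, ha, hb]
  | smul r a _ ha =>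
    simp only [Prod.smul_fst, Prod.smul_snd, map_smul, LinearMap.smul_apply, ha]

theorem fst_inj (c : Same S v S' v') {x : V × V'} (hx : x ∈ GG S v S' v') (h0 : x.1 = 0) :
    x = 0 := by
  have hs : (GG S v S' v').map (LinearMap.snd k V V') = ⊤ := by
    refine c.h'.top_of_words (by rw [c.haa]; exact c.ha) c.hd' _ (fun _ => ?_) (fun _ => ?_)
    · exact ⟨_, mem_t (S := S) (v := v) _ _ _, rfl⟩
    · exact ⟨_, mem_y (S := S) (v := v) _ _ _ _ _, rfl⟩
  have : x.2 = 0 := by
    refine c.hn' _ fun y => ?_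
    have hy : y ∈ (GG S v S' v').map (LinearMap.snd k V V') := by rw [hs]; trivial
    obtain ⟨w, hw, rfl⟩ := hy
    have := c.iso hx hw
    rw [h0] at this
    simpa using this.symm
  exact Prod.ext h0 this

theorem fst_surj (c : Same S v S' v') (z : V) : ∃ x ∈ GG S v S' v', x.1 = z := by
  have hs : (GG S v S' v').map (LinearMap.fst k V V') = ⊤ := by
    refine c.h.top_of_words c.ha c.hd _ (fun _ => ?_) (fun _ => ?_)
    · exact ⟨_, mem_t (S' := S') (v' := v') _ _ _, rfl⟩
    · exact ⟨_, mem_y (S' := S') (v' := v') _ _ _ _ _, rfl⟩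
  have hz : z ∈ (GG S v S' v').map (LinearMap.fst k V V') := by rw [hs]; trivial
  obtain ⟨w, hw, h⟩ := hz
  exact ⟨w, hw, h⟩

theorem snd_inj (c : Same S v S' v') {x : V × V'} (hx : x ∈ GG S v S' v') (h0 : x.2 = 0) :
    x = 0 := by
  have : x.1 = 0 := by
    refine c.hn _ fun y => ?_
    obtain ⟨w, hw, rfl⟩ := c.fst_surj y
    have := c.iso hx hw
    rw [h0] at this
    simpa using this
  exact Prod.ext this h0

theorem snd_surj (c : Same S v S' v') (z : V') : ∃ x ∈ GG S v S' v', x.2 = z := by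
  have hs : (GG S v S' v').map (LinearMap.snd k V V') = ⊤ := by
    refine c.h'.top_of_words (by rw [c.haa]; exact c.ha) c.hd' _ (fun _ => ?_) (fun _ => ?_)
    · exact ⟨_, mem_t (S := S) (v := v) _ _ _, rfl⟩
    · exact ⟨_, mem_y (S := S) (v := v) _ _ _ _ _, rfl⟩
  have hz : z ∈ (GG S v S' v').map (LinearMap.snd k V V') := by rw [hs]; trivial
  obtain ⟨w, hw, h⟩ := hz
  exact ⟨w, hw, h⟩

/-- the isometry -/
theorem exists_iso (c : Same S v S' v') : ∃ Θ : V ≃ₗ[k] V', ∀ z, (z, Θ z) ∈ GG S v S' v' := by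
  let p1 : GG S v S' v' →ₗ[k] V := (LinearMap.fst k V V').comp (GG S v S' v').subtype
  let p2 : GG S v S' v' →ₗ[k] V' := (LinearMap.snd k V V').comp (GG S v S' v').subtype
  have b1 : Function.Bijective p1 := by
    constructor
    · rw [injective_iff_map_eq_zero]
      intro x hx
      exact Subtype.ext (c.fst_inj x.2 hx)
    · intro z
      obtain ⟨x, hx, h⟩ := c.fst_surj z
      exact ⟨⟨x, hx⟩, h⟩
  have b2 : Function.Bijective p2 := by
    constructor
    · rw [injective_iff_map_eq_zero]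
      intro x hx
      exact Subtype.ext (c.snd_inj x.2 hx)
    · intro z
      obtain ⟨x, hx, h⟩ := c.snd_surj z
      exact ⟨⟨x, hx⟩, h⟩
  refine ⟨(LinearEquiv.ofBijective p1 b1).symm.trans (LinearEquiv.ofBijective p2 b2), fun z => ?_⟩
  obtain ⟨x, rfl⟩ := (LinearEquiv.ofBijective p1 b1).surjective z
  rw [LinearEquiv.trans_apply, LinearEquiv.symm_apply_apply]
  exact x.2

end Same

end Cfsg.Agent.R2.PX.W
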