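import Cfsg.Agent.R2.PX.W.Gram

/-! # Part B of pattern X: a value function for the pairings `(y,t)`. -/

namespace Cfsg.Agent.R2.PX.W

open Equiv

set_option linter.unusedSimpArgs false

variable {k V : Type*} [Field k] [AddCommGroup V] [Module k V]
variable {S : Fts k V} {v : Fin 8 → V}

def bn (b : Bool) : ℕ := if b then 1 else 0

def svf (u w : ℕ) : ℕ :=
  if u = 1 then 2 else if u = 0 then (if w = 0 then 3 else if w = 1 then 1 else if w = 2 then 2 else 0)
  else 0

/-- `om(y_{ij|lmn}, t_{xyz}) = sv * a^2` -/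
def sv (i j l m n x y z : Fin 8) : ℕ :=
  svf (bn (x == i || x == j) + bn (y == i || y == j) + bn (z == i || z == j))
    (bn (x == l || x == m || x == n) + bn (y == l || y == m || y == n)
      + bn (z == l || z == m || z == n))

theorem sv_comm12 (i j l m n x y z : Fin 8) : sv i j l m n x y z = sv i j l m n y x z := by
  unfold sv
  rw [add_comm (bn (x == i || x == j)), add_comm (bn (x == l || x == m || x == n))]

theorem sv_comm23 (i j l m n x y z : Fin 8) : sv i j l m n x y z = sv i j l m n x z y := by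
  unfold sv
  rw [add_right_comm, add_right_comm (bn (x == l || x == m || x == n))]

theorem sv_perm (s : Perm (Fin 8)) (i j l m n x y z : Fin 8) :
    sv (s i) (s j) (s l) (s m) (s n) (s x) (s y) (s z) = sv i j l m n x y z := by
  have e : ∀ a b : Fin 8, (s a == s b) = (a == b) := fun a b => by
    by_cases hab : a = b
    · subst hab; simp
    · have : s a ≠ s b := fun h => hab (s.injective h)
      simp [hab]
  unfold sv
  simp only [e]

namespace IsCfg

theorem om_YT_val0 (h : IsCfg S v) (x y z : Fin 8) (hxy : x < y) (hyz : y < z) :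
    S.om (Y S v 0 1 2 3 4) (T S v x y z) = (sv 0 1 2 3 4 x y z : k) * aa S v ^ 2 := by
  have h01 : ∀ z, S.om (Y S v 0 1 2 3 4) (T S v 0 1 z) = 0 := h.om_YT_itwo 0 1 2 3 4
  have h0 : ∀ {y z}, [1, 0, y, z].Nodup →
      S.om (Y S v 0 1 2 3 4) (T S v 0 y z) = 2 * aa S v ^ 2 := fun nd =>
    h.om_YT_ione nd (by decide)
  have h1 : ∀ {y z}, [0, 1, y, z].Nodup →
      S.om (Y S v 0 1 2 3 4) (T S v 1 y z) = 2 * aa S v ^ 2 := fun nd => by
    rw [Y12]; exact h.om_YT_ione nd (by decide)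
  have h23 : ∀ {z}, [z, 2, 3, 4].Nodup →
      S.om (Y S v 0 1 2 3 4) (T S v 2 3 z) = 2 * aa S v ^ 2 := fun nd =>
    h.om_YT_two (by decide) nd
  have h24 : ∀ {z}, [z, 2, 4, 3].Nodup →
      S.om (Y S v 0 1 2 3 4) (T S v 2 4 z) = 2 * aa S v ^ 2 := fun nd => by
    rw [h.Y45]; exact h.om_YT_two (by decide) nd
  have h34 : ∀ {z}, [z, 3, 4, 2].Nodup →
      S.om (Y S v 0 1 2 3 4) (T S v 3 4 z) = 2 * aa S v ^ 2 := fun nd => by
    rw [Y34, h.Y45]; exact h.om_YT_two (by decide) nd
  have h2 : ∀ {y z w}, [0, 1, 2, 3, 4, y, z, w].Nodup →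
      S.om (Y S v 0 1 2 3 4) (T S v 2 y z) = aa S v ^ 2 := fun nd => h.om_YT_one nd
  have h3 : ∀ {y z w}, [0, 1, 3, 2, 4, y, z, w].Nodup →
      S.om (Y S v 0 1 2 3 4) (T S v 3 y z) = aa S v ^ 2 := fun nd => by
    rw [Y34]; exact h.om_YT_one nd
  have h4 : ∀ {y z w}, [0, 1, 4, 2, 3, y, z, w].Nodup →
      S.om (Y S v 0 1 2 3 4) (T S v 4 y z) = aa S v ^ 2 := fun nd => by
    rw [h.Y45, Y34]; exact h.om_YT_one nd
  have e0 : (0 : k) = ((0 : ℕ) : k) * aa S v ^ 2 := by simp
  have e2 : 2 * aa S v ^ 2 = ((2 : ℕ) : k) * aa S v ^ 2 := by norm_num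
  have e1 : aa S v ^ 2 = ((1 : ℕ) : k) * aa S v ^ 2 := by norm_num
  have e3 : 3 * aa S v ^ 2 = ((3 : ℕ) : k) * aa S v ^ 2 := by norm_num
  fin_cases x <;> fin_cases y <;> (try (exact absurd hxy (by decide))) <;>
    fin_cases z <;> (try (exact absurd hyz (by decide))) <;>
    first
      | exact (h01 _).trans e0
      | exact (h0 (by decide)).trans e2
      | exact (h1 (by decide)).trans e2
      | exact (h.om_YT_three 0 1 2 3 4).trans e0
      | exact (h23 (by decide)).trans e2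
      | exact (h24 (by decide)).trans e2
      | exact (h34 (by decide)).trans e2
      | exact (h2 (w := 5) (by decide)).trans e1
      | exact (h2 (w := 6) (by decide)).trans e1
      | exact (h2 (w := 7) (by decide)).trans e1
      | exact (h3 (w := 5) (by decide)).trans e1
      | exact (h3 (w := 6) (by decide)).trans e1
      | exact (h3 (w := 7) (by decide)).trans e1
      | exact (h4 (w := 5) (by decide)).trans e1
      | exact (h4 (w := 6) (by decide)).trans e1
      | exact (h4 (w := 7) (by decide)).trans e1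
      | exact (h.om_YT_zero0).trans e3

theorem om_YT_val1 (h : IsCfg S v) (x y z : Fin 8) (nd : [x, y, z].Nodup) :
    S.om (Y S v 0 1 2 3 4) (T S v x y z) = (sv 0 1 2 3 4 x y z : k) * aa S v ^ 2 := by
  simp only [List.nodup_cons, List.mem_cons, not_or, List.not_mem_nil, not_false_eq_true,
    List.nodup_nil, and_true] at nd
  obtain ⟨⟨nxy, nxz⟩, nyz⟩ := nd
  rcases lt_or_gt_of_ne nxy with a | a <;> rcases lt_or_gt_of_ne nyz with b | b <;>
    rcases lt_or_gt_of_ne nxz with c | c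
  · exact h.om_YT_val0 _ _ _ a b
  · exact absurd (a.trans b) (not_lt.2 c.le)
  · rw [h.T23, sv_comm23]; exact h.om_YT_val0 _ _ _ c b
  · rw [h.T23, T12, sv_comm23, sv_comm12]; exact h.om_YT_val0 _ _ _ c a
  · rw [T12, sv_comm12]; exact h.om_YT_val0 _ _ _ a c
  · rw [T12, h.T23, sv_comm12, sv_comm23]; exact h.om_YT_val0 _ _ _ b c
  · exact absurd (b.trans a) (not_lt.2 c.le)
  · rw [T12, h.T23, T12, sv_comm12, sv_comm23, sv_comm12]; exact h.om_YT_val0 _ _ _ b a

theorem om_YT_val (h : IsCfg S v) {i j l m n x y z : Fin 8} (nd5 : [i, j, l, m, n].Nodup)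
    (nd : [x, y, z].Nodup) :
    S.om (Y S v i j l m n) (T S v x y z) = (sv i j l m n x y z : k) * aa S v ^ 2 := by
  obtain ⟨o, p, q, nd8⟩ := ext5 nd5
  obtain ⟨s, hs⟩ := exists_perm nd8
  have hs' : ∀ a, s a = ![i, j, l, m, n, o, p, q] a := fun a => by
    have := congrFun (hs (fun x => x)) a
    rw [Function.comp_apply] at this
    rw [this]
  have e0 : i = s 0 := (hs' 0).symm
  have e1 : j = s 1 := (hs' 1).symm
  have e2 : l = s 2 := (hs' 2).symm
  have e3 : m = s 3 := (hs' 3).symm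
  have e4 : n = s 4 := (hs' 4).symm
  obtain ⟨x, rfl⟩ := s.surjective x
  obtain ⟨y, rfl⟩ := s.surjective y
  obtain ⟨z, rfl⟩ := s.surjective z
  rw [e0, e1, e2, e3, e4, sv_perm, ← h.aa_comp s]
  refine (h.comp s).om_YT_val1 x y z ?_
  simpa using nd

end IsCfg

end Cfsg.Agent.R2.PX.W
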