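import Cfsg.Agent.R2.PX.W.Fts
import Mathlib.Data.Fintype.Perm
import Mathlib.GroupTheory.Perm.Sign
import Mathlib.Algebra.BigOperators.Fin
import Mathlib.Data.Fin.VecNotation
import Mathlib.Tactic.FinCases

/-! # Part B of pattern X: configurations and their words. -/

namespace Cfsg.Agent.R2.PX.W

open Equiv

variable {k V : Type*} [Field k] [AddCommGroup V] [Module k V]

/-- `t_{ijk}` -/
def T (S : Fts k V) (v : Fin 8 → V) (i j l : Fin 8) : V := S.D (v i) (v j) (v l)

/-- `y_{ij|klm}` -/
def Y (S : Fts k V) (v : Fin 8 → V) (i j l m n : Fin 8) : V :=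
  S.D (v i) (v j) (S.D (v l) (v m) (v n))

/-- A configuration. -/
structure IsCfg (S : Fts k V) (v : Fin 8 → V) : Prop where
  five : (5 : k) = 0
  sum : ∑ i, v i = 0
  pure : ∀ i, S.D (v i) (v i) = 0
  eqv : ∀ π : Perm (Fin 8), Perm.sign π = 1 → ∃ g : V →ₗ[k] V,
    (∀ x y, S.om (g x) (g y) = S.om x y) ∧
    (∀ x y z, S.D (g x) (g y) (g z) = g (S.D x y z)) ∧ ∀ i, g (v i) = v (π i)

namespace IsCfg

variable {S : Fts k V} {v : Fin 8 → V}

theorem two (h : IsCfg S v) : (2 : k) ≠ 0 := fun e => one_ne_zero (α := k) (by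
  linear_combination h.five - 2 * e)

theorem three (h : IsCfg S v) : (3 : k) ≠ 0 := fun e => one_ne_zero (α := k) (by
  linear_combination 2 * e - h.five)

theorem comp (h : IsCfg S v) (s : Perm (Fin 8)) : IsCfg S (v ∘ s) := by
  refine ⟨h.five, ?_, fun i => h.pure _, fun π hπ => ?_⟩
  · rw [← h.sum]; exact Equiv.sum_comp s v
  · obtain ⟨g, g1, g2, g3⟩ := h.eqv (s * π * s⁻¹) (by simp [hπ, mul_comm])
    refine ⟨g, g1, g2, fun i => ?_⟩
    simp [g3]

end IsCfg

/-- the next index -/
theorem exists_next (L : List (Fin 8)) (h : L.Nodup) (hl : L.length < 8) :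
    ∃ x, (L ++ [x]).Nodup := by
  have : ∃ x, x ∉ L := by
    by_contra hc
    push Not at hc
    have h1 : (Finset.univ : Finset (Fin 8)) ⊆ L.toFinset := fun x _ => by simpa using hc x
    have h2 := Finset.card_le_card h1
    have h3 := L.toFinset_card_le
    simp only [Finset.card_univ, Fintype.card_fin] at h2
    omega
  obtain ⟨x, hx⟩ := this
  exact ⟨x, by
    rw [List.nodup_append]
    refine ⟨h, by simp, ?_⟩
    intro a ha b hb
    simp only [List.mem_singleton] at hb
    rintro rfl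
    exact hx (hb ▸ ha)⟩

theorem exists_perm {i j l m n o p q : Fin 8} (h : [i, j, l, m, n, o, p, q].Nodup) :
    ∃ s : Perm (Fin 8), ∀ {X : Type*} (v : Fin 8 → X),
      v ∘ s = ![v i, v j, v l, v m, v n, v o, v p, v q] := by
  have inj : Function.Injective ![i, j, l, m, n, o, p, q] := by
    simp only [List.nodup_cons, List.mem_cons, not_or] at h
    intro a b hab
    fin_cases a <;> fin_cases b <;> simp at hab ⊢ <;> simp_all
  refine ⟨Equiv.ofBijective _ (Finite.injective_iff_bijective.1 inj), fun v => ?_⟩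
  funext a
  fin_cases a <;> rfl

end Cfsg.Agent.R2.PX.W
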