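import Cfsg.Agent.R2.PX.W.Span

/-! # Part B of pattern X: the relation `(★)`  `a^2 (Σ y_{X|0Y} - 2 a v_1) = F h`. -/

namespace Cfsg.Agent.R2.PX.W

open Equiv

set_option linter.unusedSimpArgs false
set_option maxHeartbeats 1000000

variable {k V : Type*} [Field k] [AddCommGroup V] [Module k V]
variable {S : Fts k V} {v : Fin 8 → V}

/-- `h = (v_a1 - v_a2)(v_b1 - v_b2)(v_c1 - v_c2)` -/
def hh (S : Fts k V) (v : Fin 8 → V) : V :=
  T S v 2 4 6 - T S v 2 4 7 - T S v 2 5 6 + T S v 2 5 7 - T S v 3 4 6 + T S v 3 4 7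
    + T S v 3 5 6 - T S v 3 5 7

def ysum (S : Fts k V) (v : Fin 8 → V) : V :=
  Y S v 2 3 0 4 5 + Y S v 2 3 0 6 7 + Y S v 4 5 0 2 3 + Y S v 4 5 0 6 7 + Y S v 6 7 0 2 3
    + Y S v 6 7 0 4 5

def hsv (i j l m n : Fin 8) : ℤ :=
  sv i j l m n 2 4 6 - sv i j l m n 2 4 7 - sv i j l m n 2 5 6 + sv i j l m n 2 5 7
    - sv i j l m n 3 4 6 + sv i j l m n 3 4 7 + sv i j l m n 3 5 6 - sv i j l m n 3 5 7

namespace IsCfg

theorem om_hh_Y (h : IsCfg S v) {i j l m n : Fin 8} (nd : [i, j, l, m, n].Nodup) :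
    S.om (hh S v) (Y S v i j l m n) = - ((hsv i j l m n : ℤ) : k) * aa S v ^ 2 := by
  rw [S.om_anti, hh]
  simp only [map_add, map_sub]
  rw [h.om_YT_val nd (by decide), h.om_YT_val nd (by decide), h.om_YT_val nd (by decide),
    h.om_YT_val nd (by decide), h.om_YT_val nd (by decide), h.om_YT_val nd (by decide),
    h.om_YT_val nd (by decide), h.om_YT_val nd (by decide), hsv]
  push_cast
  ring

theorem ys_0 (h : IsCfg S v) : S.om (ysum S v) (Y S v 2 4 0 1 5) = 0 := by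
  have e0 : S.om (Y S v 2 3 0 4 5) (Y S v 2 4 0 1 5) = 0 := by
    simpa only [Y12, Y34, h.Y45] using h.yy1 2 3 4 0 5 0 1 5
  have e1 : S.om (Y S v 2 3 0 6 7) (Y S v 2 4 0 1 5) = 0 := by
    simpa only [Y12, Y34, h.Y45] using h.yy1c (i := 2) (j := 3) (l := 0) (m := 6) (n := 7) (o := 4) (p := 1) (q := 5) (by decide) 0 1 5
  have e2 : S.om (Y S v 4 5 0 2 3) (Y S v 2 4 0 1 5) = 0 := by
    simpa only [Y12, Y34, h.Y45] using h.yy1 4 5 2 0 3 0 1 5
  have e3 : S.om (Y S v 4 5 0 6 7) (Y S v 2 4 0 1 5) = 0 := by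
    simpa only [Y12, Y34, h.Y45] using h.yy1c (i := 4) (j := 5) (l := 0) (m := 6) (n := 7) (o := 2) (p := 1) (q := 3) (by decide) 0 1 5
  have e4 : S.om (Y S v 6 7 0 2 3) (Y S v 2 4 0 1 5) = 0 := by
    rw [h.om_compl_right (i := 2) (j := 4) (l := 0) (m := 1) (n := 5) (o := 3) (p := 6) (q := 7) (by decide), neg_eq_zero]
    rw [S.om_anti, neg_eq_zero]
    simpa only [Y12, Y34, h.Y45] using h.yyB (i := 2) (j := 4) (m := 6) (n := 7) (x := 3) (u := 0) (by decide)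
  have e5 : S.om (Y S v 6 7 0 4 5) (Y S v 2 4 0 1 5) = 0 := by
    rw [h.om_compl_left (i := 6) (j := 7) (l := 0) (m := 4) (n := 5) (o := 1) (p := 2) (q := 3) (by decide), neg_eq_zero]
    rw [h.om_compl_right (i := 2) (j := 4) (l := 0) (m := 1) (n := 5) (o := 3) (p := 6) (q := 7) (by decide), neg_eq_zero]
    rw [S.om_anti, neg_eq_zero]
    simpa only [Y12, Y34, h.Y45] using h.yyB (i := 2) (j := 4) (m := 6) (n := 7) (x := 3) (u := 1) (by decide)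
  simp only [ysum, map_add, LinearMap.add_apply, e0, e1, e2, e3, e4, e5, add_zero, zero_add]

theorem ys_1 (h : IsCfg S v) : S.om (ysum S v) (Y S v 2 4 3 6 7) = 0 := by
  have e0 : S.om (Y S v 2 3 0 4 5) (Y S v 2 4 3 6 7) = 0 := by
    simpa only [Y12, Y34, h.Y45] using h.yy1 2 3 4 0 5 3 6 7
  have e1 : S.om (Y S v 2 3 0 6 7) (Y S v 2 4 3 6 7) = 0 := by
    simpa only [Y12, Y34, h.Y45] using h.yy1c (i := 2) (j := 3) (l := 0) (m := 6) (n := 7) (o := 4) (p := 1) (q := 5) (by decide) 3 6 7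
  have e2 : S.om (Y S v 4 5 0 2 3) (Y S v 2 4 3 6 7) = 0 := by
    simpa only [Y12, Y34, h.Y45] using h.yy1 4 5 2 0 3 3 6 7
  have e3 : S.om (Y S v 4 5 0 6 7) (Y S v 2 4 3 6 7) = 0 := by
    simpa only [Y12, Y34, h.Y45] using h.yy1c (i := 4) (j := 5) (l := 0) (m := 6) (n := 7) (o := 2) (p := 1) (q := 3) (by decide) 3 6 7
  have e4 : S.om (Y S v 6 7 0 2 3) (Y S v 2 4 3 6 7) = 0 := by
    rw [S.om_anti, neg_eq_zero]
    simpa only [Y12, Y34, h.Y45] using h.yyB (i := 2) (j := 4) (m := 6) (n := 7) (x := 3) (u := 0) (by decide)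
  have e5 : S.om (Y S v 6 7 0 4 5) (Y S v 2 4 3 6 7) = 0 := by
    rw [h.om_compl_left (i := 6) (j := 7) (l := 0) (m := 4) (n := 5) (o := 1) (p := 2) (q := 3) (by decide), neg_eq_zero]
    rw [S.om_anti, neg_eq_zero]
    simpa only [Y12, Y34, h.Y45] using h.yyB (i := 2) (j := 4) (m := 6) (n := 7) (x := 3) (u := 1) (by decide)
  simp only [ysum, map_add, LinearMap.add_apply, e0, e1, e2, e3, e4, e5, add_zero, zero_add]

theorem ys_2 (h : IsCfg S v) : S.om (ysum S v) (Y S v 2 5 0 1 4) = 0 := by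
  have e0 : S.om (Y S v 2 3 0 4 5) (Y S v 2 5 0 1 4) = 0 := by
    simpa only [Y12, Y34, h.Y45] using h.yy1 2 3 5 0 4 0 1 4
  have e1 : S.om (Y S v 2 3 0 6 7) (Y S v 2 5 0 1 4) = 0 := by
    simpa only [Y12, Y34, h.Y45] using h.yy1c (i := 2) (j := 3) (l := 0) (m := 6) (n := 7) (o := 5) (p := 1) (q := 4) (by decide) 0 1 4
  have e2 : S.om (Y S v 4 5 0 2 3) (Y S v 2 5 0 1 4) = 0 := by
    simpa only [Y12, Y34, h.Y45] using h.yy1 5 4 2 0 3 0 1 4
  have e3 : S.om (Y S v 4 5 0 6 7) (Y S v 2 5 0 1 4) = 0 := by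
    simpa only [Y12, Y34, h.Y45] using h.yy1c (i := 5) (j := 4) (l := 0) (m := 6) (n := 7) (o := 2) (p := 1) (q := 3) (by decide) 0 1 4
  have e4 : S.om (Y S v 6 7 0 2 3) (Y S v 2 5 0 1 4) = 0 := by
    rw [h.om_compl_right (i := 2) (j := 5) (l := 0) (m := 1) (n := 4) (o := 3) (p := 6) (q := 7) (by decide), neg_eq_zero]
    rw [S.om_anti, neg_eq_zero]
    simpa only [Y12, Y34, h.Y45] using h.yyB (i := 2) (j := 5) (m := 6) (n := 7) (x := 3) (u := 0) (by decide)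
  have e5 : S.om (Y S v 6 7 0 4 5) (Y S v 2 5 0 1 4) = 0 := by
    rw [h.om_compl_left (i := 6) (j := 7) (l := 0) (m := 4) (n := 5) (o := 1) (p := 2) (q := 3) (by decide), neg_eq_zero]
    rw [h.om_compl_right (i := 2) (j := 5) (l := 0) (m := 1) (n := 4) (o := 3) (p := 6) (q := 7) (by decide), neg_eq_zero]
    rw [S.om_anti, neg_eq_zero]
    simpa only [Y12, Y34, h.Y45] using h.yyB (i := 2) (j := 5) (m := 6) (n := 7) (x := 3) (u := 1) (by decide)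
  simp only [ysum, map_add, LinearMap.add_apply, e0, e1, e2, e3, e4, e5, add_zero, zero_add]

theorem ys_3 (h : IsCfg S v) : S.om (ysum S v) (Y S v 2 5 0 3 4) = 0 := by
  have e0 : S.om (Y S v 2 3 0 4 5) (Y S v 2 5 0 3 4) = 0 := by
    simpa only [Y12, Y34, h.Y45] using h.yy1 2 3 5 0 4 0 3 4
  have e1 : S.om (Y S v 2 3 0 6 7) (Y S v 2 5 0 3 4) = 0 := by
    simpa only [Y12, Y34, h.Y45] using h.yy1c (i := 2) (j := 3) (l := 0) (m := 6) (n := 7) (o := 5) (p := 1) (q := 4) (by decide) 0 3 4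
  have e2 : S.om (Y S v 4 5 0 2 3) (Y S v 2 5 0 3 4) = 0 := by
    simpa only [Y12, Y34, h.Y45] using h.yy1 5 4 2 0 3 0 3 4
  have e3 : S.om (Y S v 4 5 0 6 7) (Y S v 2 5 0 3 4) = 0 := by
    simpa only [Y12, Y34, h.Y45] using h.yy1c (i := 5) (j := 4) (l := 0) (m := 6) (n := 7) (o := 2) (p := 1) (q := 3) (by decide) 0 3 4
  have e4 : S.om (Y S v 6 7 0 2 3) (Y S v 2 5 0 3 4) = 0 := by
    rw [h.om_compl_left (i := 6) (j := 7) (l := 0) (m := 2) (n := 3) (o := 1) (p := 4) (q := 5) (by decide), neg_eq_zero]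
    rw [h.om_compl_right (i := 2) (j := 5) (l := 0) (m := 3) (n := 4) (o := 1) (p := 6) (q := 7) (by decide), neg_eq_zero]
    rw [S.om_anti, neg_eq_zero]
    simpa only [Y12, Y34, h.Y45] using h.yyB (i := 5) (j := 2) (m := 6) (n := 7) (x := 1) (u := 4) (by decide)
  have e5 : S.om (Y S v 6 7 0 4 5) (Y S v 2 5 0 3 4) = 0 := by
    rw [h.om_compl_left (i := 6) (j := 7) (l := 0) (m := 4) (n := 5) (o := 1) (p := 2) (q := 3) (by decide), neg_eq_zero]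
    rw [h.om_compl_right (i := 2) (j := 5) (l := 0) (m := 3) (n := 4) (o := 1) (p := 6) (q := 7) (by decide), neg_eq_zero]
    rw [S.om_anti, neg_eq_zero]
    simpa only [Y12, Y34, h.Y45] using h.yyB (i := 2) (j := 5) (m := 6) (n := 7) (x := 1) (u := 3) (by decide)
  simp only [ysum, map_add, LinearMap.add_apply, e0, e1, e2, e3, e4, e5, add_zero, zero_add]

theorem ys_4 (h : IsCfg S v) : S.om (ysum S v) (Y S v 2 5 1 6 7) = 0 := by
  have e0 : S.om (Y S v 2 3 0 4 5) (Y S v 2 5 1 6 7) = 0 := by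
    simpa only [Y12, Y34, h.Y45] using h.yy1 2 3 5 0 4 1 6 7
  have e1 : S.om (Y S v 2 3 0 6 7) (Y S v 2 5 1 6 7) = 0 := by
    simpa only [Y12, Y34, h.Y45] using h.yy1c (i := 2) (j := 3) (l := 0) (m := 6) (n := 7) (o := 5) (p := 1) (q := 4) (by decide) 1 6 7
  have e2 : S.om (Y S v 4 5 0 2 3) (Y S v 2 5 1 6 7) = 0 := by
    simpa only [Y12, Y34, h.Y45] using h.yy1 5 4 2 0 3 1 6 7
  have e3 : S.om (Y S v 4 5 0 6 7) (Y S v 2 5 1 6 7) = 0 := by
    simpa only [Y12, Y34, h.Y45] using h.yy1c (i := 5) (j := 4) (l := 0) (m := 6) (n := 7) (o := 2) (p := 1) (q := 3) (by decide) 1 6 7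
  have e4 : S.om (Y S v 6 7 0 2 3) (Y S v 2 5 1 6 7) = 0 := by
    rw [h.om_compl_left (i := 6) (j := 7) (l := 0) (m := 2) (n := 3) (o := 1) (p := 4) (q := 5) (by decide), neg_eq_zero]
    rw [S.om_anti, neg_eq_zero]
    simpa only [Y12, Y34, h.Y45] using h.yyB (i := 5) (j := 2) (m := 6) (n := 7) (x := 1) (u := 4) (by decide)
  have e5 : S.om (Y S v 6 7 0 4 5) (Y S v 2 5 1 6 7) = 0 := by
    rw [h.om_compl_left (i := 6) (j := 7) (l := 0) (m := 4) (n := 5) (o := 1) (p := 2) (q := 3) (by decide), neg_eq_zero]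
    rw [S.om_anti, neg_eq_zero]
    simpa only [Y12, Y34, h.Y45] using h.yyB (i := 2) (j := 5) (m := 6) (n := 7) (x := 1) (u := 3) (by decide)
  simp only [ysum, map_add, LinearMap.add_apply, e0, e1, e2, e3, e4, e5, add_zero, zero_add]

theorem ys_5 (h : IsCfg S v) : S.om (ysum S v) (Y S v 2 5 4 6 7) = 0 := by
  have e0 : S.om (Y S v 2 3 0 4 5) (Y S v 2 5 4 6 7) = 0 := by
    simpa only [Y12, Y34, h.Y45] using h.yy1 2 3 5 0 4 4 6 7
  have e1 : S.om (Y S v 2 3 0 6 7) (Y S v 2 5 4 6 7) = 0 := by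
    simpa only [Y12, Y34, h.Y45] using h.yy1c (i := 2) (j := 3) (l := 0) (m := 6) (n := 7) (o := 5) (p := 1) (q := 4) (by decide) 4 6 7
  have e2 : S.om (Y S v 4 5 0 2 3) (Y S v 2 5 4 6 7) = 0 := by
    simpa only [Y12, Y34, h.Y45] using h.yy1 5 4 2 0 3 4 6 7
  have e3 : S.om (Y S v 4 5 0 6 7) (Y S v 2 5 4 6 7) = 0 := by
    simpa only [Y12, Y34, h.Y45] using h.yy1c (i := 5) (j := 4) (l := 0) (m := 6) (n := 7) (o := 2) (p := 1) (q := 3) (by decide) 4 6 7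
  have e4 : S.om (Y S v 6 7 0 2 3) (Y S v 2 5 4 6 7) = 0 := by
    rw [h.om_compl_left (i := 6) (j := 7) (l := 0) (m := 2) (n := 3) (o := 1) (p := 4) (q := 5) (by decide), neg_eq_zero]
    rw [S.om_anti, neg_eq_zero]
    simpa only [Y12, Y34, h.Y45] using h.yyB (i := 5) (j := 2) (m := 6) (n := 7) (x := 4) (u := 1) (by decide)
  have e5 : S.om (Y S v 6 7 0 4 5) (Y S v 2 5 4 6 7) = 0 := by
    rw [S.om_anti, neg_eq_zero]
    simpa only [Y12, Y34, h.Y45] using h.yyB (i := 5) (j := 2) (m := 6) (n := 7) (x := 4) (u := 0) (by decide)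
  simp only [ysum, map_add, LinearMap.add_apply, e0, e1, e2, e3, e4, e5, add_zero, zero_add]

theorem ys_6 (h : IsCfg S v) : S.om (ysum S v) (Y S v 2 6 0 1 3) = 0 := by
  have e0 : S.om (Y S v 2 3 0 4 5) (Y S v 2 6 0 1 3) = 0 := by
    simpa only [Y12, Y34, h.Y45] using h.yy1c (i := 2) (j := 3) (l := 0) (m := 4) (n := 5) (o := 6) (p := 1) (q := 7) (by decide) 0 1 3
  have e1 : S.om (Y S v 2 3 0 6 7) (Y S v 2 6 0 1 3) = 0 := by
    simpa only [Y12, Y34, h.Y45] using h.yy1 2 3 6 0 7 0 1 3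
  have e2 : S.om (Y S v 4 5 0 2 3) (Y S v 2 6 0 1 3) = 0 := by
    rw [h.om_compl_left (i := 4) (j := 5) (l := 0) (m := 2) (n := 3) (o := 1) (p := 6) (q := 7) (by decide), neg_eq_zero]
    rw [h.om_compl_right (i := 2) (j := 6) (l := 0) (m := 1) (n := 3) (o := 4) (p := 5) (q := 7) (by decide), neg_eq_zero]
    rw [S.om_anti, neg_eq_zero]
    simpa only [Y12, Y34, h.Y45] using h.yyB (i := 6) (j := 2) (m := 4) (n := 5) (x := 7) (u := 1) (by decide)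
  have e3 : S.om (Y S v 4 5 0 6 7) (Y S v 2 6 0 1 3) = 0 := by
    rw [h.om_compl_right (i := 2) (j := 6) (l := 0) (m := 1) (n := 3) (o := 4) (p := 5) (q := 7) (by decide), neg_eq_zero]
    rw [S.om_anti, neg_eq_zero]
    simpa only [Y12, Y34, h.Y45] using h.yyB (i := 6) (j := 2) (m := 4) (n := 5) (x := 7) (u := 0) (by decide)
  have e4 : S.om (Y S v 6 7 0 2 3) (Y S v 2 6 0 1 3) = 0 := by
    simpa only [Y12, Y34, h.Y45] using h.yy1 6 7 2 0 3 0 1 3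
  have e5 : S.om (Y S v 6 7 0 4 5) (Y S v 2 6 0 1 3) = 0 := by
    simpa only [Y12, Y34, h.Y45] using h.yy1c (i := 6) (j := 7) (l := 0) (m := 4) (n := 5) (o := 2) (p := 1) (q := 3) (by decide) 0 1 3
  simp only [ysum, map_add, LinearMap.add_apply, e0, e1, e2, e3, e4, e5, add_zero, zero_add]

theorem ys_7 (h : IsCfg S v) : S.om (ysum S v) (Y S v 2 6 0 4 5) = 0 := by
  have e0 : S.om (Y S v 2 3 0 4 5) (Y S v 2 6 0 4 5) = 0 := by
    simpa only [Y12, Y34, h.Y45] using h.yy1c (i := 2) (j := 3) (l := 0) (m := 4) (n := 5) (o := 6) (p := 1) (q := 7) (by decide) 0 4 5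
  have e1 : S.om (Y S v 2 3 0 6 7) (Y S v 2 6 0 4 5) = 0 := by
    simpa only [Y12, Y34, h.Y45] using h.yy1 2 3 6 0 7 0 4 5
  have e2 : S.om (Y S v 4 5 0 2 3) (Y S v 2 6 0 4 5) = 0 := by
    rw [S.om_anti, neg_eq_zero]
    simpa only [Y12, Y34, h.Y45] using h.yyB (i := 2) (j := 6) (m := 4) (n := 5) (x := 0) (u := 3) (by decide)
  have e3 : S.om (Y S v 4 5 0 6 7) (Y S v 2 6 0 4 5) = 0 := by
    rw [S.om_anti, neg_eq_zero]
    simpa only [Y12, Y34, h.Y45] using h.yyB (i := 6) (j := 2) (m := 4) (n := 5) (x := 0) (u := 7) (by decide)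
  have e4 : S.om (Y S v 6 7 0 2 3) (Y S v 2 6 0 4 5) = 0 := by
    simpa only [Y12, Y34, h.Y45] using h.yy1 6 7 2 0 3 0 4 5
  have e5 : S.om (Y S v 6 7 0 4 5) (Y S v 2 6 0 4 5) = 0 := by
    simpa only [Y12, Y34, h.Y45] using h.yy1c (i := 6) (j := 7) (l := 0) (m := 4) (n := 5) (o := 2) (p := 1) (q := 3) (by decide) 0 4 5
  simp only [ysum, map_add, LinearMap.add_apply, e0, e1, e2, e3, e4, e5, add_zero, zero_add]

theorem ys_8 (h : IsCfg S v) : S.om (ysum S v) (Y S v 2 6 1 3 7) = 0 := by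
  have e0 : S.om (Y S v 2 3 0 4 5) (Y S v 2 6 1 3 7) = 0 := by
    simpa only [Y12, Y34, h.Y45] using h.yy1c (i := 2) (j := 3) (l := 0) (m := 4) (n := 5) (o := 6) (p := 1) (q := 7) (by decide) 1 3 7
  have e1 : S.om (Y S v 2 3 0 6 7) (Y S v 2 6 1 3 7) = 0 := by
    simpa only [Y12, Y34, h.Y45] using h.yy1 2 3 6 0 7 1 3 7
  have e2 : S.om (Y S v 4 5 0 2 3) (Y S v 2 6 1 3 7) = 0 := by
    rw [h.om_compl_right (i := 2) (j := 6) (l := 1) (m := 3) (n := 7) (o := 0) (p := 4) (q := 5) (by decide), neg_eq_zero]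
    rw [S.om_anti, neg_eq_zero]
    simpa only [Y12, Y34, h.Y45] using h.yyB (i := 2) (j := 6) (m := 4) (n := 5) (x := 0) (u := 3) (by decide)
  have e3 : S.om (Y S v 4 5 0 6 7) (Y S v 2 6 1 3 7) = 0 := by
    rw [h.om_compl_right (i := 2) (j := 6) (l := 1) (m := 3) (n := 7) (o := 0) (p := 4) (q := 5) (by decide), neg_eq_zero]
    rw [S.om_anti, neg_eq_zero]
    simpa only [Y12, Y34, h.Y45] using h.yyB (i := 6) (j := 2) (m := 4) (n := 5) (x := 0) (u := 7) (by decide)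
  have e4 : S.om (Y S v 6 7 0 2 3) (Y S v 2 6 1 3 7) = 0 := by
    simpa only [Y12, Y34, h.Y45] using h.yy1 6 7 2 0 3 1 3 7
  have e5 : S.om (Y S v 6 7 0 4 5) (Y S v 2 6 1 3 7) = 0 := by
    simpa only [Y12, Y34, h.Y45] using h.yy1c (i := 6) (j := 7) (l := 0) (m := 4) (n := 5) (o := 2) (p := 1) (q := 3) (by decide) 1 3 7
  simp only [ysum, map_add, LinearMap.add_apply, e0, e1, e2, e3, e4, e5, add_zero, zero_add]

theorem ys_9 (h : IsCfg S v) : S.om (ysum S v) (Y S v 2 6 3 4 5) = 0 := by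
  have e0 : S.om (Y S v 2 3 0 4 5) (Y S v 2 6 3 4 5) = 0 := by
    simpa only [Y12, Y34, h.Y45] using h.yy1c (i := 2) (j := 3) (l := 0) (m := 4) (n := 5) (o := 6) (p := 1) (q := 7) (by decide) 3 4 5
  have e1 : S.om (Y S v 2 3 0 6 7) (Y S v 2 6 3 4 5) = 0 := by
    simpa only [Y12, Y34, h.Y45] using h.yy1 2 3 6 0 7 3 4 5
  have e2 : S.om (Y S v 4 5 0 2 3) (Y S v 2 6 3 4 5) = 0 := by
    rw [S.om_anti, neg_eq_zero]
    simpa only [Y12, Y34, h.Y45] using h.yyB (i := 2) (j := 6) (m := 4) (n := 5) (x := 3) (u := 0) (by decide)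
  have e3 : S.om (Y S v 4 5 0 6 7) (Y S v 2 6 3 4 5) = 0 := by
    rw [h.om_compl_left (i := 4) (j := 5) (l := 0) (m := 6) (n := 7) (o := 1) (p := 2) (q := 3) (by decide), neg_eq_zero]
    rw [S.om_anti, neg_eq_zero]
    simpa only [Y12, Y34, h.Y45] using h.yyB (i := 2) (j := 6) (m := 4) (n := 5) (x := 3) (u := 1) (by decide)
  have e4 : S.om (Y S v 6 7 0 2 3) (Y S v 2 6 3 4 5) = 0 := by
    simpa only [Y12, Y34, h.Y45] using h.yy1 6 7 2 0 3 3 4 5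
  have e5 : S.om (Y S v 6 7 0 4 5) (Y S v 2 6 3 4 5) = 0 := by
    simpa only [Y12, Y34, h.Y45] using h.yy1c (i := 6) (j := 7) (l := 0) (m := 4) (n := 5) (o := 2) (p := 1) (q := 3) (by decide) 3 4 5
  simp only [ysum, map_add, LinearMap.add_apply, e0, e1, e2, e3, e4, e5, add_zero, zero_add]

theorem ys_10 (h : IsCfg S v) : S.om (ysum S v) (Y S v 2 7 0 4 5) = 0 := by
  have e0 : S.om (Y S v 2 3 0 4 5) (Y S v 2 7 0 4 5) = 0 := by
    simpa only [Y12, Y34, h.Y45] using h.yy1c (i := 2) (j := 3) (l := 0) (m := 4) (n := 5) (o := 7) (p := 1) (q := 6) (by decide) 0 4 5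
  have e1 : S.om (Y S v 2 3 0 6 7) (Y S v 2 7 0 4 5) = 0 := by
    simpa only [Y12, Y34, h.Y45] using h.yy1 2 3 7 0 6 0 4 5
  have e2 : S.om (Y S v 4 5 0 2 3) (Y S v 2 7 0 4 5) = 0 := by
    rw [S.om_anti, neg_eq_zero]
    simpa only [Y12, Y34, h.Y45] using h.yyB (i := 2) (j := 7) (m := 4) (n := 5) (x := 0) (u := 3) (by decide)
  have e3 : S.om (Y S v 4 5 0 6 7) (Y S v 2 7 0 4 5) = 0 := by
    rw [S.om_anti, neg_eq_zero]
    simpa only [Y12, Y34, h.Y45] using h.yyB (i := 7) (j := 2) (m := 4) (n := 5) (x := 0) (u := 6) (by decide)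
  have e4 : S.om (Y S v 6 7 0 2 3) (Y S v 2 7 0 4 5) = 0 := by
    simpa only [Y12, Y34, h.Y45] using h.yy1 7 6 2 0 3 0 4 5
  have e5 : S.om (Y S v 6 7 0 4 5) (Y S v 2 7 0 4 5) = 0 := by
    simpa only [Y12, Y34, h.Y45] using h.yy1c (i := 7) (j := 6) (l := 0) (m := 4) (n := 5) (o := 2) (p := 1) (q := 3) (by decide) 0 4 5
  simp only [ysum, map_add, LinearMap.add_apply, e0, e1, e2, e3, e4, e5, add_zero, zero_add]

theorem ys_11 (h : IsCfg S v) : S.om (ysum S v) (Y S v 2 7 1 4 5) = 0 := by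
  have e0 : S.om (Y S v 2 3 0 4 5) (Y S v 2 7 1 4 5) = 0 := by
    simpa only [Y12, Y34, h.Y45] using h.yy1c (i := 2) (j := 3) (l := 0) (m := 4) (n := 5) (o := 7) (p := 1) (q := 6) (by decide) 1 4 5
  have e1 : S.om (Y S v 2 3 0 6 7) (Y S v 2 7 1 4 5) = 0 := by
    simpa only [Y12, Y34, h.Y45] using h.yy1 2 3 7 0 6 1 4 5
  have e2 : S.om (Y S v 4 5 0 2 3) (Y S v 2 7 1 4 5) = 0 := by
    rw [h.om_compl_left (i := 4) (j := 5) (l := 0) (m := 2) (n := 3) (o := 1) (p := 6) (q := 7) (by decide), neg_eq_zero]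
    rw [S.om_anti, neg_eq_zero]
    simpa only [Y12, Y34, h.Y45] using h.yyB (i := 7) (j := 2) (m := 4) (n := 5) (x := 1) (u := 6) (by decide)
  have e3 : S.om (Y S v 4 5 0 6 7) (Y S v 2 7 1 4 5) = 0 := by
    rw [h.om_compl_left (i := 4) (j := 5) (l := 0) (m := 6) (n := 7) (o := 1) (p := 2) (q := 3) (by decide), neg_eq_zero]
    rw [S.om_anti, neg_eq_zero]
    simpa only [Y12, Y34, h.Y45] using h.yyB (i := 2) (j := 7) (m := 4) (n := 5) (x := 1) (u := 3) (by decide)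
  have e4 : S.om (Y S v 6 7 0 2 3) (Y S v 2 7 1 4 5) = 0 := by
    simpa only [Y12, Y34, h.Y45] using h.yy1 7 6 2 0 3 1 4 5
  have e5 : S.om (Y S v 6 7 0 4 5) (Y S v 2 7 1 4 5) = 0 := by
    simpa only [Y12, Y34, h.Y45] using h.yy1c (i := 7) (j := 6) (l := 0) (m := 4) (n := 5) (o := 2) (p := 1) (q := 3) (by decide) 1 4 5
  simp only [ysum, map_add, LinearMap.add_apply, e0, e1, e2, e3, e4, e5, add_zero, zero_add]

theorem ys_12 (h : IsCfg S v) : S.om (ysum S v) (Y S v 3 4 0 6 7) = 0 := by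
  have e0 : S.om (Y S v 2 3 0 4 5) (Y S v 3 4 0 6 7) = 0 := by
    simpa only [Y12, Y34, h.Y45] using h.yy1 3 2 4 0 5 0 6 7
  have e1 : S.om (Y S v 2 3 0 6 7) (Y S v 3 4 0 6 7) = 0 := by
    simpa only [Y12, Y34, h.Y45] using h.yy1c (i := 3) (j := 2) (l := 0) (m := 6) (n := 7) (o := 4) (p := 1) (q := 5) (by decide) 0 6 7
  have e2 : S.om (Y S v 4 5 0 2 3) (Y S v 3 4 0 6 7) = 0 := by
    simpa only [Y12, Y34, h.Y45] using h.yy1 4 5 3 0 2 0 6 7
  have e3 : S.om (Y S v 4 5 0 6 7) (Y S v 3 4 0 6 7) = 0 := by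
    simpa only [Y12, Y34, h.Y45] using h.yy1c (i := 4) (j := 5) (l := 0) (m := 6) (n := 7) (o := 3) (p := 1) (q := 2) (by decide) 0 6 7
  have e4 : S.om (Y S v 6 7 0 2 3) (Y S v 3 4 0 6 7) = 0 := by
    rw [S.om_anti, neg_eq_zero]
    simpa only [Y12, Y34, h.Y45] using h.yyB (i := 3) (j := 4) (m := 6) (n := 7) (x := 0) (u := 2) (by decide)
  have e5 : S.om (Y S v 6 7 0 4 5) (Y S v 3 4 0 6 7) = 0 := by
    rw [S.om_anti, neg_eq_zero]
    simpa only [Y12, Y34, h.Y45] using h.yyB (i := 4) (j := 3) (m := 6) (n := 7) (x := 0) (u := 5) (by decide)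
  simp only [ysum, map_add, LinearMap.add_apply, e0, e1, e2, e3, e4, e5, add_zero, zero_add]

theorem ys_13 (h : IsCfg S v) : S.om (ysum S v) (Y S v 3 5 0 1 4) = 0 := by
  have e0 : S.om (Y S v 2 3 0 4 5) (Y S v 3 5 0 1 4) = 0 := by
    simpa only [Y12, Y34, h.Y45] using h.yy1 3 2 5 0 4 0 1 4
  have e1 : S.om (Y S v 2 3 0 6 7) (Y S v 3 5 0 1 4) = 0 := by
    simpa only [Y12, Y34, h.Y45] using h.yy1c (i := 3) (j := 2) (l := 0) (m := 6) (n := 7) (o := 5) (p := 1) (q := 4) (by decide) 0 1 4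
  have e2 : S.om (Y S v 4 5 0 2 3) (Y S v 3 5 0 1 4) = 0 := by
    simpa only [Y12, Y34, h.Y45] using h.yy1 5 4 3 0 2 0 1 4
  have e3 : S.om (Y S v 4 5 0 6 7) (Y S v 3 5 0 1 4) = 0 := by
    simpa only [Y12, Y34, h.Y45] using h.yy1c (i := 5) (j := 4) (l := 0) (m := 6) (n := 7) (o := 3) (p := 1) (q := 2) (by decide) 0 1 4
  have e4 : S.om (Y S v 6 7 0 2 3) (Y S v 3 5 0 1 4) = 0 := by
    rw [h.om_compl_right (i := 3) (j := 5) (l := 0) (m := 1) (n := 4) (o := 2) (p := 6) (q := 7) (by decide), neg_eq_zero]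
    rw [S.om_anti, neg_eq_zero]
    simpa only [Y12, Y34, h.Y45] using h.yyB (i := 3) (j := 5) (m := 6) (n := 7) (x := 2) (u := 0) (by decide)
  have e5 : S.om (Y S v 6 7 0 4 5) (Y S v 3 5 0 1 4) = 0 := by
    rw [h.om_compl_left (i := 6) (j := 7) (l := 0) (m := 4) (n := 5) (o := 1) (p := 2) (q := 3) (by decide), neg_eq_zero]
    rw [h.om_compl_right (i := 3) (j := 5) (l := 0) (m := 1) (n := 4) (o := 2) (p := 6) (q := 7) (by decide), neg_eq_zero]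
    rw [S.om_anti, neg_eq_zero]
    simpa only [Y12, Y34, h.Y45] using h.yyB (i := 3) (j := 5) (m := 6) (n := 7) (x := 2) (u := 1) (by decide)
  simp only [ysum, map_add, LinearMap.add_apply, e0, e1, e2, e3, e4, e5, add_zero, zero_add]

theorem ys_14 (h : IsCfg S v) : S.om (ysum S v) (Y S v 3 5 1 6 7) = 0 := by
  have e0 : S.om (Y S v 2 3 0 4 5) (Y S v 3 5 1 6 7) = 0 := by
    simpa only [Y12, Y34, h.Y45] using h.yy1 3 2 5 0 4 1 6 7
  have e1 : S.om (Y S v 2 3 0 6 7) (Y S v 3 5 1 6 7) = 0 := by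
    simpa only [Y12, Y34, h.Y45] using h.yy1c (i := 3) (j := 2) (l := 0) (m := 6) (n := 7) (o := 5) (p := 1) (q := 4) (by decide) 1 6 7
  have e2 : S.om (Y S v 4 5 0 2 3) (Y S v 3 5 1 6 7) = 0 := by
    simpa only [Y12, Y34, h.Y45] using h.yy1 5 4 3 0 2 1 6 7
  have e3 : S.om (Y S v 4 5 0 6 7) (Y S v 3 5 1 6 7) = 0 := by
    simpa only [Y12, Y34, h.Y45] using h.yy1c (i := 5) (j := 4) (l := 0) (m := 6) (n := 7) (o := 3) (p := 1) (q := 2) (by decide) 1 6 7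
  have e4 : S.om (Y S v 6 7 0 2 3) (Y S v 3 5 1 6 7) = 0 := by
    rw [h.om_compl_left (i := 6) (j := 7) (l := 0) (m := 2) (n := 3) (o := 1) (p := 4) (q := 5) (by decide), neg_eq_zero]
    rw [S.om_anti, neg_eq_zero]
    simpa only [Y12, Y34, h.Y45] using h.yyB (i := 5) (j := 3) (m := 6) (n := 7) (x := 1) (u := 4) (by decide)
  have e5 : S.om (Y S v 6 7 0 4 5) (Y S v 3 5 1 6 7) = 0 := by
    rw [h.om_compl_left (i := 6) (j := 7) (l := 0) (m := 4) (n := 5) (o := 1) (p := 2) (q := 3) (by decide), neg_eq_zero]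
    rw [S.om_anti, neg_eq_zero]
    simpa only [Y12, Y34, h.Y45] using h.yyB (i := 3) (j := 5) (m := 6) (n := 7) (x := 1) (u := 2) (by decide)
  simp only [ysum, map_add, LinearMap.add_apply, e0, e1, e2, e3, e4, e5, add_zero, zero_add]

theorem ys_15 (h : IsCfg S v) : S.om (ysum S v) (Y S v 3 5 4 6 7) = 0 := by
  have e0 : S.om (Y S v 2 3 0 4 5) (Y S v 3 5 4 6 7) = 0 := by
    simpa only [Y12, Y34, h.Y45] using h.yy1 3 2 5 0 4 4 6 7
  have e1 : S.om (Y S v 2 3 0 6 7) (Y S v 3 5 4 6 7) = 0 := by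
    simpa only [Y12, Y34, h.Y45] using h.yy1c (i := 3) (j := 2) (l := 0) (m := 6) (n := 7) (o := 5) (p := 1) (q := 4) (by decide) 4 6 7
  have e2 : S.om (Y S v 4 5 0 2 3) (Y S v 3 5 4 6 7) = 0 := by
    simpa only [Y12, Y34, h.Y45] using h.yy1 5 4 3 0 2 4 6 7
  have e3 : S.om (Y S v 4 5 0 6 7) (Y S v 3 5 4 6 7) = 0 := by
    simpa only [Y12, Y34, h.Y45] using h.yy1c (i := 5) (j := 4) (l := 0) (m := 6) (n := 7) (o := 3) (p := 1) (q := 2) (by decide) 4 6 7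
  have e4 : S.om (Y S v 6 7 0 2 3) (Y S v 3 5 4 6 7) = 0 := by
    rw [h.om_compl_left (i := 6) (j := 7) (l := 0) (m := 2) (n := 3) (o := 1) (p := 4) (q := 5) (by decide), neg_eq_zero]
    rw [S.om_anti, neg_eq_zero]
    simpa only [Y12, Y34, h.Y45] using h.yyB (i := 5) (j := 3) (m := 6) (n := 7) (x := 4) (u := 1) (by decide)
  have e5 : S.om (Y S v 6 7 0 4 5) (Y S v 3 5 4 6 7) = 0 := by
    rw [S.om_anti, neg_eq_zero]
    simpa only [Y12, Y34, h.Y45] using h.yyB (i := 5) (j := 3) (m := 6) (n := 7) (x := 4) (u := 0) (by decide)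
  simp only [ysum, map_add, LinearMap.add_apply, e0, e1, e2, e3, e4, e5, add_zero, zero_add]

theorem ys_16 (h : IsCfg S v) : S.om (ysum S v) (Y S v 3 6 0 4 5) = 0 := by
  have e0 : S.om (Y S v 2 3 0 4 5) (Y S v 3 6 0 4 5) = 0 := by
    simpa only [Y12, Y34, h.Y45] using h.yy1c (i := 3) (j := 2) (l := 0) (m := 4) (n := 5) (o := 6) (p := 1) (q := 7) (by decide) 0 4 5
  have e1 : S.om (Y S v 2 3 0 6 7) (Y S v 3 6 0 4 5) = 0 := by
    simpa only [Y12, Y34, h.Y45] using h.yy1 3 2 6 0 7 0 4 5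
  have e2 : S.om (Y S v 4 5 0 2 3) (Y S v 3 6 0 4 5) = 0 := by
    rw [S.om_anti, neg_eq_zero]
    simpa only [Y12, Y34, h.Y45] using h.yyB (i := 3) (j := 6) (m := 4) (n := 5) (x := 0) (u := 2) (by decide)
  have e3 : S.om (Y S v 4 5 0 6 7) (Y S v 3 6 0 4 5) = 0 := by
    rw [S.om_anti, neg_eq_zero]
    simpa only [Y12, Y34, h.Y45] using h.yyB (i := 6) (j := 3) (m := 4) (n := 5) (x := 0) (u := 7) (by decide)
  have e4 : S.om (Y S v 6 7 0 2 3) (Y S v 3 6 0 4 5) = 0 := by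
    simpa only [Y12, Y34, h.Y45] using h.yy1 6 7 3 0 2 0 4 5
  have e5 : S.om (Y S v 6 7 0 4 5) (Y S v 3 6 0 4 5) = 0 := by
    simpa only [Y12, Y34, h.Y45] using h.yy1c (i := 6) (j := 7) (l := 0) (m := 4) (n := 5) (o := 3) (p := 1) (q := 2) (by decide) 0 4 5
  simp only [ysum, map_add, LinearMap.add_apply, e0, e1, e2, e3, e4, e5, add_zero, zero_add]

theorem ys_17 (h : IsCfg S v) : S.om (ysum S v) (Y S v 3 7 0 1 2) = 0 := by
  have e0 : S.om (Y S v 2 3 0 4 5) (Y S v 3 7 0 1 2) = 0 := by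
    simpa only [Y12, Y34, h.Y45] using h.yy1c (i := 3) (j := 2) (l := 0) (m := 4) (n := 5) (o := 7) (p := 1) (q := 6) (by decide) 0 1 2
  have e1 : S.om (Y S v 2 3 0 6 7) (Y S v 3 7 0 1 2) = 0 := by
    simpa only [Y12, Y34, h.Y45] using h.yy1 3 2 7 0 6 0 1 2
  have e2 : S.om (Y S v 4 5 0 2 3) (Y S v 3 7 0 1 2) = 0 := by
    rw [h.om_compl_left (i := 4) (j := 5) (l := 0) (m := 2) (n := 3) (o := 1) (p := 6) (q := 7) (by decide), neg_eq_zero]
    rw [h.om_compl_right (i := 3) (j := 7) (l := 0) (m := 1) (n := 2) (o := 4) (p := 5) (q := 6) (by decide), neg_eq_zero]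
    rw [S.om_anti, neg_eq_zero]
    simpa only [Y12, Y34, h.Y45] using h.yyB (i := 7) (j := 3) (m := 4) (n := 5) (x := 6) (u := 1) (by decide)
  have e3 : S.om (Y S v 4 5 0 6 7) (Y S v 3 7 0 1 2) = 0 := by
    rw [h.om_compl_right (i := 3) (j := 7) (l := 0) (m := 1) (n := 2) (o := 4) (p := 5) (q := 6) (by decide), neg_eq_zero]
    rw [S.om_anti, neg_eq_zero]
    simpa only [Y12, Y34, h.Y45] using h.yyB (i := 7) (j := 3) (m := 4) (n := 5) (x := 6) (u := 0) (by decide)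
  have e4 : S.om (Y S v 6 7 0 2 3) (Y S v 3 7 0 1 2) = 0 := by
    simpa only [Y12, Y34, h.Y45] using h.yy1 7 6 3 0 2 0 1 2
  have e5 : S.om (Y S v 6 7 0 4 5) (Y S v 3 7 0 1 2) = 0 := by
    simpa only [Y12, Y34, h.Y45] using h.yy1c (i := 7) (j := 6) (l := 0) (m := 4) (n := 5) (o := 3) (p := 1) (q := 2) (by decide) 0 1 2
  simp only [ysum, map_add, LinearMap.add_apply, e0, e1, e2, e3, e4, e5, add_zero, zero_add]

theorem ys_18 (h : IsCfg S v) : S.om (ysum S v) (Y S v 3 7 0 1 6) = 0 := by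
  have e0 : S.om (Y S v 2 3 0 4 5) (Y S v 3 7 0 1 6) = 0 := by
    simpa only [Y12, Y34, h.Y45] using h.yy1c (i := 3) (j := 2) (l := 0) (m := 4) (n := 5) (o := 7) (p := 1) (q := 6) (by decide) 0 1 6
  have e1 : S.om (Y S v 2 3 0 6 7) (Y S v 3 7 0 1 6) = 0 := by
    simpa only [Y12, Y34, h.Y45] using h.yy1 3 2 7 0 6 0 1 6
  have e2 : S.om (Y S v 4 5 0 2 3) (Y S v 3 7 0 1 6) = 0 := by
    rw [h.om_compl_right (i := 3) (j := 7) (l := 0) (m := 1) (n := 6) (o := 2) (p := 4) (q := 5) (by decide), neg_eq_zero]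
    rw [S.om_anti, neg_eq_zero]
    simpa only [Y12, Y34, h.Y45] using h.yyB (i := 3) (j := 7) (m := 4) (n := 5) (x := 2) (u := 0) (by decide)
  have e3 : S.om (Y S v 4 5 0 6 7) (Y S v 3 7 0 1 6) = 0 := by
    rw [h.om_compl_left (i := 4) (j := 5) (l := 0) (m := 6) (n := 7) (o := 1) (p := 2) (q := 3) (by decide), neg_eq_zero]
    rw [h.om_compl_right (i := 3) (j := 7) (l := 0) (m := 1) (n := 6) (o := 2) (p := 4) (q := 5) (by decide), neg_eq_zero]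
    rw [S.om_anti, neg_eq_zero]
    simpa only [Y12, Y34, h.Y45] using h.yyB (i := 3) (j := 7) (m := 4) (n := 5) (x := 2) (u := 1) (by decide)
  have e4 : S.om (Y S v 6 7 0 2 3) (Y S v 3 7 0 1 6) = 0 := by
    simpa only [Y12, Y34, h.Y45] using h.yy1 7 6 3 0 2 0 1 6
  have e5 : S.om (Y S v 6 7 0 4 5) (Y S v 3 7 0 1 6) = 0 := by
    simpa only [Y12, Y34, h.Y45] using h.yy1c (i := 7) (j := 6) (l := 0) (m := 4) (n := 5) (o := 3) (p := 1) (q := 2) (by decide) 0 1 6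
  simp only [ysum, map_add, LinearMap.add_apply, e0, e1, e2, e3, e4, e5, add_zero, zero_add]

theorem ys_19 (h : IsCfg S v) : S.om (ysum S v) (Y S v 3 7 0 2 4) = - FF S v := by
  have e0 : S.om (Y S v 2 3 0 4 5) (Y S v 3 7 0 2 4) = 0 := by
    simpa only [Y12, Y34, h.Y45] using h.yy1c (i := 3) (j := 2) (l := 0) (m := 4) (n := 5) (o := 7) (p := 1) (q := 6) (by decide) 0 2 4
  have e1 : S.om (Y S v 2 3 0 6 7) (Y S v 3 7 0 2 4) = 0 := by
    simpa only [Y12, Y34, h.Y45] using h.yy1 3 2 7 0 6 0 2 4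
  have e2 : S.om (Y S v 4 5 0 2 3) (Y S v 3 7 0 2 4) = 0 := by
    simpa only [Y12, Y34, h.Y45] using h.yyC (i := 4) (j := 5) (m := 3) (n := 7) (x := 0) (z := 2) (by decide)
  have e3 : S.om (Y S v 4 5 0 6 7) (Y S v 3 7 0 2 4) = - FF S v := by
    have e := h.FF_comp (⟨![4, 5, 7, 3, 0, 6, 2, 1], ![4, 7, 6, 3, 0, 1, 5, 2], by decide, by decide⟩)
    rw [show Perm.sign (⟨![4, 5, 7, 3, 0, 6, 2, 1], ![4, 7, 6, 3, 0, 1, 5, 2], by decide, by decide⟩ : Perm (Fin 8)) = -1 from by decide] at e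
    change S.om (Y S v 4 5 7 0 6) (Y S v 7 3 4 0 2) = _ at e
    simp only [Y12, Y34, h.Y45] at e ⊢
    rw [e]; simp
  have e4 : S.om (Y S v 6 7 0 2 3) (Y S v 3 7 0 2 4) = 0 := by
    simpa only [Y12, Y34, h.Y45] using h.yy1 7 6 3 0 2 0 2 4
  have e5 : S.om (Y S v 6 7 0 4 5) (Y S v 3 7 0 2 4) = 0 := by
    simpa only [Y12, Y34, h.Y45] using h.yy1c (i := 7) (j := 6) (l := 0) (m := 4) (n := 5) (o := 3) (p := 1) (q := 2) (by decide) 0 2 4
  simp only [ysum, map_add, LinearMap.add_apply, e0, e1, e2, e3, e4, e5, add_zero, zero_add]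

theorem ys_20 (h : IsCfg S v) : S.om (ysum S v) (Y S v 3 7 0 4 5) = 0 := by
  have e0 : S.om (Y S v 2 3 0 4 5) (Y S v 3 7 0 4 5) = 0 := by
    simpa only [Y12, Y34, h.Y45] using h.yy1c (i := 3) (j := 2) (l := 0) (m := 4) (n := 5) (o := 7) (p := 1) (q := 6) (by decide) 0 4 5
  have e1 : S.om (Y S v 2 3 0 6 7) (Y S v 3 7 0 4 5) = 0 := by
    simpa only [Y12, Y34, h.Y45] using h.yy1 3 2 7 0 6 0 4 5
  have e2 : S.om (Y S v 4 5 0 2 3) (Y S v 3 7 0 4 5) = 0 := by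
    rw [S.om_anti, neg_eq_zero]
    simpa only [Y12, Y34, h.Y45] using h.yyB (i := 3) (j := 7) (m := 4) (n := 5) (x := 0) (u := 2) (by decide)
  have e3 : S.om (Y S v 4 5 0 6 7) (Y S v 3 7 0 4 5) = 0 := by
    rw [S.om_anti, neg_eq_zero]
    simpa only [Y12, Y34, h.Y45] using h.yyB (i := 7) (j := 3) (m := 4) (n := 5) (x := 0) (u := 6) (by decide)
  have e4 : S.om (Y S v 6 7 0 2 3) (Y S v 3 7 0 4 5) = 0 := by
    simpa only [Y12, Y34, h.Y45] using h.yy1 7 6 3 0 2 0 4 5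
  have e5 : S.om (Y S v 6 7 0 4 5) (Y S v 3 7 0 4 5) = 0 := by
    simpa only [Y12, Y34, h.Y45] using h.yy1c (i := 7) (j := 6) (l := 0) (m := 4) (n := 5) (o := 3) (p := 1) (q := 2) (by decide) 0 4 5
  simp only [ysum, map_add, LinearMap.add_apply, e0, e1, e2, e3, e4, e5, add_zero, zero_add]

theorem ys_21 (h : IsCfg S v) : S.om (ysum S v) (Y S v 4 6 0 1 5) = 0 := by
  have e0 : S.om (Y S v 2 3 0 4 5) (Y S v 4 6 0 1 5) = 0 := by
    rw [h.om_compl_left (i := 2) (j := 3) (l := 0) (m := 4) (n := 5) (o := 1) (p := 6) (q := 7) (by decide), neg_eq_zero]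
    rw [h.om_compl_right (i := 4) (j := 6) (l := 0) (m := 1) (n := 5) (o := 2) (p := 3) (q := 7) (by decide), neg_eq_zero]
    rw [S.om_anti, neg_eq_zero]
    simpa only [Y12, Y34, h.Y45] using h.yyB (i := 6) (j := 4) (m := 2) (n := 3) (x := 7) (u := 1) (by decide)
  have e1 : S.om (Y S v 2 3 0 6 7) (Y S v 4 6 0 1 5) = 0 := by
    rw [h.om_compl_right (i := 4) (j := 6) (l := 0) (m := 1) (n := 5) (o := 2) (p := 3) (q := 7) (by decide), neg_eq_zero]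
    rw [S.om_anti, neg_eq_zero]
    simpa only [Y12, Y34, h.Y45] using h.yyB (i := 6) (j := 4) (m := 2) (n := 3) (x := 7) (u := 0) (by decide)
  have e2 : S.om (Y S v 4 5 0 2 3) (Y S v 4 6 0 1 5) = 0 := by
    simpa only [Y12, Y34, h.Y45] using h.yy1c (i := 4) (j := 5) (l := 0) (m := 2) (n := 3) (o := 6) (p := 1) (q := 7) (by decide) 0 1 5
  have e3 : S.om (Y S v 4 5 0 6 7) (Y S v 4 6 0 1 5) = 0 := by
    simpa only [Y12, Y34, h.Y45] using h.yy1 4 5 6 0 7 0 1 5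
  have e4 : S.om (Y S v 6 7 0 2 3) (Y S v 4 6 0 1 5) = 0 := by
    simpa only [Y12, Y34, h.Y45] using h.yy1c (i := 6) (j := 7) (l := 0) (m := 2) (n := 3) (o := 4) (p := 1) (q := 5) (by decide) 0 1 5
  have e5 : S.om (Y S v 6 7 0 4 5) (Y S v 4 6 0 1 5) = 0 := by
    simpa only [Y12, Y34, h.Y45] using h.yy1 6 7 4 0 5 0 1 5
  simp only [ysum, map_add, LinearMap.add_apply, e0, e1, e2, e3, e4, e5, add_zero, zero_add]

theorem ys_22 (h : IsCfg S v) : S.om (ysum S v) (Y S v 5 6 0 2 3) = 0 := by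
  have e0 : S.om (Y S v 2 3 0 4 5) (Y S v 5 6 0 2 3) = 0 := by
    rw [S.om_anti, neg_eq_zero]
    simpa only [Y12, Y34, h.Y45] using h.yyB (i := 5) (j := 6) (m := 2) (n := 3) (x := 0) (u := 4) (by decide)
  have e1 : S.om (Y S v 2 3 0 6 7) (Y S v 5 6 0 2 3) = 0 := by
    rw [S.om_anti, neg_eq_zero]
    simpa only [Y12, Y34, h.Y45] using h.yyB (i := 6) (j := 5) (m := 2) (n := 3) (x := 0) (u := 7) (by decide)
  have e2 : S.om (Y S v 4 5 0 2 3) (Y S v 5 6 0 2 3) = 0 := by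
    simpa only [Y12, Y34, h.Y45] using h.yy1c (i := 5) (j := 4) (l := 0) (m := 2) (n := 3) (o := 6) (p := 1) (q := 7) (by decide) 0 2 3
  have e3 : S.om (Y S v 4 5 0 6 7) (Y S v 5 6 0 2 3) = 0 := by
    simpa only [Y12, Y34, h.Y45] using h.yy1 5 4 6 0 7 0 2 3
  have e4 : S.om (Y S v 6 7 0 2 3) (Y S v 5 6 0 2 3) = 0 := by
    simpa only [Y12, Y34, h.Y45] using h.yy1c (i := 6) (j := 7) (l := 0) (m := 2) (n := 3) (o := 5) (p := 1) (q := 4) (by decide) 0 2 3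
  have e5 : S.om (Y S v 6 7 0 4 5) (Y S v 5 6 0 2 3) = 0 := by
    simpa only [Y12, Y34, h.Y45] using h.yy1 6 7 5 0 4 0 2 3
  simp only [ysum, map_add, LinearMap.add_apply, e0, e1, e2, e3, e4, e5, add_zero, zero_add]

theorem ys_23 (h : IsCfg S v) : S.om (ysum S v) (Y S v 5 6 1 4 7) = 0 := by
  have e0 : S.om (Y S v 2 3 0 4 5) (Y S v 5 6 1 4 7) = 0 := by
    rw [h.om_compl_right (i := 5) (j := 6) (l := 1) (m := 4) (n := 7) (o := 0) (p := 2) (q := 3) (by decide), neg_eq_zero]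
    rw [S.om_anti, neg_eq_zero]
    simpa only [Y12, Y34, h.Y45] using h.yyB (i := 5) (j := 6) (m := 2) (n := 3) (x := 0) (u := 4) (by decide)
  have e1 : S.om (Y S v 2 3 0 6 7) (Y S v 5 6 1 4 7) = 0 := by
    rw [h.om_compl_right (i := 5) (j := 6) (l := 1) (m := 4) (n := 7) (o := 0) (p := 2) (q := 3) (by decide), neg_eq_zero]
    rw [S.om_anti, neg_eq_zero]
    simpa only [Y12, Y34, h.Y45] using h.yyB (i := 6) (j := 5) (m := 2) (n := 3) (x := 0) (u := 7) (by decide)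
  have e2 : S.om (Y S v 4 5 0 2 3) (Y S v 5 6 1 4 7) = 0 := by
    simpa only [Y12, Y34, h.Y45] using h.yy1c (i := 5) (j := 4) (l := 0) (m := 2) (n := 3) (o := 6) (p := 1) (q := 7) (by decide) 1 4 7
  have e3 : S.om (Y S v 4 5 0 6 7) (Y S v 5 6 1 4 7) = 0 := by
    simpa only [Y12, Y34, h.Y45] using h.yy1 5 4 6 0 7 1 4 7
  have e4 : S.om (Y S v 6 7 0 2 3) (Y S v 5 6 1 4 7) = 0 := by
    simpa only [Y12, Y34, h.Y45] using h.yy1c (i := 6) (j := 7) (l := 0) (m := 2) (n := 3) (o := 5) (p := 1) (q := 4) (by decide) 1 4 7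
  have e5 : S.om (Y S v 6 7 0 4 5) (Y S v 5 6 1 4 7) = 0 := by
    simpa only [Y12, Y34, h.Y45] using h.yy1 6 7 5 0 4 1 4 7
  simp only [ysum, map_add, LinearMap.add_apply, e0, e1, e2, e3, e4, e5, add_zero, zero_add]

theorem ys_24 (h : IsCfg S v) : S.om (ysum S v) (Y S v 5 7 0 1 4) = 0 := by
  have e0 : S.om (Y S v 2 3 0 4 5) (Y S v 5 7 0 1 4) = 0 := by
    rw [h.om_compl_left (i := 2) (j := 3) (l := 0) (m := 4) (n := 5) (o := 1) (p := 6) (q := 7) (by decide), neg_eq_zero]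
    rw [h.om_compl_right (i := 5) (j := 7) (l := 0) (m := 1) (n := 4) (o := 2) (p := 3) (q := 6) (by decide), neg_eq_zero]
    rw [S.om_anti, neg_eq_zero]
    simpa only [Y12, Y34, h.Y45] using h.yyB (i := 7) (j := 5) (m := 2) (n := 3) (x := 6) (u := 1) (by decide)
  have e1 : S.om (Y S v 2 3 0 6 7) (Y S v 5 7 0 1 4) = 0 := by
    rw [h.om_compl_right (i := 5) (j := 7) (l := 0) (m := 1) (n := 4) (o := 2) (p := 3) (q := 6) (by decide), neg_eq_zero]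
    rw [S.om_anti, neg_eq_zero]
    simpa only [Y12, Y34, h.Y45] using h.yyB (i := 7) (j := 5) (m := 2) (n := 3) (x := 6) (u := 0) (by decide)
  have e2 : S.om (Y S v 4 5 0 2 3) (Y S v 5 7 0 1 4) = 0 := by
    simpa only [Y12, Y34, h.Y45] using h.yy1c (i := 5) (j := 4) (l := 0) (m := 2) (n := 3) (o := 7) (p := 1) (q := 6) (by decide) 0 1 4
  have e3 : S.om (Y S v 4 5 0 6 7) (Y S v 5 7 0 1 4) = 0 := by
    simpa only [Y12, Y34, h.Y45] using h.yy1 5 4 7 0 6 0 1 4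
  have e4 : S.om (Y S v 6 7 0 2 3) (Y S v 5 7 0 1 4) = 0 := by
    simpa only [Y12, Y34, h.Y45] using h.yy1c (i := 7) (j := 6) (l := 0) (m := 2) (n := 3) (o := 5) (p := 1) (q := 4) (by decide) 0 1 4
  have e5 : S.om (Y S v 6 7 0 4 5) (Y S v 5 7 0 1 4) = 0 := by
    simpa only [Y12, Y34, h.Y45] using h.yy1 7 6 5 0 4 0 1 4
  simp only [ysum, map_add, LinearMap.add_apply, e0, e1, e2, e3, e4, e5, add_zero, zero_add]

theorem ys_25 (h : IsCfg S v) : S.om (ysum S v) (Y S v 5 7 0 4 6) = 0 := by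
  have e0 : S.om (Y S v 2 3 0 4 5) (Y S v 5 7 0 4 6) = 0 := by
    rw [h.om_compl_left (i := 2) (j := 3) (l := 0) (m := 4) (n := 5) (o := 1) (p := 6) (q := 7) (by decide), neg_eq_zero]
    rw [h.om_compl_right (i := 5) (j := 7) (l := 0) (m := 4) (n := 6) (o := 1) (p := 2) (q := 3) (by decide), neg_eq_zero]
    rw [S.om_anti, neg_eq_zero]
    simpa only [Y12, Y34, h.Y45] using h.yyB (i := 7) (j := 5) (m := 2) (n := 3) (x := 1) (u := 6) (by decide)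
  have e1 : S.om (Y S v 2 3 0 6 7) (Y S v 5 7 0 4 6) = 0 := by
    rw [h.om_compl_left (i := 2) (j := 3) (l := 0) (m := 6) (n := 7) (o := 1) (p := 4) (q := 5) (by decide), neg_eq_zero]
    rw [h.om_compl_right (i := 5) (j := 7) (l := 0) (m := 4) (n := 6) (o := 1) (p := 2) (q := 3) (by decide), neg_eq_zero]
    rw [S.om_anti, neg_eq_zero]
    simpa only [Y12, Y34, h.Y45] using h.yyB (i := 5) (j := 7) (m := 2) (n := 3) (x := 1) (u := 4) (by decide)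
  have e2 : S.om (Y S v 4 5 0 2 3) (Y S v 5 7 0 4 6) = 0 := by
    simpa only [Y12, Y34, h.Y45] using h.yy1c (i := 5) (j := 4) (l := 0) (m := 2) (n := 3) (o := 7) (p := 1) (q := 6) (by decide) 0 4 6
  have e3 : S.om (Y S v 4 5 0 6 7) (Y S v 5 7 0 4 6) = 0 := by
    simpa only [Y12, Y34, h.Y45] using h.yy1 5 4 7 0 6 0 4 6
  have e4 : S.om (Y S v 6 7 0 2 3) (Y S v 5 7 0 4 6) = 0 := by
    simpa only [Y12, Y34, h.Y45] using h.yy1c (i := 7) (j := 6) (l := 0) (m := 2) (n := 3) (o := 5) (p := 1) (q := 4) (by decide) 0 4 6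
  have e5 : S.om (Y S v 6 7 0 4 5) (Y S v 5 7 0 4 6) = 0 := by
    simpa only [Y12, Y34, h.Y45] using h.yy1 7 6 5 0 4 0 4 6
  simp only [ysum, map_add, LinearMap.add_apply, e0, e1, e2, e3, e4, e5, add_zero, zero_add]

theorem ys_26 (h : IsCfg S v) : S.om (ysum S v) (Y S v 5 7 2 3 4) = 0 := by
  have e0 : S.om (Y S v 2 3 0 4 5) (Y S v 5 7 2 3 4) = 0 := by
    rw [S.om_anti, neg_eq_zero]
    simpa only [Y12, Y34, h.Y45] using h.yyB (i := 5) (j := 7) (m := 2) (n := 3) (x := 4) (u := 0) (by decide)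
  have e1 : S.om (Y S v 2 3 0 6 7) (Y S v 5 7 2 3 4) = 0 := by
    rw [h.om_compl_left (i := 2) (j := 3) (l := 0) (m := 6) (n := 7) (o := 1) (p := 4) (q := 5) (by decide), neg_eq_zero]
    rw [S.om_anti, neg_eq_zero]
    simpa only [Y12, Y34, h.Y45] using h.yyB (i := 5) (j := 7) (m := 2) (n := 3) (x := 4) (u := 1) (by decide)
  have e2 : S.om (Y S v 4 5 0 2 3) (Y S v 5 7 2 3 4) = 0 := by
    simpa only [Y12, Y34, h.Y45] using h.yy1c (i := 5) (j := 4) (l := 0) (m := 2) (n := 3) (o := 7) (p := 1) (q := 6) (by decide) 2 3 4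
  have e3 : S.om (Y S v 4 5 0 6 7) (Y S v 5 7 2 3 4) = 0 := by
    simpa only [Y12, Y34, h.Y45] using h.yy1 5 4 7 0 6 2 3 4
  have e4 : S.om (Y S v 6 7 0 2 3) (Y S v 5 7 2 3 4) = 0 := by
    simpa only [Y12, Y34, h.Y45] using h.yy1c (i := 7) (j := 6) (l := 0) (m := 2) (n := 3) (o := 5) (p := 1) (q := 4) (by decide) 2 3 4
  have e5 : S.om (Y S v 6 7 0 4 5) (Y S v 5 7 2 3 4) = 0 := by
    simpa only [Y12, Y34, h.Y45] using h.yy1 7 6 5 0 4 2 3 4
  simp only [ysum, map_add, LinearMap.add_apply, e0, e1, e2, e3, e4, e5, add_zero, zero_add]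

theorem ys_27 (h : IsCfg S v) : S.om (ysum S v) (Y S v 5 7 2 3 6) = 0 := by
  have e0 : S.om (Y S v 2 3 0 4 5) (Y S v 5 7 2 3 6) = 0 := by
    rw [h.om_compl_left (i := 2) (j := 3) (l := 0) (m := 4) (n := 5) (o := 1) (p := 6) (q := 7) (by decide), neg_eq_zero]
    rw [S.om_anti, neg_eq_zero]
    simpa only [Y12, Y34, h.Y45] using h.yyB (i := 7) (j := 5) (m := 2) (n := 3) (x := 6) (u := 1) (by decide)
  have e1 : S.om (Y S v 2 3 0 6 7) (Y S v 5 7 2 3 6) = 0 := by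
    rw [S.om_anti, neg_eq_zero]
    simpa only [Y12, Y34, h.Y45] using h.yyB (i := 7) (j := 5) (m := 2) (n := 3) (x := 6) (u := 0) (by decide)
  have e2 : S.om (Y S v 4 5 0 2 3) (Y S v 5 7 2 3 6) = 0 := by
    simpa only [Y12, Y34, h.Y45] using h.yy1c (i := 5) (j := 4) (l := 0) (m := 2) (n := 3) (o := 7) (p := 1) (q := 6) (by decide) 2 3 6
  have e3 : S.om (Y S v 4 5 0 6 7) (Y S v 5 7 2 3 6) = 0 := by
    simpa only [Y12, Y34, h.Y45] using h.yy1 5 4 7 0 6 2 3 6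
  have e4 : S.om (Y S v 6 7 0 2 3) (Y S v 5 7 2 3 6) = 0 := by
    simpa only [Y12, Y34, h.Y45] using h.yy1c (i := 7) (j := 6) (l := 0) (m := 2) (n := 3) (o := 5) (p := 1) (q := 4) (by decide) 2 3 6
  have e5 : S.om (Y S v 6 7 0 4 5) (Y S v 5 7 2 3 6) = 0 := by
    simpa only [Y12, Y34, h.Y45] using h.yy1 7 6 5 0 4 2 3 6
  simp only [ysum, map_add, LinearMap.add_apply, e0, e1, e2, e3, e4, e5, add_zero, zero_add]

end IsCfg

end Cfsg.Agent.R2.PX.W
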